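/-
Elements of a `p`-group with small commutator on an elementary abelian `2`-group commute in
their action, `p` a Fermat prime.
-/
import Mathlib
import Cfsg.Agent.Lib.PGroups.Omega
import Cfsg.Agent.Lib.PGroups.NormalAbelian

set_option autoImplicit false
set_option linter.style.haveILetI false
set_option linter.unusedSectionVars false

namespace CfsgLib.HallHigmanExc

universe v w

variable {M : Type v} [AddCommGroup M] {R : Type w} [Group R]

/-- The displacement of the endomorphism of `z`. -/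
def disp (φ : R →* AddMonoid.End M) (z : R) : M →+ M where
  toFun m := φ z m - m
  map_zero' := by rw [map_zero, sub_zero]
  map_add' a b := by rw [map_add]; abel

theorem disp_apply (φ : R →* AddMonoid.End M) (z : R) (m : M) : disp φ z m = φ z m - m := rfl

theorem mem_disp_ker {φ : R →* AddMonoid.End M} {z : R} {m : M} :
    m ∈ (disp φ z).ker ↔ φ z m = m := by rw [AddMonoidHom.mem_ker, disp_apply, sub_eq_zero]

theorem end_map_mul_apply (φ : R →* AddMonoid.End M) (a b : R) (m : M) :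
    φ (a * b) m = φ a (φ b m) := by rw [map_mul]; rfl

theorem end_map_one_apply (φ : R →* AddMonoid.End M) (m : M) : φ (1 : R) m = m := by
  rw [map_one]; rfl

theorem end_eq_one_iff {f : AddMonoid.End M} : f = 1 ↔ ∀ m, f m = m :=
  ⟨fun h m => by rw [h]; rfl, fun h => AddMonoidHom.ext h⟩

/-- Small displacement, or a cube of small displacement. -/
def SmallDisp (p : ℕ) (φ : R →* AddMonoid.End M) (z : R) : Prop :=
  Nat.card (disp φ z).range ≤ (p - 1) ^ 2 ∨
    (p = 3 ∧ ∃ w : R, w ^ 3 = z ∧ Nat.card (disp φ z).range ≤ 64)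

/-- The action on an invariant subgroup. -/
def subAction (φ : R →* AddMonoid.End M) (N : AddSubgroup M) (h : ∀ r, ∀ m ∈ N, φ r m ∈ N) :
    R →* AddMonoid.End N where
  toFun r :=
    ({ toFun := fun m => ⟨(φ r : AddMonoid.End M) (m : M), h r m m.2⟩
       map_zero' := Subtype.ext (map_zero (φ r))
       map_add' := fun a b => Subtype.ext (map_add (φ r) (a : M) (b : M)) } : N →+ N)
  map_one' := AddMonoidHom.ext fun m => Subtype.ext (end_map_one_apply φ (m : M))
  map_mul' r s := AddMonoidHom.ext fun m => Subtype.ext (end_map_mul_apply φ r s (m : M))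

theorem subAction_apply (φ : R →* AddMonoid.End M) (N : AddSubgroup M)
    (h : ∀ r, ∀ m ∈ N, φ r m ∈ N) (r : R) (m : N) :
    ((subAction φ N h r m : N) : M) = φ r m := rfl

/-- The action on the quotient by an invariant subgroup. -/
def quotAction (φ : R →* AddMonoid.End M) (N : AddSubgroup M) (h : ∀ r, ∀ m ∈ N, φ r m ∈ N) :
    R →* AddMonoid.End (M ⧸ N) where
  toFun r := QuotientAddGroup.map N N (φ r) (fun m hm => h r m hm)
  map_one' := AddMonoidHom.ext fun m => by
    induction m using QuotientAddGroup.induction_on with | _ m =>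
    exact congrArg QuotientAddGroup.mk (end_map_one_apply φ m)
  map_mul' r s := AddMonoidHom.ext fun m => by
    induction m using QuotientAddGroup.induction_on with | _ m =>
    exact congrArg QuotientAddGroup.mk (end_map_mul_apply φ r s m)

theorem card_disp_subAction_le [Finite M] (φ : R →* AddMonoid.End M) (N : AddSubgroup M)
    (h : ∀ r, ∀ m ∈ N, φ r m ∈ N) (z : R) :
    Nat.card (disp (subAction φ N h) z).range ≤ Nat.card (disp φ z).range := by
  refine Nat.card_le_card_of_injective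
    (fun x => ⟨((x : N) : M), by obtain ⟨_, m, rfl⟩ := x; exact ⟨(m : M), rfl⟩⟩) fun x y hxy => ?_
  exact Subtype.ext (Subtype.ext (congrArg Subtype.val hxy :))

theorem card_disp_quotAction_le [Finite M] (φ : R →* AddMonoid.End M) (N : AddSubgroup M)
    (h : ∀ r, ∀ m ∈ N, φ r m ∈ N) (z : R) :
    Nat.card (disp (quotAction φ N h) z).range ≤ Nat.card (disp φ z).range := by
  refine Nat.card_le_card_of_surjective
    (fun x => ⟨QuotientAddGroup.mk (x : M), by
      obtain ⟨_, m, rfl⟩ := x; exact ⟨(m : M), rfl⟩⟩) ?_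
  rintro ⟨_, y, rfl⟩
  induction y using QuotientAddGroup.induction_on with | _ y =>
  exact ⟨⟨_, y, rfl⟩, rfl⟩

theorem eq_zero_of_odd_nsmul (hM : ∀ m : M, m + m = 0) {k : ℕ} (hk : Odd k) {m : M}
    (h : k • m = 0) : m = 0 := by
  obtain ⟨a, rfl⟩ := hk
  rwa [succ_nsmul, mul_nsmul, two_nsmul, hM, nsmul_zero, zero_add] at h

theorem odd_nsmul (hM : ∀ m : M, m + m = 0) {k : ℕ} (hk : Odd k) (m : M) : k • m = m := by
  obtain ⟨a, rfl⟩ := hk
  rw [succ_nsmul, mul_nsmul, two_nsmul, hM, nsmul_zero, zero_add]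

/-- An element of odd order trivial on `N` and on `M / N` is trivial. -/
theorem eq_one_of_trivial (hM : ∀ m : M, m + m = 0) (φ : R →* AddMonoid.End M) {c : R} {k : ℕ}
    (hk : Odd k) (hck : c ^ k = 1) {N : AddSubgroup M} (h1 : ∀ m ∈ N, φ c m = m)
    (h2 : ∀ m, φ c m - m ∈ N) : φ c = 1 := by
  refine end_eq_one_iff.2 fun m => ?_
  have h3 : ∀ i : ℕ, φ (c ^ i) m = m + i • (φ c m - m) := by
    intro i
    induction i with
    | zero => rw [pow_zero, end_map_one_apply, zero_nsmul, add_zero]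
    | succ i ih =>
      rw [pow_succ', end_map_mul_apply, ih, map_add, map_nsmul, h1 _ (h2 m), succ_nsmul]
      abel
  have h4 := h3 k
  rw [hck, end_map_one_apply, left_eq_add] at h4
  exact sub_eq_zero.1 (eq_zero_of_odd_nsmul hM hk h4)

/-- The sum over the powers of `u`. -/
def powSum (φ : R →* AddMonoid.End M) (p : ℕ) (u : R) : M →+ M :=
  ∑ i ∈ Finset.range p, (φ (u ^ i) : M →+ M)

theorem powSum_apply (φ : R →* AddMonoid.End M) (p : ℕ) (u : R) (m : M) :
    powSum φ p u m = ∑ i ∈ Finset.range p, φ (u ^ i) m :=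
  AddMonoidHom.finsetSum_apply _ _ _

theorem powSum_of_fixed (hM : ∀ m : M, m + m = 0) (φ : R →* AddMonoid.End M) {p : ℕ} (hp : Odd p)
    {u : R} {m : M} (h : φ u m = m) : powSum φ p u m = m := by
  have h1 : ∀ i : ℕ, φ (u ^ i) m = m := by
    intro i
    induction i with
    | zero => rw [pow_zero, end_map_one_apply]
    | succ i ih => rw [pow_succ', end_map_mul_apply, ih, h]
  rw [powSum_apply, Finset.sum_congr rfl fun i _ => h1 i, Finset.sum_const, Finset.card_range,
    odd_nsmul hM hp]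

theorem apply_powSum (φ : R →* AddMonoid.End M) {p : ℕ} {u : R} (hu : u ^ p = 1) (m : M) :
    φ u (powSum φ p u m) = powSum φ p u m := by
  rw [powSum_apply, map_sum]
  have h : ∀ i, φ u (φ (u ^ i) m) = φ (u ^ (i + 1)) m := fun i => by
    rw [pow_succ', end_map_mul_apply]
  rw [Finset.sum_congr rfl fun i _ => h i]
  have h2 := (Finset.sum_range_succ' (fun i => φ (u ^ i) m) p).symm.trans
    (Finset.sum_range_succ (fun i => φ (u ^ i) m) p)
  simp only [pow_zero, hu] at h2
  exact add_right_cancel h2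

theorem powSum_comm (φ : R →* AddMonoid.End M) {p : ℕ} {u u' : R} (h : u' * u = u * u') {m : M}
    (hm : φ u' m = m) : φ u' (powSum φ p u m) = powSum φ p u m := by
  rw [powSum_apply, map_sum]
  refine Finset.sum_congr rfl fun i _ => ?_
  rw [← end_map_mul_apply, (Commute.pow_right (show Commute u' u from h) i).eq, end_map_mul_apply, hm]

/-- The sums over the lines outside the central one add up to the identity. -/
theorem sum_powSum_eq (hM : ∀ m : M, m + m = 0) (φ : R →* AddMonoid.End M) {p : ℕ} (hpo : Odd p)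
    (hp : p.Prime) {u ζ : R} (hζp : ζ ^ p = 1) (_hζ1 : ζ ≠ 1) (hζ0 : ∀ m, φ ζ m = m → m = 0)
    (hc : u * ζ = ζ * u) (m : M) :
    ∑ a ∈ Finset.range p, powSum φ p (u * ζ ^ a) m = m := by
  simp only [powSum_apply]
  rw [Finset.sum_comm, Finset.sum_eq_single 0]
  · simp only [pow_zero, end_map_one_apply, Finset.sum_const, Finset.card_range]
    exact odd_nsmul hM hpo m
  · intro i hi hi0
    have h1 : ∀ a, φ ((u * ζ ^ a) ^ i) m = φ (u ^ i) (φ ((ζ ^ i) ^ a) m) := fun a => by
      rw [(Commute.pow_right (show Commute u ζ from hc) a).mul_pow, ← pow_mul, ← pow_mul, mul_comm a,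
        end_map_mul_apply]
    rw [Finset.sum_congr rfl fun a _ => h1 a, ← map_sum]
    suffices h : ∑ a ∈ Finset.range p, φ ((ζ ^ i) ^ a) m = 0 by rw [h, map_zero]
    refine hζ0 _ ?_
    have hcop : Nat.Coprime i p := ((hp.coprime_iff_not_dvd).2 (fun hd =>
      absurd (Nat.le_of_dvd (Nat.pos_of_ne_zero hi0) hd) (by
        rw [Finset.mem_range] at hi; omega))).symm
    obtain ⟨b, -, hb⟩ := Nat.exists_mul_mod_eq_one_of_coprime hcop hp.one_lt
    have hfix := apply_powSum φ (p := p) (u := ζ ^ i) (by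
      rw [← pow_mul, mul_comm, pow_mul, hζp, one_pow]) m
    rw [← powSum_apply]
    have hall : ∀ c : ℕ, φ ((ζ ^ i) ^ c) (powSum φ p (ζ ^ i) m) = powSum φ p (ζ ^ i) m := by
      intro c
      induction c with
      | zero => rw [pow_zero, end_map_one_apply]
      | succ c ih => rw [pow_succ', end_map_mul_apply, ih, hfix]
    have h2 := hall b
    rwa [← pow_mul, ← Nat.div_add_mod (i * b) p, hb, pow_add, pow_mul, hζp, one_pow, one_mul,
      pow_one] at h2
  · intro h
    exact absurd (Finset.mem_range.2 hp.pos) h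

set_option maxHeartbeats 1000000 in
/-- In a `p`-group acting on an elementary abelian `2`-group two elements of small displacement
commute in their action. -/
theorem commute_of_smallDisp {p : ℕ} [hp : Fact p.Prime] (hp2 : p ≠ 2)
    (hord : ∀ k, 0 < k → p ∣ 2 ^ k - 1 → (p - 1) ^ 2 ≤ 2 ^ k)
    {R : Type w} [Group R] [Finite R] (hR : IsPGroup p R) {M : Type v} [AddCommGroup M] [Finite M]
    (hM : ∀ m : M, m + m = 0) (φ : R →* AddMonoid.End M) {z1 z2 : R} (h1 : SmallDisp p φ z1)
    (h2 : SmallDisp p φ z2) : φ (z1 * z2) = φ (z2 * z1) := by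
  induction hn : Nat.card M using Nat.strong_induction_on generalizing M R with
  | _ n ih =>
  subst hn
  classical
  have hpo : Odd p := hp.out.odd_of_ne_two hp2
  suffices hc : φ (z1 * z2 * z1⁻¹ * z2⁻¹) = 1 by
    calc φ (z1 * z2) = φ (z1 * z2 * z1⁻¹ * z2⁻¹) * φ (z2 * z1) := by rw [← map_mul]; group
      _ = _ := by rw [hc, one_mul]
  by_cases hirr : ∀ N : AddSubgroup M, (∀ r, ∀ m ∈ N, φ r m ∈ N) → N = ⊥ ∨ N = ⊤
  rotate_left
  · -- reducible
    push Not at hirr
    obtain ⟨N, hN, hNb, hNt⟩ := hirr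
    set c := z1 * z2 * z1⁻¹ * z2⁻¹ with hc
    obtain ⟨k, hk⟩ := hR c
    have hdec := AddSubgroup.card_eq_card_quotient_mul_card_addSubgroup N
    have hN1 : 1 < Nat.card N :=
      Finite.one_lt_card_iff_nontrivial.2 (N.nontrivial_iff_ne_bot.2 hNb)
    have hQ1 : 1 < Nat.card (M ⧸ N) := by
      by_contra hle
      refine hNt (AddSubgroup.index_eq_one.1 ?_)
      have h0 : 0 < Nat.card (M ⧸ N) := Nat.card_pos
      show Nat.card (M ⧸ N) = 1
      omega
    have key1 := ih _ (by rw [hdec]; exact lt_mul_of_one_lt_left (by omega) hQ1) hR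
      (fun m => Subtype.ext (hM m)) (subAction φ N hN)
      (h1.imp (le_trans (card_disp_subAction_le φ N hN z1))
        (fun ⟨a, w, b, d⟩ => ⟨a, w, b, le_trans (card_disp_subAction_le φ N hN z1) d⟩))
      (h2.imp (le_trans (card_disp_subAction_le φ N hN z2))
        (fun ⟨a, w, b, d⟩ => ⟨a, w, b, le_trans (card_disp_subAction_le φ N hN z2) d⟩)) rfl
    have key2 := ih _ (by rw [hdec]; exact lt_mul_of_one_lt_right (by omega) hN1) hR
      (fun m => by
        induction m using QuotientAddGroup.induction_on with | _ m =>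
        rw [← QuotientAddGroup.mk_add, hM]; rfl) (quotAction φ N hN)
      (h1.imp (le_trans (card_disp_quotAction_le φ N hN z1))
        (fun ⟨a, w, b, d⟩ => ⟨a, w, b, le_trans (card_disp_quotAction_le φ N hN z1) d⟩))
      (h2.imp (le_trans (card_disp_quotAction_le φ N hN z2))
        (fun ⟨a, w, b, d⟩ => ⟨a, w, b, le_trans (card_disp_quotAction_le φ N hN z2) d⟩)) rfl
    have hcomm : ∀ {A : Type v} [AddCommGroup A] (ψ : R →* AddMonoid.End A),
        ψ (z1 * z2) = ψ (z2 * z1) → ψ c = 1 := by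
      intro A _ ψ h
      calc ψ c = ψ (z1 * z2) * ψ (z1⁻¹ * z2⁻¹) := by rw [← map_mul, hc]; group
        _ = 1 := by rw [h, ← map_mul]; simp [mul_assoc]
    refine eq_one_of_trivial hM φ (hpo.pow) hk (N := N) (fun m hm => ?_) (fun m => ?_)
    · exact congrArg Subtype.val (end_eq_one_iff.1 (hcomm _ key1) ⟨m, hm⟩)
    · have h := end_eq_one_iff.1 (hcomm _ key2) (m : M ⧸ N)
      rw [sub_eq_neg_add, ← QuotientAddGroup.eq]
      exact h.symm
  -- irreducible: pass to the faithful quotient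
  set K := φ.ker with hK
  let ψ : R ⧸ K →* AddMonoid.End M := QuotientGroup.lift K φ le_rfl
  have hψ : ∀ r : R, ψ r = φ r := fun r => rfl
  have hψinj : ∀ a b, ψ a = ψ b → a = b := by
    intro a b h
    have h3 : ψ (a⁻¹ * b) = 1 := by rw [map_mul, ← h, ← map_mul, inv_mul_cancel, map_one]
    obtain ⟨r, hr⟩ := QuotientGroup.mk'_surjective K (a⁻¹ * b)
    rw [← hr] at h3
    have h4 : a⁻¹ * b = 1 := hr ▸ (QuotientGroup.eq_one_iff r).2 (MonoidHom.mem_ker.2 h3)
    exact inv_mul_eq_one.1 h4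
  have hRb : IsPGroup p (R ⧸ K) := hR.to_quotient K
  by_cases hab : ∀ a b : R ⧸ K, a * b = b * a
  · have h := congrArg ψ (hab z1 z2)
    rw [← QuotientGroup.mk_mul, ← QuotientGroup.mk_mul, hψ, hψ] at h
    calc φ (z1 * z2 * z1⁻¹ * z2⁻¹) = φ (z1 * z2) * φ (z1⁻¹ * z2⁻¹) := by rw [← map_mul]; group
      _ = 1 := by rw [h, ← map_mul]; simp [mul_assoc]
  have hnc : ¬ IsCyclic (R ⧸ K) := fun h => hab fun a b =>
    (IsCyclic.isMulCommutative (α := R ⧸ K)).is_comm.comm a b
  obtain ⟨U, hUn, ⟨hUab, hUexp⟩, hUcard⟩ := CfsgLib.PGroups.exists_normal_elemAb_sq hp2 hRb hnc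
  have hUcomm : ∀ a ∈ U, ∀ b ∈ U, a * b = b * a := fun a ha b hb =>
    congrArg Subtype.val (hUab.is_comm.comm (⟨a, ha⟩ : U) ⟨b, hb⟩)
  obtain ⟨Z1, hZ1n, hZ1U, hZ1c⟩ := CfsgLib.PGroups.exists_normal_card_le hRb hUcard (Nat.le_succ 1)
  rw [pow_one] at hZ1c
  obtain ⟨ζ, hζZ, hζ1⟩ : ∃ ζ ∈ Z1, ζ ≠ 1 := (Subgroup.bot_or_exists_ne_one _).resolve_left fun h => by
    rw [h, Subgroup.card_bot] at hZ1c
    exact hp.out.ne_one hZ1c.symm
  have hζU : ζ ∈ U := hZ1U hζZ
  have hζc : ζ ∈ Subgroup.center (R ⧸ K) := CfsgLib.PGroups.le_center_of_card_eq_prime hRb hZ1c hζZ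
  have hζp : ζ ^ p = 1 := hUexp ζ hζU
  -- `ζ` fixes no point
  have hζ0 : ∀ m, ψ ζ m = m → m = 0 := by
    rcases hirr (disp ψ ζ).ker (fun r m hm => by
        rw [mem_disp_ker] at hm ⊢
        rw [← hψ r, ← end_map_mul_apply, (Subgroup.mem_center_iff.1 hζc _).symm,
          end_map_mul_apply, hm]) with h | h
    · intro m hm
      rw [← AddSubgroup.mem_bot, ← h]
      exact mem_disp_ker.2 hm
    · exact absurd (hψinj ζ 1 (by
        rw [map_one]
        exact end_eq_one_iff.2 fun m => mem_disp_ker.1 (h ▸ AddSubgroup.mem_top m))) hζ1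
  set Z0 := Subgroup.zpowers ζ with hZ0
  have hZ0c : Nat.card Z0 = p := by
    rw [Nat.card_zpowers]; exact orderOf_eq_prime hζp hζ1
  haveI : Z0.Normal := ⟨fun a ha g => by
    have hac : a ∈ Subgroup.center (R ⧸ K) := Subgroup.zpowers_le.2 hζc ha
    rwa [Subgroup.mem_center_iff.1 hac g, mul_inv_cancel_right]⟩
  have hsupU : ∀ u ∈ U, u ∉ Z0 → U = Z0 ⊔ Subgroup.zpowers u := by
    intro u hu hu0
    refine (Subgroup.eq_of_le_of_card_ge (sup_le (Subgroup.zpowers_le.2 hζU)
      (Subgroup.zpowers_le.2 hu)) ?_).symm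
    have hlt : Z0 < Z0 ⊔ Subgroup.zpowers u := lt_of_le_of_ne le_sup_left fun h =>
      hu0 (h ▸ Subgroup.mem_sup_right (Subgroup.mem_zpowers u))
    have := CfsgLib.PGroups.prime_mul_card_le hRb hlt
    rw [hZ0c] at this
    rw [hUcard, pow_two]
    exact this
  -- fixed points of two independent elements of `U`
  have hindep : ∀ u ∈ U, ∀ u' ∈ U, u ∉ Z0 → u' ∉ Subgroup.zpowers u →
      ∀ m, ψ u m = m → ψ u' m = m → m = 0 := by
    intro u hu u' hu' hu0 hu'u m hm hm'
    refine hζ0 m ?_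
    let F : Subgroup (R ⧸ K) :=
      { carrier := {r | ψ r m = m}
        one_mem' := end_map_one_apply ψ m
        mul_mem' := fun {a b} (ha : ψ a m = m) (hb : ψ b m = m) => by
          show ψ (a * b) m = m
          rw [end_map_mul_apply, hb, ha]
        inv_mem' := fun {a} (ha : ψ a m = m) => by
          show ψ a⁻¹ m = m
          conv_lhs => rw [← ha, ← end_map_mul_apply, inv_mul_cancel, end_map_one_apply] }
    have hlt : Subgroup.zpowers u < Subgroup.zpowers u ⊔ Subgroup.zpowers u' :=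
      lt_of_le_of_ne le_sup_left fun h =>
        hu'u (h ▸ Subgroup.mem_sup_right (Subgroup.mem_zpowers u'))
    have h5 := CfsgLib.PGroups.prime_mul_card_le hRb hlt
    rw [Nat.card_zpowers, orderOf_eq_prime (hUexp u hu)
      (fun h => hu0 (h ▸ Z0.one_mem)), ← pow_two, ← hUcard] at h5
    have h6 : U ≤ F := by
      rw [← Subgroup.eq_of_le_of_card_ge (sup_le (Subgroup.zpowers_le.2 hu)
        (Subgroup.zpowers_le.2 hu')) h5]
      exact sup_le (Subgroup.zpowers_le.2 hm) (Subgroup.zpowers_le.2 hm')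
    exact h6 hζU
  have hproj : ∀ u ∈ U, ∀ u' ∈ U, u ∉ Z0 → u' ∉ Subgroup.zpowers u → ∀ m, ψ u' m = m →
      powSum ψ p u m = 0 := fun u hu u' hu' hu0 hu'u m hm =>
    hindep u hu u' hu' hu0 hu'u _
      (apply_powSum ψ (hUexp u hu) m)
      (powSum_comm ψ (hUcomm u' hu' u hu) hm)
  -- the translates of `u` by `ζ`
  have hnmem : ∀ u ∈ U, u ∉ Z0 → ∀ b : R ⧸ K, b ∈ Z0 → b ≠ 1 →
      u * b ∉ Subgroup.zpowers u ∧ u ∉ Subgroup.zpowers (u * b) ∧ u * b ∉ Z0 := by
    intro u hu hu0 b hb hb1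
    have hub0 : u * b ∉ Z0 := fun h => hu0 ((Z0.mul_mem_cancel_right hb).1 h)
    have key : ∀ x ∈ U, x ∉ Z0 → b ∉ Subgroup.zpowers x := by
      intro x hx hx0 hbx
      have ho : orderOf x = p :=
        orderOf_eq_prime (hUexp x hx) (fun h => hx0 (h ▸ Z0.one_mem))
      have h5 : Subgroup.zpowers x = Z0 := by
        have hbo : orderOf b = p := by
          refine orderOf_eq_prime ?_ hb1
          exact hUexp b (Subgroup.zpowers_le.2 hζU hb)
        have e1 := Subgroup.eq_of_le_of_card_ge (Subgroup.zpowers_le.2 hbx)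
          (by rw [Nat.card_zpowers, Nat.card_zpowers, ho, hbo])
        have e2 := Subgroup.eq_of_le_of_card_ge (Subgroup.zpowers_le.2 hb)
          (by rw [hZ0c, Nat.card_zpowers, hbo])
        rw [← e1, e2]
      exact hx0 (h5 ▸ Subgroup.mem_zpowers x)
    refine ⟨fun h => key u hu hu0 ?_, fun h => key (u * b) (U.mul_mem hu
      (Subgroup.zpowers_le.2 hζU hb)) hub0 ?_, hub0⟩
    · exact ((Subgroup.zpowers u).mul_mem_cancel_left (Subgroup.mem_zpowers u)).1 h
    · exact ((Subgroup.zpowers (u * b)).mul_mem_cancel_left h).1 (Subgroup.mem_zpowers (u * b))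
  -- conjugation moves `u` inside its coset
  have hconj : ∀ (s : R ⧸ K), ∀ u ∈ U, ∃ b ∈ Z0, s * u * s⁻¹ = u * b := by
    intro s u hu
    by_cases hu0 : u ∈ Z0
    · exact ⟨1, one_mem _, by
        rw [mul_one, Subgroup.mem_center_iff.1 (Subgroup.zpowers_le.2 hζc hu0) s,
          mul_inv_cancel_right]⟩
    have hUsup := hsupU u hu hu0
    let π := QuotientGroup.mk' Z0
    haveI : (U.map π).Normal := hUn.map π (QuotientGroup.mk'_surjective Z0)
    have hUm : U.map π = Subgroup.zpowers (π u) := by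
      have h0 : Z0.map π = ⊥ :=
        (Subgroup.map_eq_bot_iff _).2 (by rw [QuotientGroup.ker_mk'])
      rw [hUsup, Subgroup.map_sup, h0, bot_sup_eq, MonoidHom.map_zpowers]
    have hπu : Nat.card (U.map π) = p := by
      rw [hUm, Nat.card_zpowers]
      refine orderOf_eq_prime ?_ (fun h => hu0 ((QuotientGroup.eq_one_iff u).1 h))
      rw [← map_pow, show u ^ p = 1 from hUexp u hu, map_one]
    have hz := CfsgLib.PGroups.le_center_of_card_eq_prime (hRb.to_quotient Z0) hπu
      (Subgroup.mem_map_of_mem π hu)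
    refine ⟨u⁻¹ * (s * u * s⁻¹), ?_, by group⟩
    rw [← QuotientGroup.eq_one_iff]
    show π (u⁻¹ * (s * u * s⁻¹)) = 1
    rw [map_mul, map_mul, map_mul, Subgroup.mem_center_iff.1 hz (π s), map_inv, map_inv,
      mul_inv_cancel_right, inv_mul_cancel]
  set C := Subgroup.centralizer (U : Set (R ⧸ K)) with hC
  have hfixC : ∀ s : R ⧸ K, ∀ u ∈ U, u ∉ Z0 → s * u * s⁻¹ = u → s ∈ C := by
    intro s u hu hu0 h
    have hle : U ≤ Subgroup.centralizer ({s} : Set (R ⧸ K)) := by
      rw [hsupU u hu hu0]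
      refine sup_le (Subgroup.zpowers_le.2 ?_) (Subgroup.zpowers_le.2 ?_)
      · exact Subgroup.mem_centralizer_singleton_iff.2 (Subgroup.mem_center_iff.1 hζc s).symm
      · exact Subgroup.mem_centralizer_singleton_iff.2 (mul_inv_eq_iff_eq_mul.1 h).symm
    exact Subgroup.mem_centralizer_iff.2 fun x hx =>
      Subgroup.mem_centralizer_singleton_iff.1 (hle hx)
  have hmove : ∀ s : R ⧸ K, s ∉ C → ∀ u ∈ U, u ∉ Z0 →
      ∃ u' u'', u' ∈ U ∧ u'' ∈ U ∧ u' ∉ Z0 ∧ u'' ∉ Z0 ∧ s * u * s⁻¹ = u' ∧ s * u' * s⁻¹ = u'' ∧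
        u ∉ Subgroup.zpowers u' ∧ u' ∉ Subgroup.zpowers u'' ∧ u ∉ Subgroup.zpowers u'' ∧
        u'' ∉ Subgroup.zpowers u' ∧ u' ∉ Subgroup.zpowers u ∧ u'' ∉ Subgroup.zpowers u := by
    intro s hs u hu hu0
    obtain ⟨b, hb, he⟩ := hconj s u hu
    have hb1 : b ≠ 1 := fun h => hs (hfixC s u hu hu0 (by rw [he, h, mul_one]))
    have hbs : s * b * s⁻¹ = b := by
      rw [Subgroup.mem_center_iff.1 (Subgroup.zpowers_le.2 hζc hb) s, mul_inv_cancel_right]
    have hb2 : b * b ≠ 1 := fun h => hb1 (by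
      have hbo : b ^ p = 1 := hUexp b (Subgroup.zpowers_le.2 hζU hb)
      obtain ⟨a, ha⟩ := hpo
      rwa [ha, pow_succ, pow_mul, pow_two, h, one_pow, one_mul] at hbo)
    have he2 : s * (u * b) * s⁻¹ = u * (b * b) := by
      calc s * (u * b) * s⁻¹ = (s * u * s⁻¹) * (s * b * s⁻¹) := by group
        _ = u * (b * b) := by rw [he, hbs, mul_assoc]
    have hbU : b ∈ U := Subgroup.zpowers_le.2 hζU hb
    obtain ⟨a1, a2, a3⟩ := hnmem u hu hu0 b hb hb1
    obtain ⟨b1', b2', b3'⟩ := hnmem u hu hu0 (b * b) (Z0.mul_mem hb hb) hb2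
    obtain ⟨c1, c2, -⟩ := hnmem (u * b) (U.mul_mem hu hbU) a3 b hb hb1
    rw [mul_assoc] at c1 c2
    exact ⟨u * b, u * (b * b), U.mul_mem hu hbU, U.mul_mem hu (U.mul_mem hbU hbU), a3, b3', he, he2,
      a2, c2, b2', c1, a1, b1'⟩
  -- the size of a fixed point group
  have hbig : ∀ u ∈ U, ∀ m₀ : M, m₀ ≠ 0 → ψ u m₀ = m₀ →
      (p - 1) ^ 2 ≤ Nat.card (disp ψ u).ker := by
    intro u hu m₀ hm₀ hum₀
    set N := (disp ψ u).ker with hN
    have hinv : ∀ m ∈ N, ψ ζ m ∈ N := fun m hm => by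
      rw [mem_disp_ker] at hm ⊢
      rw [← end_map_mul_apply, Subgroup.mem_center_iff.1 hζc u, end_map_mul_apply, hm]
    haveI : Nontrivial N := ⟨⟨⟨m₀, mem_disp_ker.2 hum₀⟩, 0, fun h => hm₀ (congrArg Subtype.val h :)⟩⟩
    let σ : Equiv.Perm N := Equiv.ofBijective (fun m => ⟨ψ ζ m, hinv m m.2⟩)
      (Finite.injective_iff_bijective.1 fun a b h => Subtype.ext (sub_eq_zero.1 (hζ0 _ (by
        have h' : ψ ζ (a : M) = ψ ζ (b : M) := congrArg Subtype.val h
        have : ψ ζ ((a : M) - b) = 0 := by rw [map_sub, h', sub_self]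
        have h8 := congrArg (ψ (ζ⁻¹)) this
        rw [← end_map_mul_apply, inv_mul_cancel, end_map_one_apply, map_zero] at h8
        rw [h8, map_zero]))))
    have hσ : ∀ (i : ℕ) (m : N), ((σ ^ i) m : M) = ψ (ζ ^ i) m := by
      intro i
      induction i with
      | zero => intro m; rw [pow_zero, pow_zero, Equiv.Perm.one_apply, end_map_one_apply]
      | succ i ih' =>
        intro m
        rw [pow_succ', pow_succ', Equiv.Perm.mul_apply, end_map_mul_apply, ← ih']
        rfl
    haveI : Fintype N := Fintype.ofFinite N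
    have hmod := Equiv.Perm.card_fixedPoints_modEq (p := p) (n := 1) (f := (σ : N → N))
      (by
        refine funext fun m => Subtype.ext ?_
        show (((σ : N → N)^[p ^ 1]) m : M) = (m : M)
        rw [pow_one, ← Equiv.Perm.coe_pow, hσ, hζp, end_map_one_apply])
    have hfix : Fintype.card (Function.fixedPoints (σ : N → N)) = 1 := by
      rw [Fintype.card_eq_one_iff]
      refine ⟨⟨0, Subtype.ext (map_zero (ψ ζ))⟩, fun ⟨m, hm⟩ => Subtype.ext (Subtype.ext ?_)⟩
      exact hζ0 _ (congrArg Subtype.val hm)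
    rw [hfix, ← Nat.card_eq_fintype_card] at hmod
    obtain ⟨k, hk⟩ := IsPGroup.iff_card.1 (show IsPGroup 2 (Multiplicative N) from fun m => ⟨1, by
      rw [pow_one, pow_two]; exact Subtype.ext (hM _)⟩)
    have hk' : Nat.card N = 2 ^ k := hk
    have hk0 : 0 < k := by
      by_contra h
      rw [show k = 0 by omega, pow_zero] at hk'
      exact absurd hk' (Finite.one_lt_card (α := N)).ne'
    rw [hk'] at hmod ⊢
    exact hord k hk0 ((Nat.modEq_iff_dvd' Nat.one_le_two_pow).1 hmod.symm)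
  -- small elements centralize `U`
  have hsmallC : ∀ z : R, SmallDisp p φ z → (z : R ⧸ K) ∈ C := by
    intro z hz
    by_contra hs
    rcases hz with hz | ⟨hp3, w, hw, -⟩
    · obtain ⟨u0, hu0U, hu0Z⟩ : ∃ u ∈ U, u ∉ Z0 := by
        by_contra! h
        have := Subgroup.card_le_of_le (show U ≤ Z0 from h)
        rw [hUcard, hZ0c] at this
        have := hp.out.two_le
        nlinarith
      obtain ⟨m, hm⟩ : ∃ m : M, m ≠ 0 := by
        by_contra! h
        exact hζ1 (hψinj ζ 1 (by rw [map_one]; exact end_eq_one_iff.2 fun m => by rw [h (ψ ζ m), h m]))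
      obtain ⟨u, huU, huZ, m₀, hm₀, hum₀⟩ :
          ∃ u ∈ U, u ∉ Z0 ∧ ∃ m₀ : M, m₀ ≠ 0 ∧ ψ u m₀ = m₀ := by
        by_contra! h
        apply hm
        have hall : ∀ a, powSum ψ p (u0 * ζ ^ a) m = 0 := fun a => by
          have hmem : u0 * ζ ^ a ∈ U := U.mul_mem hu0U (U.pow_mem hζU a)
          by_contra hne
          exact h (u0 * ζ ^ a) hmem (fun h' => hu0Z ((Z0.mul_mem_cancel_right
            (Z0.pow_mem (Subgroup.mem_zpowers ζ) a)).1 h')) _ hne
            (apply_powSum ψ (hUexp _ hmem) m)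
        have := sum_powSum_eq hM ψ hpo hp.out hζp hζ1 hζ0
          (hUcomm u0 hu0U ζ hζU) m
        rw [Finset.sum_eq_zero fun a _ => hall a] at this
        exact this.symm
      obtain ⟨u', u'', hu'U, hu''U, hu'Z, hu''Z, he, he', n1, n2, n3, n4, n5, n6⟩ :=
        hmove _ hs u huU huZ
      have hmap : ∀ v v' : R ⧸ K, (z : R ⧸ K) * v * (z : R ⧸ K)⁻¹ = v' → ∀ a, ψ v a = a →
          ψ v' (φ z a) = φ z a := by
        intro v v' hv a ha
        rw [← hψ, ← end_map_mul_apply, ← hv, inv_mul_cancel_right, end_map_mul_apply, ha]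
      have hinj : Function.Injective (fun x : (disp ψ u).ker × (disp ψ u').ker =>
          (⟨disp φ z ((x.1 : M) + x.2), ⟨_, rfl⟩⟩ : (disp φ z).range)) := by
        intro x y hxy
        have h : disp φ z (((x.1 : M) - y.1) + ((x.2 : M) - y.2)) = 0 := by
          rw [show ((x.1 : M) - y.1) + ((x.2 : M) - y.2) = ((x.1 : M) + x.2) - (y.1 + y.2) by abel,
            map_sub, sub_eq_zero]
          exact congrArg Subtype.val hxy
        have ha := mem_disp_ker.1 ((disp ψ u).ker.sub_mem x.1.2 y.1.2)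
        have hb := mem_disp_ker.1 ((disp ψ u').ker.sub_mem x.2.2 y.2.2)
        set a := (x.1 : M) - y.1
        set b := (x.2 : M) - y.2
        rw [disp_apply, sub_eq_zero, map_add] at h
        have hza := hmap u u' he a ha
        have hzb := hmap u' u'' he' b hb
        have e1 := congrArg (powSum ψ p u'') h
        rw [map_add, map_add, hproj u'' hu''U u' hu'U hu''Z n2 _ hza,
          powSum_of_fixed hM ψ hpo hzb, hproj u'' hu''U u huU hu''Z n3 _ ha,
          hproj u'' hu''U u' hu'U hu''Z n2 _ hb, add_zero, zero_add] at e1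
        have hb0 : b = 0 := by
          have h8 := congrArg (φ z⁻¹) e1
          rwa [← end_map_mul_apply, inv_mul_cancel, end_map_one_apply, map_zero] at h8
        have e2 := congrArg (powSum ψ p u') h
        rw [hb0, map_zero, add_zero, add_zero, powSum_of_fixed hM ψ hpo hza,
          hproj u' hu'U u huU hu'Z n1 _ ha] at e2
        have ha0 : a = 0 := by
          have h8 := congrArg (φ z⁻¹) e2
          rwa [← end_map_mul_apply, inv_mul_cancel, end_map_one_apply, map_zero] at h8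
        exact Prod.ext (Subtype.ext (sub_eq_zero.1 ha0)) (Subtype.ext (sub_eq_zero.1 hb0))
      have hle := Nat.card_le_card_of_injective _ hinj
      rw [Nat.card_prod] at hle
      have hN1 := hbig u huU m₀ hm₀ hum₀
      have hN2 := hbig u' hu'U (φ z m₀) (fun h => hm₀ (by
        have h8 := congrArg (φ z⁻¹) h
        rwa [← end_map_mul_apply, inv_mul_cancel, end_map_one_apply, map_zero] at h8))
        (hmap u u' he m₀ hum₀)
      have h4 : 4 ≤ (p - 1) ^ 2 := by
        have h3 : 3 ≤ p := by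
          have := hp.out.two_le; omega
        calc 4 = 2 ^ 2 := rfl
          _ ≤ _ := Nat.pow_le_pow_left (by omega) 2
      have := Nat.mul_le_mul hN1 hN2
      nlinarith
    · obtain ⟨u0, hu0U, hu0Z⟩ : ∃ u ∈ U, u ∉ Z0 := by
        by_contra! h
        have := Subgroup.card_le_of_le (show U ≤ Z0 from h)
        rw [hUcard, hZ0c] at this
        have := hp.out.two_le
        nlinarith
      obtain ⟨b, hb, he⟩ := hconj (w : R ⧸ K) u0 hu0U
      have hbc : (w : R ⧸ K) * b * (w : R ⧸ K)⁻¹ = b := by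
        rw [Subgroup.mem_center_iff.1 (Subgroup.zpowers_le.2 hζc hb), mul_inv_cancel_right]
      have hb3 : b ^ 3 = 1 :=
        hp3 ▸ hUexp b (Subgroup.zpowers_le.2 hζU hb)
      refine hs (hfixC _ u0 hu0U hu0Z ?_)
      rw [← hw, QuotientGroup.mk_pow]
      set W := (w : R ⧸ K)
      have e1 : ∀ x, W * (u0 * x) * W⁻¹ = u0 * b * (W * x * W⁻¹) := fun x => by rw [← he]; group
      calc W ^ 3 * u0 * (W ^ 3)⁻¹ = W * (W * (W * u0 * W⁻¹) * W⁻¹) * W⁻¹ := by
            simp [pow_succ, mul_assoc]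
        _ = u0 * b ^ 3 := by
          rw [he, e1, hbc, mul_assoc u0, e1, show W * (b * b) * W⁻¹ = (W * b * W⁻¹) * (W * b * W⁻¹) by group,
            hbc, pow_succ, pow_two, mul_assoc, ← mul_assoc b b b]
        _ = u0 := by rw [hb3, mul_one]
  -- recursion on the fixed point groups
  obtain ⟨u0, hu0U, hu0Z⟩ : ∃ u ∈ U, u ∉ Z0 := by
    by_contra! h
    have := Subgroup.card_le_of_le (show U ≤ Z0 from h)
    rw [hUcard, hZ0c] at this
    have := hp.out.two_le
    nlinarith
  refine end_eq_one_iff.2 fun m => ?_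
  rw [← sum_powSum_eq hM ψ hpo hp.out hζp hζ1 hζ0 (hUcomm u0 hu0U ζ hζU) m, map_sum]
  refine Finset.sum_congr rfl fun a _ => ?_
  set u := u0 * ζ ^ a with hu
  have huU : u ∈ U := U.mul_mem hu0U (U.pow_mem hζU a)
  have huZ : u ∉ Z0 := fun h' => hu0Z ((Z0.mul_mem_cancel_right
    (Z0.pow_mem (Subgroup.mem_zpowers ζ) a)).1 h')
  set N := (disp ψ u).ker with hN
  have hlt : Nat.card N < Nat.card M := by
    refine lt_of_le_of_ne (Nat.card_le_card_of_injective _ Subtype.val_injective) fun h => huZ ?_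
    have htop : N = ⊤ := AddSubgroup.eq_top_of_card_eq N h
    rw [hψinj u 1 (by
      rw [map_one]; exact end_eq_one_iff.2 fun m => mem_disp_ker.1 (show m ∈ N by rw [htop]; exact AddSubgroup.mem_top m))]
    exact Z0.one_mem
  let C' : Subgroup R := C.comap (QuotientGroup.mk' K)
  let φ' : C' →* AddMonoid.End M := φ.comp C'.subtype
  have hinv : ∀ r : C', ∀ x ∈ N, φ' r x ∈ N := fun r x hx => by
    rw [hN, mem_disp_ker] at hx ⊢
    show ψ u (ψ ((r : R) : R ⧸ K) x) = ψ ((r : R) : R ⧸ K) x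
    have hc9 : u * ((r : R) : R ⧸ K) = ((r : R) : R ⧸ K) * u := Subgroup.mem_centralizer_iff.1 r.2 u huU
    rw [← end_map_mul_apply, hc9, end_map_mul_apply, hx]
  have hgood : ∀ (z : R) (hz : SmallDisp p φ z),
      SmallDisp p (subAction φ' N hinv) (⟨z, hsmallC z hz⟩ : C') := by
    intro z hz
    have hle := card_disp_subAction_le φ' N hinv (⟨z, hsmallC z hz⟩ : C')
    rcases hz with hz | ⟨hp3, w, hw, hz64⟩
    · exact Or.inl (le_trans hle hz)
    by_cases hwC : w ∈ C'
    · exact Or.inr ⟨hp3, ⟨w, hwC⟩, Subtype.ext hw, le_trans hle hz64⟩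
    left
    obtain ⟨u', u'', hu'U, hu''U, hu'Z, hu''Z, he, he', n1, n2, n3, n4, n5, n6⟩ :=
      hmove _ hwC u huU huZ
    set T := (disp (subAction φ' N hinv) (⟨z, hsmallC z (Or.inr ⟨hp3, w, hw, hz64⟩)⟩ : C')).range
    have hTmem : ∀ x : T, ((x : N) : M) ∈ (disp φ z).range := by
      rintro ⟨_, y, rfl⟩
      exact ⟨(y : M), rfl⟩
    have hwmem : ∀ x ∈ (disp φ z).range, φ w x ∈ (disp φ z).range := by
      rintro _ ⟨y, rfl⟩
      refine ⟨φ w y, ?_⟩
      rw [disp_apply, disp_apply, map_sub, ← end_map_mul_apply, ← end_map_mul_apply,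
        ← hw, ← pow_succ, ← pow_succ']
    let f : T × T × T → (disp φ z).range := fun x =>
      ⟨((x.1 : N) : M) + φ w ((x.2.1 : N) : M) + φ w (φ w ((x.2.2 : N) : M)),
        add_mem (add_mem (hTmem _) (hwmem _ (hTmem _))) (hwmem _ (hwmem _ (hTmem _)))⟩
    have hinj : Function.Injective f := by
      intro x y hxy
      have h := congrArg Subtype.val hxy
      have hmap : ∀ v v' : R ⧸ K, (w : R ⧸ K) * v * (w : R ⧸ K)⁻¹ = v' → ∀ a, ψ v a = a →
          ψ v' (φ w a) = φ w a := by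
        intro v v' hv a ha
        rw [← hψ, ← end_map_mul_apply, ← hv, inv_mul_cancel_right, end_map_mul_apply, ha]
      have f0 : ∀ t : T, ψ u ((t : N) : M) = ((t : N) : M) := fun t => mem_disp_ker.1 (t : N).2
      have f1 : ∀ t : T, ψ u' (φ w ((t : N) : M)) = φ w ((t : N) : M) := fun t => hmap u u' he _ (f0 t)
      have f2 : ∀ t : T, ψ u'' (φ w (φ w ((t : N) : M))) = φ w (φ w ((t : N) : M)) :=
        fun t => hmap u' u'' he' _ (f1 t)
      have winj : ∀ a b : M, φ w a = φ w b → a = b := fun a b hab' => by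
        have h8 := congrArg (φ w⁻¹) hab'
        rwa [← end_map_mul_apply, ← end_map_mul_apply, inv_mul_cancel, end_map_one_apply,
          end_map_one_apply] at h8
      have e0 := congrArg (powSum ψ p u) h
      simp only [f, map_add, powSum_of_fixed hM ψ hpo (f0 _),
        hproj u huU u' hu'U huZ n5 _ (f1 _), hproj u huU u'' hu''U huZ n6 _ (f2 _), add_zero] at e0
      have e1 := congrArg (powSum ψ p u') h
      simp only [f, map_add, powSum_of_fixed hM ψ hpo (f1 _),
        hproj u' hu'U u huU hu'Z n1 _ (f0 _), hproj u' hu'U u'' hu''U hu'Z n4 _ (f2 _), add_zero,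
        zero_add] at e1
      have e2 := congrArg (powSum ψ p u'') h
      simp only [f, map_add, powSum_of_fixed hM ψ hpo (f2 _),
        hproj u'' hu''U u huU hu''Z n3 _ (f0 _), hproj u'' hu''U u' hu'U hu''Z n2 _ (f1 _),
        zero_add] at e2
      exact Prod.ext (Subtype.ext (Subtype.ext e0)) (Prod.ext (Subtype.ext (Subtype.ext (winj _ _ e1)))
        (Subtype.ext (Subtype.ext (winj _ _ (winj _ _ e2)))))
    have h3 := le_trans (Nat.card_le_card_of_injective f hinj) hz64
    rw [Nat.card_prod, Nat.card_prod] at h3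
    rw [hp3]
    show Nat.card T ≤ 4
    by_contra hgt
    have : 5 * (5 * 5) ≤ Nat.card T * (Nat.card T * Nat.card T) :=
      Nat.mul_le_mul (by omega) (Nat.mul_le_mul (by omega) (by omega))
    omega
  have hkey := ih _ hlt (hR.to_subgroup C') (fun x => Subtype.ext (hM _)) (subAction φ' N hinv)
    (hgood z1 h1) (hgood z2 h2) rfl
  have hm : powSum ψ p u m ∈ N :=
    mem_disp_ker.2 (apply_powSum ψ (hUexp u huU) m)
  have h9 : subAction φ' N hinv
      ((⟨z1, hsmallC z1 h1⟩ : C') * ⟨z2, hsmallC z2 h2⟩ * (⟨z1, hsmallC z1 h1⟩ : C')⁻¹ *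
        (⟨z2, hsmallC z2 h2⟩ : C')⁻¹) = 1 := by
    rw [mul_assoc (_ * _), map_mul, hkey, ← map_mul]
    simp [mul_assoc]
  exact congrArg Subtype.val (end_eq_one_iff.1 h9 ⟨_, hm⟩)

end CfsgLib.HallHigmanExc
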