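/-
In a faithful representation in characteristic `p` without normal `p`-subgroups, the `p ^ n`th
powers of the elements of a `p`-subgroup satisfying the exponent relation commute.
-/
import Mathlib
import Cfsg.Agent.S3784
import Cfsg.Agent.Lib.HallHigmanExc.Module
import Cfsg.Agent.Lib.HallHigmanExc.SmallCommutators

set_option autoImplicit false
set_option linter.style.haveILetI false
set_option linter.unusedSectionVars false

open scoped commutatorElement

namespace CfsgLib.HallHigmanExc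

open Cfsg CfsgLib.Cores CfsgLib.PSolvable CfsgLib.CoprimeAction

universe u v w

variable {G : Type w} [Group G]

/-- A coprime group acting on `F` without centralizing it moves an invariant Sylow subgroup. -/
theorem exists_invariant_moved [Finite G] {A F : Subgroup G}
    (hAF : A ≤ Subgroup.normalizer (F : Set G)) (hcop : (Nat.card A).Coprime (Nat.card F))
    (hsolv : Group.IsSolvable A) {D : Set G} (hD : ¬ D ⊆ (Subgroup.centralizer (F : Set G) : Set G)) :
    ∃ q : ℕ, q.Prime ∧ q ∣ Nat.card F ∧ ∃ Q : Subgroup G, IsPGroup q Q ∧ Q ≤ F ∧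
      A ≤ Subgroup.normalizer (Q : Set G) ∧ ¬ D ⊆ (Subgroup.centralizer (Q : Set G) : Set G) := by
  classical
  by_contra! hall
  refine hD ?_
  set C := F ⊓ Subgroup.centralizer D with hC
  have hCF : Nat.card F ∣ Nat.card C := by
    rw [← Nat.factorization_le_iff_dvd Nat.card_pos.ne' Nat.card_pos.ne']
    intro q
    by_cases hq : q.Prime ∧ q ∣ Nat.card F
    · obtain ⟨hq, hqF⟩ := hq
      haveI : Fact q.Prime := ⟨hq⟩
      obtain ⟨P, hP⟩ := exists_invariant_sylow hAF hcop (Or.inl hsolv) q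
      have hle : (P : Subgroup F).map F.subtype ≤ C := by
        refine le_inf (Subgroup.map_subtype_le _) fun g hg => ?_
        rw [Subgroup.mem_centralizer_iff]
        intro a ha
        exact (Subgroup.mem_centralizer_iff.1 (hall q hq hqF _ (P.isPGroup'.map _)
          (Subgroup.map_subtype_le _) hP ha) g hg).symm
      have h1 := Subgroup.card_dvd_of_le hle
      rw [Subgroup.card_map_of_injective F.subtype_injective, P.card_eq_multiplicity] at h1
      exact (hq.pow_dvd_iff_le_factorization Nat.card_pos.ne').1 h1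
    · rw [not_and_or] at hq
      rcases hq with hq | hq
      · simp [Nat.factorization_eq_zero_of_not_prime _ hq]
      · simp [Nat.factorization_eq_zero_of_not_dvd hq]
  have hCeq : C = F := Subgroup.eq_of_le_of_card_ge inf_le_left (Nat.le_of_dvd Nat.card_pos hCF)
  intro a ha
  rw [SetLike.mem_coe, Subgroup.mem_centralizer_iff]
  intro f hf
  have h2 : f ∈ C := hCeq.symm ▸ hf
  exact (Subgroup.mem_centralizer_iff.1 h2.2 a ha).symm

variable {K : Type u} [Field K] {V : Type v} [AddCommGroup V] [Module K V]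
  {ρ : G →* Module.End K V} {Q : Subgroup G} {e : Module.End K V}

theorem rho_mul_inv (g : G) : ρ g * ρ g⁻¹ = 1 ∧ ρ g⁻¹ * ρ g = 1 :=
  ⟨by rw [← map_mul, mul_inv_cancel, map_one], by rw [← map_mul, inv_mul_cancel, map_one]⟩

theorem mul_eq_iff_commutator (hQe : ∀ g ∈ Q, Commute (ρ g) e) {a b : G} (ha : a ∈ Q) (hb : b ∈ Q) :
    ρ a * ρ b * e = ρ b * ρ a * e ↔ ρ ⁅a, b⁆ * e = e := by
  have h1 : ρ a * ρ b * e = ρ ⁅a, b⁆ * (ρ b * ρ a * e) := by
    rw [← mul_assoc, ← map_mul, ← map_mul, ← map_mul, commutatorElement_def]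
    congr 2
    group
  have h2 : ρ b * ρ a * e = e * (ρ b * ρ a) := by
    rw [mul_assoc, (hQe a ha).eq, ← mul_assoc, (hQe b hb).eq, mul_assoc]
  have h3 : ρ b * ρ a * (ρ a⁻¹ * ρ b⁻¹) = 1 := by
    rw [mul_assoc, ← mul_assoc (ρ a), (rho_mul_inv a).1, one_mul, (rho_mul_inv b).1]
  constructor
  · intro h
    rw [h, h2, ← mul_assoc] at h1
    have h4 := congrArg (fun f => f * (ρ a⁻¹ * ρ b⁻¹)) h1
    have h5 : ρ b * (ρ a * (ρ a⁻¹ * ρ b⁻¹)) = 1 := by rw [← mul_assoc, h3]
    simp only [mul_assoc, h5, mul_one] at h4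
    exact h4.symm
  · intro h
    rw [h1, h2, ← mul_assoc, h]

/-- The commutator form is fixed by an element commuting with the block. -/
theorem commutator_conj_eq [Finite G] (hQe : ∀ g ∈ Q, Commute (ρ g) e)
    (hcl : ⁅Q, Q⁆ ≤ Subgroup.centralizer (Q : Set G))
    (hcomm : ∀ a ∈ Q, ∀ b ∈ Q, ∃ c : K, ρ (a * b * a⁻¹ * b⁻¹) * e = c • e) {a c d : G} (ha : a ∈ Q)
    (hc : c ∈ Q) (hd : d ∈ Subgroup.normalizer (Q : Set G)) (hde : Commute (ρ d) e)
    (hdc : d * c = c * d) : ρ ⁅⁅a, d⁆, c⁆ * e = e := by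
  set a' := d * a * d⁻¹ with ha'
  have ha'Q : a' ∈ Q := (Subgroup.mem_normalizer_iff.1 hd a).1 ha
  obtain ⟨l, hl⟩ := hcomm a ha c hc
  rw [← commutatorElement_def] at hl
  have h1 : ⁅a', c⁆ = d * ⁅a, c⁆ * d⁻¹ := by
    rw [conjugate_commutatorElement, show d * c * d⁻¹ = c by rw [hdc, mul_inv_cancel_right]]
  have hdi : Commute (ρ d⁻¹) e := by
    have h1 : Commute ((ρ.toHomUnits d : (Module.End K V)ˣ) : Module.End K V) e := hde
    have h2 := h1.units_inv_left
    rw [← map_inv] at h2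
    exact h2
  have h2 : ρ ⁅a', c⁆ * e = l • e := by
    rw [h1, map_mul, map_mul, mul_assoc, hdi.eq, mul_assoc, ← mul_assoc (ρ ⁅a, c⁆), hl,
      smul_mul_assoc, mul_smul_comm, ← mul_assoc, hde.eq, mul_assoc, (rho_mul_inv d).1, mul_one]
  have hz : ⁅a', c⁆ ∈ Subgroup.centralizer (Q : Set G) := hcl (Subgroup.commutator_mem_commutator ha'Q hc)
  have hg : ⁅a, d⁆ = a * a'⁻¹ := by rw [ha', commutatorElement_def]; group
  have h3 : ⁅a, c⁆ = ⁅⁅a, d⁆, c⁆ * ⁅a', c⁆ := by
    have hcom : ⁅a', c⁆ * a = a * ⁅a', c⁆ := (Subgroup.mem_centralizer_iff.1 hz a ha).symm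
    have hz2 : ⁅a', c⁆ * ⁅⁅a, d⁆, c⁆ = ⁅⁅a, d⁆, c⁆ * ⁅a', c⁆ := by
      refine (Subgroup.mem_centralizer_iff.1 hz _ ?_).symm
      exact commutator_le_left Subgroup.le_normalizer (Subgroup.commutator_mem_commutator
        (hg ▸ Q.mul_mem ha (Q.inv_mem ha'Q)) hc)
    have h5 : a * a'⁻¹ * ⁅a', c⁆ * (a * a'⁻¹)⁻¹ = ⁅a', c⁆ := by
      rw [mul_inv_eq_iff_eq_mul]
      exact Subgroup.mem_centralizer_iff.1 hz _ (Q.mul_mem ha (Q.inv_mem ha'Q))
    calc ⁅a, c⁆ = (a * a'⁻¹ * ⁅a', c⁆ * (a * a'⁻¹)⁻¹) * ⁅a * a'⁻¹, c⁆ := by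
          rw [commutatorElement_def, commutatorElement_def, commutatorElement_def]; group
      _ = _ := by rw [h5, ← hg, hz2]
  have h4 : l • e = l • (ρ ⁅⁅a, d⁆, c⁆ * e) := by
    conv_lhs => rw [← hl, h3, map_mul, mul_assoc, h2, mul_smul_comm]
  by_cases hl0 : l = 0
  · have h5 : e = 0 := by
      rw [hl0, zero_smul] at hl
      have h6 := congrArg (ρ ⁅a, c⁆⁻¹ * ·) hl
      simp only [← mul_assoc, (rho_mul_inv (ρ := ρ) ⁅a, c⁆).2, one_mul, mul_zero] at h6
      exact h6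
    rw [h5, mul_zero]
  · exact (smul_right_injective _ hl0 h4).symm

theorem commute_inv {g : G} (h : Commute (ρ g) e) : Commute (ρ g⁻¹) e := by
  have h1 : Commute ((ρ.toHomUnits g : (Module.End K V)ˣ) : Module.End K V) e := h
  have h2 := h1.units_inv_left
  rw [← map_inv] at h2
  exact h2

/-- The elements of `Q` commuting with `c` on the block. -/
def blockFixer (hQe : ∀ g ∈ Q, Commute (ρ g) e) {c : G} (hc : c ∈ Q) : Subgroup G where
  carrier := {g | g ∈ Q ∧ ρ g * ρ c * e = ρ c * ρ g * e}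
  one_mem' := ⟨Q.one_mem, by rw [map_one, mul_one, one_mul]⟩
  mul_mem' {x x'} hx hx' := ⟨Q.mul_mem hx.1 hx'.1, by
    rw [map_mul]
    calc ρ x * ρ x' * ρ c * e = ρ x * (ρ x' * ρ c * e) := by simp only [mul_assoc]
      _ = ρ x * ρ c * (ρ x' * e) := by rw [hx'.2]; simp only [mul_assoc]
      _ = ρ x * ρ c * e * ρ x' := by rw [(hQe x' hx'.1).eq]; simp only [mul_assoc]
      _ = ρ c * ρ x * (e * ρ x') := by rw [hx.2]; simp only [mul_assoc]
      _ = _ := by rw [← (hQe x' hx'.1).eq]; simp only [mul_assoc]⟩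
  inv_mem' {x} hx := ⟨Q.inv_mem hx.1, by
    have h1 : ρ x⁻¹ * e = e * ρ x⁻¹ := (hQe _ (Q.inv_mem hx.1)).eq
    calc ρ x⁻¹ * ρ c * e = ρ x⁻¹ * ρ c * ρ x * ρ x⁻¹ * e := by
          rw [mul_assoc (ρ x⁻¹ * ρ c), (rho_mul_inv x).1, mul_one]
      _ = ρ x⁻¹ * (ρ c * ρ x * e) * ρ x⁻¹ := by simp only [mul_assoc, h1]
      _ = ρ c * (e * ρ x⁻¹) := by
          rw [← hx.2]; simp only [← mul_assoc, (rho_mul_inv x).2, one_mul]
      _ = _ := by rw [← h1, mul_assoc]⟩

theorem exists_block_relation_pow [Finite G] [IsAlgClosed K] [FiniteDimensional K V] {p q : ℕ}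
    [hp : Fact p.Prime] [Fact q.Prime] (hQ : IsPGroup q Q) (hqK : (q : K) ≠ 0) {y : G}
    (hy : y ∈ Subgroup.normalizer (Q : Set G)) {n : ℕ}
    (hrel : y ^ p ^ (n + 1) = 1 ∧ ∑ i ∈ Finset.range (p ^ (n + 1)), ρ y ^ i = 0)
    {l : centerImage ρ Q →* Kˣ} (hl : blk (centerImage ρ Q) l ≠ 0) :
    ∃ t, t ≤ n ∧ Commute (ρ (y ^ p ^ t)) (blk (centerImage ρ Q) l) ∧
      ∃ c : ℕ → K, c ((p ^ (n + 1) - 1) / p ^ t) ≠ 0 ∧
        (∑ i ∈ Finset.range ((p ^ (n + 1) - 1) / p ^ t + 1), c i • ρ (y ^ p ^ t) ^ i) *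
          blk (centerImage ρ Q) l = 0 := by
  obtain ⟨a, -, hadvd, has, -, hcomm, c', hc', hrel'⟩ :=
    exists_block_relation (centerImage ρ Q) (card_centerImage_ne_zero hQ hqK)
      (mem_normalizer_centerImage (ρ := ρ) hy) (θ := ρ.toHomUnits y) (P := p ^ (n + 1))
      (by rw [← map_pow, hrel.1, map_one]) (s := p ^ (n + 1) - 1)
      (Nat.sub_lt (pow_pos hp.out.pos _) one_pos) (c := fun _ => 1) one_ne_zero
      (by
        rw [Nat.sub_add_cancel (Nat.one_le_pow _ _ hp.out.pos)]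
        simpa using hrel.2) hl
  obtain ⟨t, htn, rfl⟩ := (Nat.dvd_prime_pow hp.out).1 hadvd
  have htn' : t ≤ n := by
    by_contra h
    rw [show t = n + 1 by omega] at has
    have := Nat.one_le_pow (n + 1) p hp.out.pos
    omega
  refine ⟨t, htn', by rw [map_pow]; exact hcomm, c', hc', ?_⟩
  simp only [map_pow]
  exact hrel'

theorem pow_commute_blk [Finite G] [IsAlgClosed K] [FiniteDimensional K V] {p q : ℕ}
    [Fact p.Prime] [Fact q.Prime] (hQ : IsPGroup q Q) (hqK : (q : K) ≠ 0) {y : G}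
    (hy : y ∈ Subgroup.normalizer (Q : Set G)) {n : ℕ}
    (hrel : y ^ p ^ (n + 1) = 1 ∧ ∑ i ∈ Finset.range (p ^ (n + 1)), ρ y ^ i = 0)
    {l : centerImage ρ Q →* Kˣ} (hl : blk (centerImage ρ Q) l ≠ 0) :
    Commute (ρ (y ^ p ^ n)) (blk (centerImage ρ Q) l) := by
  obtain ⟨t, ht, hc, -⟩ := exists_block_relation_pow hQ hqK hy hrel hl
  rw [show y ^ p ^ n = (y ^ p ^ t) ^ p ^ (n - t) by rw [← pow_mul, ← pow_add]; congr 2; omega, map_pow]
  exact hc.pow_left _

variable {p : ℕ} [Fact p.Prime]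

theorem sq_sub_one_le_of_dvd (hp : p.Prime) {b : ℕ} (hb : p = 2 ^ b + 1) :
    ∀ k, 0 < k → p ∣ 2 ^ k - 1 → (p - 1) ^ 2 ≤ 2 ^ k := by
  intro k hk hdvd
  have hsq : (p - 1) ^ 2 = 2 ^ (b * 2) := by rw [hb, Nat.add_sub_cancel, ← pow_mul]
  rw [hsq]
  refine Nat.pow_le_pow_right two_pos ?_
  by_contra hlt
  rcases le_or_gt k b with hkb | hkb
  · have h1 : 2 ^ k ≤ 2 ^ b := Nat.pow_le_pow_right two_pos hkb
    have h2 : 1 < 2 ^ k := Nat.one_lt_pow hk.ne' one_lt_two
    have := Nat.le_of_dvd (by omega) hdvd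
    omega
  · obtain ⟨i, rfl⟩ : ∃ i, k = b + i := ⟨k - b, by omega⟩
    have hi : i < b := by omega
    have h1 : 1 ≤ 2 ^ (b + i) := Nat.one_le_two_pow
    have h2 : p ∣ 2 ^ i + 1 := by
      have h3 : p ∣ 2 ^ i * p - (2 ^ (b + i) - 1) := Nat.dvd_sub (dvd_mul_left p _) hdvd
      have h4 : 2 ^ i * p - (2 ^ (b + i) - 1) = 2 ^ i + 1 := by
        have h5 : 2 ^ i * p = 2 ^ (b + i) + 2 ^ i := by rw [hb, pow_add]; ring
        rw [h5]
        clear h5
        have := Nat.one_le_two_pow (n := i)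
        generalize 2 ^ (b + i) = X at h1 ⊢
        omega
      rwa [h4] at h3
    have h3 : 2 ^ i < 2 ^ b := Nat.pow_lt_pow_right one_lt_two hi
    have h6 : 1 ≤ 2 ^ i := Nat.one_le_two_pow
    have := Nat.le_of_dvd (by omega) h2
    omega

set_option maxHeartbeats 1000000 in
/-- The `p ^ n`th powers in a `p`-subgroup commute. -/
theorem pow_commute [Finite G] [IsAlgClosed K] [FiniteDimensional K V] [CharP K p] (hp2 : p ≠ 2)
    (hsol : IsPSolvable p G) (hcore : pCore p G = ⊥) (hρ : Function.Injective ρ) {T : Subgroup G}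
    (hT : IsPGroup p T) {n : ℕ}
    (hrel : ∀ y ∈ T, y ^ p ^ (n + 1) = 1 ∧ ∑ i ∈ Finset.range (p ^ (n + 1)), ρ y ^ i = 0)
    {y1 y2 : G} (hy1 : y1 ∈ T) (hy2 : y2 ∈ T) :
    y1 ^ p ^ n * y2 ^ p ^ n = y2 ^ p ^ n * y1 ^ p ^ n := by
  classical
  have hp : p.Prime := Fact.out
  by_contra hne
  set gens : Set G := {g | ∃ a ∈ T, ∃ b ∈ T, g = ⁅a ^ p ^ n, b ^ p ^ n⁆} with hgens
  set D := Subgroup.closure gens with hD
  have hgT : gens ⊆ T := by
    rintro _ ⟨a, ha, b, hb, rfl⟩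
    rw [commutatorElement_def]
    exact T.mul_mem (T.mul_mem (T.mul_mem (T.pow_mem ha _) (T.pow_mem hb _))
      (T.inv_mem (T.pow_mem ha _))) (T.inv_mem (T.pow_mem hb _))
  have hDT : D ≤ T := (Subgroup.closure_le _).2 hgT
  have hTD : T ≤ Subgroup.normalizer (D : Set G) := by
    intro t ht
    rw [← conj_smul_eq_self]
    have key : ∀ s ∈ T, D.map (MulAut.conj s).toMonoidHom ≤ D := by
      intro s hs
      rw [hD, MonoidHom.map_closure, Subgroup.closure_le]
      rintro _ ⟨_, ⟨a, ha, b, hb, rfl⟩, rfl⟩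
      refine Subgroup.subset_closure ⟨s * a * s⁻¹, T.mul_mem (T.mul_mem hs ha) (T.inv_mem hs),
        s * b * s⁻¹, T.mul_mem (T.mul_mem hs hb) (T.inv_mem hs), ?_⟩
      rw [map_commutatorElement]
      simp [conj_pow]
    refine le_antisymm (key t ht) fun x hx => ⟨t⁻¹ * x * t, key t⁻¹ (T.inv_mem ht) ⟨x, hx, by simp⟩, ?_⟩
    simp [mul_assoc]
  set F := pPrimeCore p G with hF
  have hFp : ¬ p ∣ Nat.card F := not_dvd_card_pPrimeCore
  obtain ⟨jT, hjT⟩ := IsPGroup.iff_card.1 hT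
  have hcopT : (Nat.card T).Coprime (Nat.card F) := by
    rw [hjT]; exact (hp.coprime_iff_not_dvd.2 hFp).pow_left jT
  have hTF : T ≤ Subgroup.normalizer (F : Set G) := by
    haveI : F.Normal := by rw [hF]; infer_instance
    rw [Subgroup.normalizer_eq_top]
    exact le_top
  haveI := hT.isNilpotent
  have hTsol : Group.IsSolvable T := inferInstance
  obtain ⟨q, hq, hqF, Q₁, hQ₁, -, hTQ₁, hDQ₁⟩ :=
    exists_invariant_moved hTF hcopT hTsol (D := (D : Set G)) (by
      intro h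
      apply hne
      have hc : ⁅y1 ^ p ^ n, y2 ^ p ^ n⁆ ∈ D := Subgroup.subset_closure ⟨y1, hy1, y2, hy2, rfl⟩
      rw [← commutatorElement_eq_one_iff_mul_comm]
      obtain ⟨i, hi⟩ := IsPGroup.iff_orderOf.1 hT ⟨_, hDT hc⟩
      rw [Subgroup.orderOf_mk] at hi
      exact orderOf_eq_one_iff.1 (Nat.eq_one_of_dvd_coprimes
        ((hp.coprime_iff_not_dvd.2 hFp).pow_left i) (hi ▸ dvd_rfl)
        (Subgroup.orderOf_dvd_natCard F
          (MetacyclicP.centralizer_pPrimeCore_le_self hsol hcore (h hc)))))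
  haveI := Fact.mk hq
  have hpq : p ≠ q := fun h => hFp (h ▸ hqF)
  have hqK : (q : K) ≠ 0 := by
    rw [Ne, CharP.cast_eq_zero_iff K p q]
    exact fun h => hpq ((Nat.prime_dvd_prime_iff_eq hp hq).1 h)
  obtain ⟨Q, hQm⟩ := exists_minimal_of_wellFoundedLT (fun R : Subgroup G =>
    IsPGroup q R ∧ T ≤ Subgroup.normalizer (R : Set G) ∧ ¬ D ≤ Subgroup.centralizer (R : Set G))
    ⟨Q₁, hQ₁, hTQ₁, hDQ₁⟩
  obtain ⟨hQ, hTQ, hDQ⟩ := hQm.prop
  have hmin : ∀ R : Subgroup G, R < Q → T ≤ Subgroup.normalizer (R : Set G) →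
      D ≤ Subgroup.centralizer (R : Set G) := fun R hR hTR => by
    by_contra h
    exact hR.not_ge (hQm.le_of_le ⟨hQ.to_le hR.le, hTR, h⟩ hR.le)
  have hcopTQ : (Nat.card T).Coprime (Nat.card Q) := by
    obtain ⟨j, hj⟩ := IsPGroup.iff_card.1 hQ
    rw [hjT, hj]
    exact (((Nat.coprime_primes hp hq).2 hpq).pow_left jT).pow_right j
  obtain ⟨hgen, hcl, -⟩ := structure_of_minimal (A := T) (D := D) hQ hTQ hTD (hDT.trans hTQ)
    (hcopTQ.coprime_dvd_left (Subgroup.card_dvd_of_le hDT)) hDQ hmin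
  haveI := hQ.isNilpotent
  have hQsol : Group.IsSolvable Q := inferInstance
  have hQ1 : Q ≠ ⊥ := fun h => hDQ fun x _ => Subgroup.mem_centralizer_iff.2 fun g hg => by
    rw [h, SetLike.mem_coe, Subgroup.mem_bot] at hg
    simp [hg]
  -- the Frattini subgroup of `Q` is central in `Q`
  set Φ := (frattini Q).map Q.subtype with hΦ
  have hΦQ : Φ ≤ Q := Subgroup.map_subtype_le _
  have hΦn : ∀ x ∈ Subgroup.normalizer (Q : Set G), x ∈ Subgroup.normalizer (Φ : Set G) := by
    intro x hx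
    refine mem_normalizer_of_conj_mem ?_
    rintro _ ⟨g, hg, rfl⟩
    exact ⟨Subgroup.normalizerMonoidHom Q ⟨x, hx⟩ g,
      (Subgroup.characteristic_iff_map_le.1 (inferInstance : (frattini Q).Characteristic) _)
        ⟨g, hg, rfl⟩, rfl⟩
  have hΦlt : Φ < Q := by
    refine lt_of_le_of_ne hΦQ fun h => hQ1 ?_
    have h2 : frattini Q = ⊤ := Subgroup.map_injective Q.subtype_injective
      (h.trans (Subgroup.range_subtype Q).symm |>.trans (MonoidHom.range_eq_map _))
    have h3 : (⊥ : Subgroup Q) = ⊤ := frattini_nongenerating (by rw [bot_sup_eq, h2])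
    rw [← Subgroup.range_subtype Q, MonoidHom.range_eq_map, ← h3, Subgroup.map_bot]
  have hDΦ := hmin Φ hΦlt fun x hx => hΦn x (hTQ hx)
  have hΦc : Φ ≤ Subgroup.centralizer (Q : Set G) := by
    rw [← Subgroup.commutator_eq_bot_iff_le_centralizer]
    have hQDΦ : ⁅⁅Q, D⁆, Φ⁆ = ⊥ := by
      refine Subgroup.commutator_commutator_eq_bot_of_rotate ?_ ?_
      · rw [Subgroup.commutator_eq_bot_iff_le_centralizer.2 hDΦ, Subgroup.commutator_bot_left]
      · refine le_bot_iff.1 (le_trans (Subgroup.commutator_mono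
          (commutator_le_left fun x hx => hΦn x (Subgroup.le_normalizer hx)) le_rfl) ?_)
        rw [Subgroup.commutator_comm, Subgroup.commutator_eq_bot_iff_le_centralizer.2 hDΦ]
    refine le_bot_iff.1 ((Subgroup.commutator_mono le_rfl hgen).trans ?_)
    rw [Subgroup.commutator_comm, hQDΦ]
  have hpowq : ∀ a ∈ Q, a ^ q ∈ Subgroup.centralizer (Q : Set G) := fun a ha =>
    hΦc ⟨⟨a, ha⟩ ^ q, CfsgLib.PGroups.pow_mem_frattini hQ ⟨a, ha⟩, rfl⟩
  have hA := card_centerImage_ne_zero (ρ := ρ) hQ hqK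
  -- everything is decided on one block
  suffices hblock : ∀ l : centerImage ρ Q →* Kˣ, blk (centerImage ρ Q) l ≠ 0 →
      ∀ g ∈ Q, ∀ b ∈ Q, ρ g * ρ b * blk (centerImage ρ Q) l =
        ρ b * ρ g * blk (centerImage ρ Q) l by
    obtain ⟨hf, hsum⟩ := exists_sum_blk (K := K) (centerImage ρ Q) hA
    have hQab : ∀ g ∈ Q, g ∈ Subgroup.centralizer (Q : Set G) := fun g hg =>
      Subgroup.mem_centralizer_iff.2 fun b hb => hρ (by
        rw [map_mul, map_mul, ← mul_one (ρ b * ρ g), ← mul_one (ρ g * ρ b), ← hsum, Finset.mul_sum,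
          Finset.mul_sum]
        refine Finset.sum_congr rfl fun l _ => ?_
        by_cases hl : blk (centerImage ρ Q) l = 0
        · rw [hl, mul_zero, mul_zero]
        · exact (hblock l hl g hg b hb).symm)
    have htriv : ∀ g ∈ Q, g = 1 := by
      intro g hg
      refine hρ ?_
      rw [map_one, ← mul_one (ρ g), ← hsum, Finset.mul_sum]
      refine Finset.sum_congr rfl fun l _ => ?_
      set e := blk (centerImage ρ Q) l
      by_cases hl : e = 0
      · rw [hl, mul_zero]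
      have hDe : ∀ d ∈ D, Commute (ρ d) e := by
        intro d hd
        induction hd using Subgroup.closure_induction with
        | mem x hx =>
          obtain ⟨a, ha, b, hb, rfl⟩ := hx
          have h1 := pow_commute_blk hQ hqK (hTQ ha) (hrel a ha) hl
          have h2 := pow_commute_blk hQ hqK (hTQ hb) (hrel b hb) hl
          rw [commutatorElement_def, map_mul, map_mul, map_mul]
          exact ((h1.mul_left h2).mul_left (commute_inv h1)).mul_left (commute_inv h2)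
        | one => rw [map_one]; exact Commute.one_left e
        | mul x y _ _ ihx ihy => rw [map_mul]; exact ihx.mul_left ihy
        | inv x _ ih => exact commute_inv ih
      let L : Subgroup G :=
        { carrier := {x | Commute (ρ x) e ∧ ρ x * e = e}
          one_mem' := ⟨by rw [map_one]; exact Commute.one_left e, by rw [map_one, one_mul]⟩
          mul_mem' := fun {x y} hx hy => ⟨by rw [map_mul]; exact hx.1.mul_left hy.1,
            by rw [map_mul, mul_assoc, hy.2, hx.2]⟩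
          inv_mem' := fun {x} hx => ⟨commute_inv hx.1, by
            conv_lhs => rw [← hx.2, ← mul_assoc, (rho_mul_inv (ρ := ρ) x).2, one_mul]⟩ }
      have hle : ⁅Q, D⁆ ≤ L := by
        refine Subgroup.commutator_le.2 fun a ha d hd => ⟨?_, ?_⟩
        · rw [commutatorElement_def, map_mul, map_mul, map_mul]
          exact (((commute_blk_of_mem l ha).mul_left (hDe d hd)).mul_left
            (commute_blk_of_mem l (Q.inv_mem ha))).mul_left (commute_inv (hDe d hd))
        · have hsc : ∀ x ∈ Q, ∃ c : K, ρ x * e = c • e := fun x hx =>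
            ⟨_, mul_blk (centerImage ρ Q) l ⟨_, Subgroup.mem_map_of_mem ρ.toHomUnits
              (show x ∈ Q ⊓ Subgroup.centralizer (Q : Set G) from ⟨hx, hQab x hx⟩)⟩⟩
          obtain ⟨c, hc⟩ := hsc a⁻¹ (Q.inv_mem ha)
          have h2 : ρ (d * a⁻¹ * d⁻¹) * e = c • e := by
            rw [map_mul, map_mul, mul_assoc, (commute_inv (hDe d hd)).eq, mul_assoc, ← mul_assoc (ρ a⁻¹),
              hc, smul_mul_assoc, mul_smul_comm, ← mul_assoc, (hDe d hd).eq, mul_assoc,
              (rho_mul_inv d).1, mul_one]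
          rw [show ⁅a, d⁆ = a * (d * a⁻¹ * d⁻¹) by rw [commutatorElement_def]; group, map_mul,
            mul_assoc, h2, ← hc, ← mul_assoc, (rho_mul_inv a).1, one_mul]
      exact ((hle (hgen hg)).2).trans (one_mul e).symm
    exact hQ1 (eq_bot_iff.2 fun g hg => Subgroup.mem_bot.2 (htriv g hg))
  intro l hl
  set e := blk (centerImage ρ Q) l with he
  have hee : e * e = e := by rw [he, blk_mul_blk _ hA, if_pos rfl]
  have hQe : ∀ g ∈ Q, Commute (ρ g) e := fun g hg => commute_blk_of_mem l hg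
  have hsc : ∀ a ∈ Q, ∀ b ∈ Q, ∃ c : K, ρ (a * b * a⁻¹ * b⁻¹) * e = c • e :=
    fun a ha b hb => scalar_commutators hcl l ha hb
  set S := blockKer ρ Q e hQe with hS
  let Te : Subgroup G :=
    { carrier := {t | t ∈ T ∧ Commute (ρ t) e}
      one_mem' := ⟨T.one_mem, by rw [map_one]; exact Commute.one_left e⟩
      mul_mem' := fun {x y} hx hy => ⟨T.mul_mem hx.1 hy.1, by rw [map_mul]; exact hx.2.mul_left hy.2⟩
      inv_mem' := fun {x} hx => ⟨T.inv_mem hx.1, commute_inv hx.2⟩ }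
  have hzTe : ∀ y ∈ T, y ^ p ^ n ∈ Te := fun y hy =>
    ⟨T.pow_mem hy _, pow_commute_blk hQ hqK (hTQ hy) (hrel y hy) hl⟩
  have hSQ : ⁅Q, Q⁆ ≤ S := commutator_le_blockKer hsc
  haveI hSn : (S.subgroupOf Q).Normal := ⟨fun x hx y => by
    show (y : G) * x * (y : G)⁻¹ ∈ S
    rw [show (y : G) * x * (y : G)⁻¹ = ⁅(y : G), (x : G)⁆ * x by simp [commutatorElement_def, mul_assoc]]
    exact S.mul_mem (hSQ (Subgroup.commutator_mem_commutator y.2 x.2)) hx⟩
  have hMcomm : ∀ a b : Q ⧸ S.subgroupOf Q, a * b = b * a := fun a b => by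
    induction a using QuotientGroup.induction_on with | _ a =>
    induction b using QuotientGroup.induction_on with | _ b =>
    rw [← QuotientGroup.mk_mul, ← QuotientGroup.mk_mul, QuotientGroup.eq]
    refine hSQ ?_
    have h := Subgroup.commutator_mem_commutator (Q.inv_mem b.2) (Q.inv_mem a.2)
    simpa [commutatorElement_def, mul_assoc] using h
  letI : CommGroup (Q ⧸ S.subgroupOf Q) :=
    { (inferInstance : Group (Q ⧸ S.subgroupOf Q)) with mul_comm := hMcomm }
  let mk : Q → Additive (Q ⧸ S.subgroupOf Q) := fun g => Additive.ofMul (g : Q ⧸ S.subgroupOf Q)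
  have hmks : Function.Surjective mk := fun m => by
    obtain ⟨g, hg⟩ := QuotientGroup.mk_surjective (Additive.toMul m)
    exact ⟨g, congrArg Additive.ofMul hg⟩
  have hmk0 : ∀ g : Q, mk g = 0 ↔ (g : G) ∈ S := fun g => QuotientGroup.eq_one_iff g
  let cj : Te → MulAut Q := fun t => Subgroup.normalizerMonoidHom Q ⟨t, hTQ t.2.1⟩
  have hcj : ∀ (t : Te) (g : Q), ((cj t g : Q) : G) = t * g * (t : G)⁻¹ := fun _ _ => rfl
  let act : Te → AddMonoid.End (Additive (Q ⧸ S.subgroupOf Q)) := fun t =>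
    MonoidHom.toAdditive (QuotientGroup.map _ (S.subgroupOf Q) (cj t).toMonoidHom (fun x hx =>
      show ((cj t x : Q) : G) ∈ S from
        (Subgroup.mem_normalizer_iff.1 (blockKer_normalizer (hTQ t.2.1) t.2.2) _).1 hx))
  have hact : ∀ t g, act t (mk g) = mk (cj t g) := fun t g => rfl
  let φ : Te →* AddMonoid.End (Additive (Q ⧸ S.subgroupOf Q)) :=
    { toFun := act
      map_one' := AddMonoidHom.ext fun m => by
        obtain ⟨g, rfl⟩ := hmks m
        refine (hact 1 g).trans (congrArg mk (Subtype.ext ?_))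
        rw [hcj]; simp
      map_mul' := fun s t => AddMonoidHom.ext fun m => by
        obtain ⟨g, rfl⟩ := hmks m
        refine (hact (s * t) g).trans ?_
        show _ = act s (act t (mk g))
        rw [hact, hact]
        refine congrArg mk (Subtype.ext ?_)
        rw [hcj, hcj, hcj]
        simp [mul_assoc] }
  have hφ : ∀ t g, φ t (mk g) = mk (cj t g) := hact
  -- each power is trivial or small
  have hcase : ∀ (y : G) (hy : y ∈ T), φ ⟨_, hzTe y hy⟩ = 1 ∨
      (q = 2 ∧ (∃ b, p = 2 ^ b + 1) ∧ SmallDisp p φ ⟨_, hzTe y hy⟩) := by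
    intro y hy
    obtain ⟨t, htn, hcom, c', hc', hrel'⟩ := exists_block_relation_pow hQ hqK (hTQ hy) (hrel y hy) hl
    obtain ⟨k, hk⟩ : ∃ k, n = t + k := ⟨n - t, by omega⟩
    set z := y ^ p ^ n with hzdef
    have hzy : z = (y ^ p ^ t) ^ p ^ k := by rw [hzdef, ← pow_mul, ← pow_add, hk]
    have hzT : z ∈ T := T.pow_mem hy _
    have hze : Commute (ρ z) e := (hzTe y hy).2
    have hzQ : z ∈ Subgroup.normalizer (Q : Set G) := hTQ hzT
    set Q0 := ⁅Q, Subgroup.zpowers z⁆ with hQ0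
    have hzN : Subgroup.zpowers z ≤ Subgroup.normalizer (Q : Set G) := Subgroup.zpowers_le.2 hzQ
    have hQ0Q : Q0 ≤ Q := commutator_le_left hzN
    have hcopz : (Nat.card (Subgroup.zpowers z)).Coprime (Nat.card Q) :=
      hcopTQ.coprime_dvd_left (Subgroup.card_dvd_of_le (Subgroup.zpowers_le.2 hzT))
    have hy'Q0 : y ^ p ^ t ∈ Subgroup.normalizer (Q0 : Set G) := by
      rw [← conj_smul_eq_self]
      show Subgroup.map (MulAut.conj _).toMonoidHom _ = _
      rw [hQ0, Subgroup.map_commutator]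
      congr 1
      · exact conj_smul_eq_self.2 (Subgroup.pow_mem _ (hTQ hy) _)
      · rw [MonoidHom.map_zpowers]
        congr 1
        rw [hzdef]
        show y ^ p ^ t * y ^ p ^ n * (y ^ p ^ t)⁻¹ = y ^ p ^ n
        rw [← pow_add, add_comm, pow_add, mul_inv_cancel_right]
    have hQ0e : ∀ g ∈ Q0, Commute (ρ g) e := fun g hg => hQe g (hQ0Q hg)
    have hgen0 : Q0 ≤ ⁅Q0, Subgroup.zpowers ((y ^ p ^ t) ^ p ^ (k + 1 - 1))⁆ := by
      rw [Nat.add_sub_cancel, ← hzy, hQ0,
        commutator_commutator_eq hzN hcopz (Or.inr hQsol)]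
    have hdisp : ∀ m, disp φ ⟨z, hzTe y hy⟩ m ∈ mk '' {g : Q | (g : G) ∈ Q0} := by
      intro m
      obtain ⟨a, rfl⟩ := hmks m
      refine ⟨cj ⟨z, hzTe y hy⟩ a * a⁻¹, ?_, ?_⟩
      · show z * (a : G) * z⁻¹ * (a : G)⁻¹ ∈ Q0
        rw [← commutatorElement_def, ← commutatorElement_inv]
        exact Q0.inv_mem (Subgroup.commutator_mem_commutator a.2 (Subgroup.mem_zpowers z))
      · rw [disp_apply, hφ, sub_eq_add_neg]; rfl
    rcases block_dichotomy (p := p) (e := e) (k := k + 1) hqK (hQ.to_le hQ0Q) hee hQ0e hy'Q0 hcom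
        (fun a ha b hb => hsc a (hQ0Q ha) b (hQ0Q hb)) (Nat.le_add_left 1 k)
        (by rw [← pow_mul, ← pow_add, show t + (k + 1) = n + 1 by omega]; exact (hrel y hy).1)
        hgen0
        (s := (p ^ (n + 1) - 1) / p ^ t)
        (by
          rw [Nat.div_lt_iff_lt_mul (pow_pos hp.pos _), ← pow_add, show k + 1 + t = n + 1 by omega]
          exact Nat.sub_lt (pow_pos hp.pos _) one_pos)
        hc' hrel' with htriv | ⟨j, m, hj, hm, hjm, -, hidx⟩
    · left
      refine end_eq_one_iff.2 fun m => sub_eq_zero.1 ?_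
      obtain ⟨g, hg, hgm⟩ := hdisp m
      rw [← disp_apply φ, ← hgm, hmk0]
      refine ⟨g.2, fun b hb => ?_⟩
      rw [mul_assoc, (hQe b hb).eq, ← mul_assoc, htriv _ hg, mul_assoc (ρ b), htriv _ hg,
        (hQe b hb).eq]
    right
    have hq2 : q = 2 := eq_two_of_pow_sub_one hp hp2 hq hm hjm
    subst hq2
    have hpj : p ^ j = 2 ^ m + 1 := by
      have : 1 ≤ p ^ j := Nat.one_le_pow _ _ hp.pos
      have := Nat.one_le_two_pow (n := m)
      omega
    have hj1 : 1 ≤ j := by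
      by_contra h
      rw [show j = 0 by omega, pow_zero] at hpj
      have := Nat.one_le_two_pow (n := m)
      omega
    refine ⟨rfl, exists_fermat_of_pow_sub_one hp hp2 hjm, ?_⟩
    -- the kernel on the commutator is the same
    have hker : blockKer ρ Q0 e hQ0e ≤ S := by
      intro g hg
      refine ⟨hQ0Q hg.1, ?_⟩
      let F : Subgroup G :=
        { carrier := {b | b ∈ Q ∧ ρ g * ρ b * e = ρ b * ρ g * e}
          one_mem' := ⟨Q.one_mem, by rw [map_one, mul_one, one_mul]⟩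
          mul_mem' := fun {x x'} hx hx' => ⟨Q.mul_mem hx.1 hx'.1, by
            rw [map_mul]
            calc ρ g * (ρ x * ρ x') * e = ρ g * ρ x * (ρ x' * e) := by simp only [mul_assoc]
              _ = ρ g * ρ x * e * ρ x' := by rw [(hQe x' hx'.1).eq]; simp only [mul_assoc]
              _ = ρ x * (ρ g * e) * ρ x' := by rw [hx.2]; simp only [mul_assoc]
              _ = ρ x * (ρ g * ρ x' * e) := by
                simp only [mul_assoc]; rw [(hQe x' hx'.1).eq]
              _ = _ := by rw [hx'.2]; simp only [mul_assoc]⟩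
          inv_mem' := fun {x} hx => ⟨Q.inv_mem hx.1, by
            have h8 := congrArg (fun f => ρ x⁻¹ * f * ρ x⁻¹) hx.2
            simp only [← mul_assoc, (rho_mul_inv x).2, one_mul] at h8
            simp only [mul_assoc, ← (hQe x⁻¹ (Q.inv_mem hx.1)).eq] at h8
            simp only [← mul_assoc] at h8
            rw [mul_assoc (ρ x⁻¹ * ρ g), (rho_mul_inv x).1, mul_one] at h8
            exact h8.symm⟩ }
      suffices hle : Q ≤ F from fun b hb => (hle hb).2
      rw [← commutator_sup_centralizer hzN hcopz (Or.inr hQsol)]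
      refine sup_le (fun b hb => ⟨hQ0Q hb, hg.2 b hb⟩) fun c hc => ⟨hc.1, ?_⟩
      have hsub : Q0 ≤ blockFixer (ρ := ρ) hQe hc.1 := by
        refine Subgroup.commutator_le.2 fun a ha d hd => ?_
        have haq : ⁅a, d⁆ ∈ Q := hQ0Q (Subgroup.commutator_mem_commutator ha hd)
        refine ⟨haq, (mul_eq_iff_commutator hQe haq hc.1).2 ?_⟩
        obtain ⟨i, rfl⟩ := (isOfFinOrder_of_finite z).mem_zpowers_iff_mem_range_orderOf.1 hd |>
          Finset.mem_image.1 |>.imp fun _ h => h.2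
        refine commutator_conj_eq hQe hcl hsc ha hc.1 (Subgroup.pow_mem _ hzQ i)
          (by rw [map_pow]; exact hze.pow_left i) ?_
        exact Subgroup.mem_centralizer_iff.1 hc.2 _ (Subgroup.pow_mem _ (Subgroup.mem_zpowers z) i)
      exact (hsub hg.1).2
    have hbound : Nat.card (disp φ ⟨z, hzTe y hy⟩).range ≤ 2 ^ (2 * m) := by
      rw [← hidx, Subgroup.relIndex, Subgroup.index_eq_card]
      have hfq : ∀ a b : Q0, (a : G)⁻¹ * b ∈ blockKer ρ Q0 e hQ0e →
          mk ⟨a, hQ0Q a.2⟩ = mk ⟨b, hQ0Q b.2⟩ := fun a b h =>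
        congrArg Additive.ofMul (QuotientGroup.eq.2 (hker h))
      let f : Q0 ⧸ (blockKer ρ Q0 e hQ0e).subgroupOf Q0 → Additive (Q ⧸ S.subgroupOf Q) :=
        fun x => Quotient.liftOn' x (fun a => mk ⟨a, hQ0Q a.2⟩) fun a b h =>
          hfq a b (Subgroup.mem_subgroupOf.1 ((QuotientGroup.leftRel_apply
            (s := (blockKer ρ Q0 e hQ0e).subgroupOf Q0)).1 h))
      have hsub : ∀ x : (disp φ ⟨z, hzTe y hy⟩).range,
          (x : Additive (Q ⧸ S.subgroupOf Q)) ∈ Set.range f := by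
        rintro ⟨_, m, rfl⟩
        obtain ⟨g, hg, hgm⟩ := hdisp m
        exact ⟨QuotientGroup.mk ⟨g, hg⟩, hgm⟩
      choose r hr using hsub
      exact Nat.card_le_card_of_injective r fun a b h => Subtype.ext (by rw [← hr a, h, hr b])
    rcases Cfsg.Agent.S3784.catalan_q_two p j m hp hj1 hm hpj with ⟨-, -, hp'⟩ | ⟨h9, h8⟩
    · refine Or.inl (hbound.trans_eq ?_)
      rw [hp', Nat.add_sub_cancel, ← pow_mul, mul_comm]
    · right
      have hm3 : m = 3 := Nat.pow_right_injective le_rfl (h8.trans (by norm_num : (8:ℕ) = 2 ^ 3))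
      have hp3 : p = 3 := by
        have h := dvd_pow_self p (show j ≠ 0 by omega)
        rw [h9, show (9 : ℕ) = 3 ^ 2 by norm_num] at h
        exact (Nat.prime_dvd_prime_iff_eq hp Nat.prime_three).1 (hp.dvd_of_dvd_pow h)
      subst hp3
      have hj2 : j = 2 := Nat.pow_right_injective (by norm_num : 2 ≤ 3) (h9.trans (by norm_num))
      refine ⟨rfl, ⟨(y ^ 3 ^ t) ^ 3 ^ (k - 1), T.pow_mem (T.pow_mem hy _) _,
        by rw [map_pow]; exact hcom.pow_left _⟩, Subtype.ext ?_, ?_⟩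
      · show ((y ^ 3 ^ t) ^ 3 ^ (k - 1)) ^ 3 = z
        rw [hzy, ← pow_mul, ← pow_succ, show k - 1 + 1 = k by omega]
      · rw [hm3] at hbound
        exact hbound.trans_eq (by norm_num)
  have hzc : ∀ a (ha : a ∈ T) b (hb : b ∈ T),
      φ (⟨_, hzTe a ha⟩ * ⟨_, hzTe b hb⟩) = φ (⟨_, hzTe b hb⟩ * ⟨_, hzTe a ha⟩) := by
    intro a ha b hb
    rcases hcase a ha with h1 | ⟨hq2, ⟨b', hb'⟩, hs1⟩
    · rw [map_mul, map_mul, h1, one_mul, mul_one]
    rcases hcase b hb with h2 | ⟨-, -, hs2⟩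
    · rw [map_mul, map_mul, h2, one_mul, mul_one]
    subst hq2
    refine commute_of_smallDisp hp2 (sq_sub_one_le_of_dvd hp hb')
      (hT.to_le (show Te ≤ T from fun x hx => hx.1)) (fun m => ?_) φ hs1 hs2
    obtain ⟨g, rfl⟩ := hmks m
    show mk g + mk g = 0
    refine (show mk g + mk g = mk (g * g) from rfl).trans ((hmk0 _).2 ⟨Q.mul_mem g.2 g.2, fun x hx => ?_⟩)
    rw [← map_mul, ← map_mul]
    congr 2
    have h7 := Subgroup.mem_centralizer_iff.1 (hpowq g g.2) x hx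
    rw [pow_two] at h7
    exact h7.symm
  have hDS : ⁅Q, D⁆ ≤ S := by
    have hkerφ : D ≤ φ.ker.map Te.subtype := by
      rw [hD, Subgroup.closure_le]
      rintro _ ⟨a, ha, b, hb, rfl⟩
      refine ⟨⁅(⟨_, hzTe a ha⟩ : Te), (⟨_, hzTe b hb⟩ : Te)⁆, ?_, map_commutatorElement Te.subtype _ _⟩
      rw [SetLike.mem_coe, MonoidHom.mem_ker, commutatorElement_def, mul_assoc (_ * _), map_mul,
        hzc a ha b hb, ← map_mul, ← map_one φ]
      congr 1
      group
    refine Subgroup.commutator_le.2 fun g hg d hd => ?_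
    obtain ⟨t, ht, rfl⟩ := hkerφ hd
    have h := end_eq_one_iff.1 (MonoidHom.mem_ker.1 ht) (mk ⟨g⁻¹, Q.inv_mem hg⟩)
    rw [hφ] at h
    have h2 : (g⁻¹)⁻¹ * ((t : G) * g⁻¹ * (t : G)⁻¹) ∈ S :=
      (QuotientGroup.eq (s := S.subgroupOf Q) (a := (⟨g⁻¹, Q.inv_mem hg⟩ : Q))).1
        (congrArg Additive.toMul h.symm)
    rw [inv_inv] at h2
    simpa [commutatorElement_def, mul_assoc] using h2
  intro g hg b hb
  exact (hDS (hgen hg)).2 b hb

end CfsgLib.HallHigmanExc
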