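/-
The `p`-length of a `p`-solvable group against the exponent of its Sylow `p`-subgroups, `p` odd.
-/
import Mathlib
import Cfsg.Agent.S0633
import Cfsg.Agent.Lib.HallHigmanB.Reduction
import Cfsg.Agent.Lib.HallHigmanExc.PowersCommute

set_option autoImplicit false
set_option linter.style.haveILetI false
set_option linter.unusedSectionVars false

open scoped commutatorElement

namespace CfsgLib.HallHigmanExc

open Cfsg CfsgLib.Cores CfsgLib.PSolvable

universe u w

variable {p : ℕ} [hp : Fact p.Prime]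

/-- Theorem B in the form of a lower bound twice `p ^ n` on the nilpotency. -/
theorem sub_one_pow_ne_zero (hp2 : p ≠ 2) {G : Type w} [Group G] [Finite G] {K : Type u} [Field K]
    [CharP K p] {d : ℕ} {ρ : G →* Module.End K (Fin d → K)} (hsol : IsPSolvable p G)
    (hcore : pCore p G = ⊥) (hρ : Function.Injective ρ) {u : G} {n : ℕ}
    (hu : orderOf u = p ^ (n + 1)) : (ρ u - 1) ^ (2 * p ^ n - 1) ≠ 0 := by
  classical
  intro h0
  let f : G →* ((Fin d → K) ≃ₗ[K] (Fin d → K)) :=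
    (LinearMap.GeneralLinearGroup.generalLinearEquiv K (Fin d → K)).toMonoidHom.comp ρ.toHomUnits
  have hfv : ∀ g, ((f g : (Fin d → K) ≃ₗ[K] (Fin d → K)) : Module.End K (Fin d → K)) = ρ g :=
    fun g => rfl
  have hfinj : Function.Injective f := fun a b h => hρ (by rw [← hfv, ← hfv, h])
  let e : G ≃* f.range := MonoidHom.ofInjective hfinj
  haveI : Finite f.range := Finite.of_equiv G e.toEquiv
  haveI : Nontrivial (Fin d → K) := by
    by_contra hnt
    rw [not_nontrivial_iff_subsingleton] at hnt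
    have h1 : u = 1 := hρ (Subsingleton.elim _ _)
    rw [h1, orderOf_one] at hu
    exact absurd hu.symm (Nat.one_lt_pow (by omega) hp.out.one_lt).ne'
  obtain ⟨r, hrle, hr⟩ : ∃ r, r ≤ 2 * p ^ n - 1 ∧
      minpoly K (ρ u) = (Polynomial.X - 1) ^ r := by
    have hdvd : minpoly K (ρ u) ∣ (Polynomial.X - 1) ^ (2 * p ^ n - 1) :=
      minpoly.dvd K _ (by simpa using h0)
    have hX : Prime (Polynomial.X - 1 : Polynomial K) := by
      simpa using Polynomial.prime_X_sub_C (1 : K)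
    obtain ⟨r, hr, has⟩ := (dvd_prime_pow hX _).1 hdvd
    refine ⟨r, hr, Polynomial.eq_of_monic_of_associated
      (minpoly.monic (Algebra.IsIntegral.isIntegral _)) ?_ has⟩
    exact (Polynomial.monic_X_sub_C (1 : K)).pow r |> fun h => by simpa using h
  have hord : orderOf (f u) = p ^ (n + 1) := by rw [orderOf_injective f hfinj, hu]
  have hcore' : pCore p f.range = ⊥ := by
    rw [← map_pCore_equiv e, hcore, Subgroup.map_bot]
  have hr' : minpoly K ((f u : (Fin d → K) ≃ₗ[K] (Fin d → K)) : Module.End K (Fin d → K)) =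
      (Polynomial.X - 1) ^ r := by rw [hfv]; exact hr
  have hge : 2 * p ^ n ≤ r := by
    have h3 : 3 ≤ p := by have := hp.out.two_le; omega
    have hn1 : 3 * p ^ n ≤ p ^ (n + 1) := by rw [pow_succ']; exact Nat.mul_le_mul_right _ h3
    rcases Cfsg.Agent.S0633.result (F := K) (p := p) f.range (isPSolvable_of_equiv e hsol) hcore'
        (f u) ⟨u, rfl⟩ (n + 1) hord r hr' with h | ⟨n₀, q, m, hn₀, hn₀', -, -, -, -, hle⟩
    · omega
    · refine le_trans ?_ hle
      rw [Nat.mul_sub_one, ← pow_add, show n + 1 - n₀ + n₀ = n + 1 by omega]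
      have : p ^ (n + 1 - n₀) ≤ p ^ n := Nat.pow_le_pow_right hp.out.pos (by omega)
      omega
  have := Nat.one_le_pow n p hp.out.pos
  omega

/-- The exponent passes to quotients. -/
theorem exp_map {G : Type w} [Group G] [Finite G] {H : Type*} [Group H] {f : G →* H}
    (hf : Function.Surjective f) {m : ℕ} (hexp : ∀ g : G, (∃ k, g ^ p ^ k = 1) → g ^ m = 1) :
    ∀ x : H, (∃ k, x ^ p ^ k = 1) → x ^ m = 1 := by
  rintro x ⟨k, hk⟩
  haveI : Finite H := Finite.of_surjective f hf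
  obtain ⟨j, -, hj⟩ := (Nat.dvd_prime_pow hp.out).1 (orderOf_dvd_of_pow_eq_one hk)
  have hz : IsPGroup p (Subgroup.zpowers x) := IsPGroup.of_card (n := j) (by rw [Nat.card_zpowers, hj])
  obtain ⟨T, hT⟩ := hz.exists_le_sylow
  obtain ⟨S, rfl⟩ := Sylow.mapSurjective_surjective hf p T
  obtain ⟨g, hg, rfl⟩ := hT (Subgroup.mem_zpowers x)
  obtain ⟨i, hi⟩ := S.isPGroup' ⟨g, hg⟩
  rw [← map_pow, hexp g ⟨i, congrArg Subtype.val hi⟩, map_one]

set_option maxHeartbeats 1000000 in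
/-- Over two `p`-steps the exponent drops. -/
theorem pow_eq_one_two_steps (hp2 : p ≠ 2) {G : Type w} [Group G] [Finite G]
    (hG : IsPSolvable p G) (hO : pPrimeCore p G = ⊥) {n : ℕ}
    (hexp : ∀ g : G, (∃ k, g ^ p ^ k = 1) → g ^ p ^ (n + 1) = 1)
    (u : ((G ⧸ pCore p G) ⧸ pPrimeCore p (G ⧸ pCore p G)) ⧸
      pCore p ((G ⧸ pCore p G) ⧸ pPrimeCore p (G ⧸ pCore p G)))
    (hu : ∃ k, u ^ p ^ k = 1) : u ^ p ^ n = 1 := by
  classical
  revert u
  set P := pCore p G with hP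
  set K := pPrimeCore p (G ⧸ P) with hK
  set P1 := pCore p ((G ⧸ P) ⧸ K) with hP1
  intro u hu
  by_contra hne
  have hH : IsPSolvable p (G ⧸ P) := isPSolvable_quotient hG P
  have hH1 : IsPSolvable p ((G ⧸ P) ⧸ K) := isPSolvable_quotient hH K
  have hexpH := exp_map (p := p) (QuotientGroup.mk'_surjective P) hexp
  have hexpH1 := exp_map (p := p) (QuotientGroup.mk'_surjective K) hexpH
  have hord : orderOf u = p ^ (n + 1) :=
    orderOf_eq_prime_pow hne (exp_map (p := p) (QuotientGroup.mk'_surjective P1) hexpH1 u hu)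
  -- lift the Sylow subgroup
  obtain ⟨j, hj⟩ := hu
  obtain ⟨i, -, hi⟩ := (Nat.dvd_prime_pow hp.out).1 (orderOf_dvd_of_pow_eq_one hj)
  have hz : IsPGroup p (Subgroup.zpowers u) := IsPGroup.of_card (n := i) (by rw [Nat.card_zpowers, hi])
  obtain ⟨T2, hT2⟩ := hz.exists_le_sylow
  obtain ⟨T1, rfl⟩ := Sylow.mapSurjective_surjective (QuotientGroup.mk'_surjective P1) p T2
  obtain ⟨x, hx, hxu⟩ := hT2 (Subgroup.mem_zpowers u)
  have hP1T : P1 ≤ (T1 : Subgroup ((G ⧸ P) ⧸ K)) := pCore_le_sylow T1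
  obtain ⟨T, rfl⟩ := Sylow.mapSurjective_surjective (QuotientGroup.mk'_surjective K) p T1
  -- the relation on the first module
  obtain ⟨d, r, ρ, hρ, hr, -, hrρ, hspan⟩ := exists_frattini_rep hG hO
  have hPp : IsPGroup p P := isPGroup_pCore p G
  have hrel : ∀ y ∈ (T : Subgroup (G ⧸ P)),
      y ^ p ^ (n + 1) = 1 ∧ ∑ i ∈ Finset.range (p ^ (n + 1)), ρ y ^ i = 0 := by
    intro y hy
    obtain ⟨k, hk⟩ := T.isPGroup' ⟨y, hy⟩
    have hk' : y ^ p ^ k = 1 := congrArg Subtype.val hk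
    refine ⟨hexpH y ⟨k, hk'⟩, ?_⟩
    obtain ⟨g, rfl⟩ := QuotientGroup.mk'_surjective P y
    refine sum_pow_eq_zero r hr ρ hrρ hspan fun a => hexp _ ?_
    have h1 : ((a : G) * g) ^ p ^ k ∈ P := by
      rw [← QuotientGroup.eq_one_iff, QuotientGroup.mk_pow, QuotientGroup.mk_mul,
        (QuotientGroup.eq_one_iff (a : G)).2 a.2, one_mul]
      exact hk'
    obtain ⟨l, hl⟩ := hPp ⟨_, h1⟩
    exact ⟨k + l, by rw [pow_add, pow_mul]; exact congrArg Subtype.val hl⟩
  have hcomm : ∀ a ∈ (T : Subgroup (G ⧸ P)).map (QuotientGroup.mk' K),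
      ∀ b ∈ (T : Subgroup (G ⧸ P)).map (QuotientGroup.mk' K),
      a ^ p ^ n * b ^ p ^ n = b ^ p ^ n * a ^ p ^ n := by
    rintro _ ⟨a, ha, rfl⟩ _ ⟨b, hb, rfl⟩
    rw [← map_pow, ← map_pow, ← map_mul, ← map_mul,
      pow_commute (p := p) hp2 hH (pCore_quotient_pCore p G) hρ T.isPGroup' hrel ha hb]
  -- the second module
  obtain ⟨d1, r1, ρ1, hρ1, hr1, -, hrρ1, hspan1⟩ :=
    exists_frattini_rep hH1 (pPrimeCore_quotient_pPrimeCore (G := G ⧸ P) p)
  have hxu' : (x : ((G ⧸ P) ⧸ K) ⧸ P1) = u := hxu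
  refine sub_one_pow_ne_zero hp2 (isPSolvable_quotient hH1 P1) (pCore_quotient_pCore p _) hρ1 hord
    (LinearMap.ext_on hspan1 ?_)
  rintro _ ⟨v, rfl⟩
  rw [LinearMap.zero_apply]
  obtain ⟨w, hw, hrw⟩ := CfsgLib.MetacyclicP.exists_pow_eq (P := P1) r1 hr1
    (fun a => (ρ1 a).toAddMonoidHom) hrρ1 x v (p ^ n)
  set z := x ^ p ^ n with hz
  have hv : (v : (G ⧸ P) ⧸ K) * x ∈
      (T : Subgroup (G ⧸ P)).map (QuotientGroup.mk' K) :=
    Subgroup.mul_mem _ (hP1T v.2) hx
  have hc := hcomm x hx _ hv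
  rw [hw, ← hz] at hc
  have hzw : z * (w : (G ⧸ P) ⧸ K) * z⁻¹ = w := by
    rw [mul_inv_eq_iff_eq_mul]
    have h9 := congrArg (· * z⁻¹) hc
    simpa [mul_assoc] using h9
  have h1 : ρ1 (z : ((G ⧸ P) ⧸ K) ⧸ P1) (r1 w) = r1 w := by
    rw [← hrρ1]
    exact congrArg r1 (Subtype.ext hzw)
  have hrw2 : r1 w = ((ρ1 u - 1) ^ (p ^ n - 1)) (r1 v) := by
    rw [hrw, CfsgLib.HallHigmanB.sub_one_pow_eq_sum (K := AlgebraicClosure (ZMod p)),
      LinearMap.sum_apply]
    refine Finset.sum_congr rfl fun i _ => ?_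
    rw [Module.End.pow_apply, hxu']
    rfl
  haveI : CharP (AlgebraicClosure (ZMod p)) p :=
    charP_of_injective_algebraMap (algebraMap (ZMod p) _).injective p
  rw [show 2 * p ^ n - 1 = p ^ n + (p ^ n - 1) by
    have := Nat.one_le_pow n p hp.out.pos; omega, pow_add, Module.End.mul_apply, ← hrw2]
  have hz1 : (z : ((G ⧸ P) ⧸ K) ⧸ P1) = u ^ p ^ n := by rw [hz, QuotientGroup.mk_pow, hxu']
  rw [hz1, map_pow] at h1
  haveI : Nontrivial (Module.End (AlgebraicClosure (ZMod p)) (Fin d1 → AlgebraicClosure (ZMod p))) := by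
    refine nontrivial_of_ne (ρ1 u) 1 fun h => ?_
    rw [hρ1 (h.trans (map_one ρ1).symm), orderOf_one] at hord
    exact absurd hord.symm (Nat.one_lt_pow (by omega) hp.out.one_lt).ne'
  haveI : CharP (Module.End (AlgebraicClosure (ZMod p)) (Fin d1 → AlgebraicClosure (ZMod p))) p :=
    charP_of_injective_algebraMap (FaithfulSMul.algebraMap_injective (AlgebraicClosure (ZMod p)) _) p
  rw [sub_pow_char_pow_of_commute _ (h := Commute.one_right _), one_pow, LinearMap.sub_apply,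
    Module.End.one_apply, h1, sub_self]

theorem pLengthLE_zero_of_exponent {G : Type w} [Group G] [Finite G]
    (hexp : ∀ g : G, (∃ k, g ^ p ^ k = 1) → g ^ p ^ 0 = 1) : PLengthLE p 0 G := by
  rw [pLengthLE_zero_iff, Nat.coprime_comm, hp.out.coprime_iff_not_dvd]
  intro hd
  obtain ⟨g, hg⟩ := exists_prime_orderOf_dvd_card' p hd
  have := hexp g ⟨1, by rw [pow_one, ← hg, pow_orderOf_eq_one]⟩
  rw [pow_zero, pow_one] at this
  rw [this, orderOf_one] at hg
  exact hp.out.ne_one hg.symm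

/-- Peeling off `O_{p'}` and `O_p`. -/
theorem pLengthLE_succ_of_quotient {G : Type w} [Group G] [Finite G] {l : ℕ}
    (h : PLengthLE p l ((G ⧸ pPrimeCore p G) ⧸ pCore p (G ⧸ pPrimeCore p G))) :
    PLengthLE p (l + 1) G := by
  have hker : PLengthLE p 1 (QuotientGroup.mk' (pCore p (G ⧸ pPrimeCore p G))).ker := by
    rw [QuotientGroup.ker_mk']
    exact CfsgLib.MetacyclicP.pLengthLE_one_of_isPGroup (isPGroup_pCore p _)
  have h1 := CfsgLib.MetacyclicP.pLengthLE_extension (QuotientGroup.mk'_surjective _) hker h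
  have hkerO : PLengthLE p 0 (QuotientGroup.mk' (pPrimeCore p G)).ker := by
    rw [QuotientGroup.ker_mk', pLengthLE_zero_iff]
    exact card_pPrimeCore_coprime p
  have h2 := CfsgLib.MetacyclicP.pLengthLE_extension (QuotientGroup.mk'_surjective _) hkerO h1
  rwa [show l + 1 = 0 + (1 + l) by omega]

theorem pLengthLE_two_mul_exponent (hp2 : p ≠ 2) :
    ∀ (n : ℕ) {G : Type w} [Group G] [Finite G], IsPSolvable p G →
      (∀ g : G, (∃ k, g ^ p ^ k = 1) → g ^ p ^ n = 1) → PLengthLE p (2 * n) G := by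
  intro n
  induction n with
  | zero => intro G _ _ _ hexp; exact pLengthLE_zero_of_exponent hexp
  | succ n ih =>
    intro G _ _ hG hexp
    refine pLengthLE_succ_of_quotient (l := 2 * n + 1) (pLengthLE_succ_of_quotient (l := 2 * n) ?_)
    have hG1 : IsPSolvable p (G ⧸ pPrimeCore p G) := isPSolvable_quotient hG _
    refine ih (isPSolvable_quotient (isPSolvable_quotient (isPSolvable_quotient hG1 _) _) _) ?_
    exact fun u hu => pow_eq_one_two_steps hp2 hG1 (pPrimeCore_quotient_pPrimeCore p)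
      (exp_map (p := p) (QuotientGroup.mk'_surjective _) hexp) u hu

theorem pLengthLE_exponent (hp2 : p ≠ 2) :
    ∀ (n : ℕ) {G : Type w} [Group G] [Finite G], IsPSolvable p G →
      ((¬ ∃ k : ℕ, p = 2 ^ k + 1) ∨ ∀ S : Sylow 2 G, IsMulCommutative (S : Subgroup G)) →
      (∀ g : G, (∃ k, g ^ p ^ k = 1) → g ^ p ^ n = 1) → PLengthLE p n G := by
  intro n
  induction n with
  | zero => intro G _ _ _ _ hexp; exact pLengthLE_zero_of_exponent hexp
  | succ n ih =>
    intro G _ _ hG hex hexp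
    refine pLengthLE_succ_of_quotient ?_
    set O := pPrimeCore p G
    set P := pCore p (G ⧸ O)
    have hπ := (QuotientGroup.mk'_surjective P).comp (QuotientGroup.mk'_surjective O)
    have hG1 : IsPSolvable p (G ⧸ O) := isPSolvable_quotient hG _
    have hex' : (¬ ∃ k : ℕ, p = 2 ^ k + 1) ∨
        ∀ S : Sylow 2 ((G ⧸ O) ⧸ P), IsMulCommutative (S : Subgroup ((G ⧸ O) ⧸ P)) := by
      refine hex.imp id fun hS S => ⟨⟨?_⟩⟩
      obtain ⟨S0, rfl⟩ :=
        Sylow.mapSurjective_surjective (f := (QuotientGroup.mk' P).comp (QuotientGroup.mk' O)) hπ 2 S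
      rintro ⟨_, a, ha, rfl⟩ ⟨_, b, hb, rfl⟩
      refine Subtype.ext ?_
      show _ * _ = _ * _
      rw [← map_mul, ← map_mul]
      exact congrArg _ (congrArg Subtype.val ((hS S0).is_comm.comm ⟨a, ha⟩ ⟨b, hb⟩))
    refine ih (isPSolvable_quotient hG1 P) hex' fun u hu => ?_
    by_contra hne
    obtain ⟨hF, Q, hQ, hQn⟩ := exception_of_pow_ne_one hp2 hG1 (pPrimeCore_quotient_pPrimeCore p)
      (exp_map (p := p) (QuotientGroup.mk'_surjective O) hexp) hu hne
    rcases hex' with h | h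
    · exact h hF
    · obtain ⟨S, hS⟩ := hQ.exists_le_sylow
      exact hQn ⟨⟨fun a b => Subtype.ext (congrArg Subtype.val
        ((h S).is_comm.comm ⟨a, hS a.2⟩ ⟨b, hS b.2⟩) :)⟩⟩

end CfsgLib.HallHigmanExc
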