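/-
The `p`-length against the derived length of a Sylow `p`-subgroup, `p` odd.
-/
import Mathlib
import Cfsg.Agent.Lib.HallHigmanExc.PLengthExp

set_option autoImplicit false
set_option linter.style.haveILetI false
set_option linter.unusedSectionVars false

open scoped commutatorElement

namespace CfsgLib.HallHigmanExc

open Cfsg CfsgLib.Cores CfsgLib.PSolvable CfsgLib.CoprimeAction

universe u v w

section Action

variable {M : Type v} [AddCommGroup M] [Finite M] {R : Type w} [Group R] [Finite R]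

theorem disp_range_fixed_eq_zero (h3 : ∀ x : M, 3 • x = 0 → x = 0) (φ : R →* AddMonoid.End M)
    {z : R} (hz : z ^ 3 = 1) {x : M} (hx : x ∈ (disp φ z).range) (hfix : φ z x = x) : x = 0 := by
  obtain ⟨m, rfl⟩ := hx
  have h : ∀ i : ℕ, φ (z ^ i) m = m + i • disp φ z m := by
    intro i
    induction i with
    | zero => rw [pow_zero, end_map_one_apply, zero_nsmul, add_zero]
    | succ i ih =>
      rw [pow_succ', end_map_mul_apply, ih, map_add, map_nsmul, hfix, succ_nsmul, disp_apply]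
      abel
  have h4 := h 3
  rw [hz, end_map_one_apply, left_eq_add] at h4
  exact h3 _ h4

theorem disp_map_mem_range (φ : R →* AddMonoid.End M) {z r : R} (h : r * z = z * r) {x : M}
    (hx : x ∈ (disp φ z).range) : φ r x ∈ (disp φ z).range := by
  obtain ⟨m, rfl⟩ := hx
  exact ⟨φ r m, by rw [disp_apply, disp_apply, map_sub, ← end_map_mul_apply, ← end_map_mul_apply, h]⟩

/-- On a small displacement range another commuting small element is trivial or has the same range. -/
theorem disp_range_le (h3 : ∀ x : M, 3 • x = 0 → x = 0) (φ : R →* AddMonoid.End M) {z z' : R}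
    (hz : z ^ 3 = 1) (hz' : z' ^ 3 = 1) (hc : z * z' = z' * z)
    (h4 : Nat.card (disp φ z).range ≤ 4) {x : M} (hx : x ∈ (disp φ z).range) (hne : φ z' x ≠ x) :
    (disp φ z).range ≤ (disp φ z').range := by
  classical
  set L := (disp φ z).range
  have hinv : ∀ y ∈ L, φ z' y ∈ L := fun y hy => disp_map_mem_range φ hc.symm hy
  let δ : L →+ L :=
    { toFun := fun y => ⟨disp φ z' y, L.sub_mem (hinv y y.2) y.2⟩
      map_zero' := Subtype.ext (map_zero _)
      map_add' := fun a b => Subtype.ext (map_add _ _ _) }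
  have hinj : Function.Injective δ := by
    refine (injective_iff_map_eq_zero δ).2 fun y hy => ?_
    by_contra hy0
    have hyfix : φ z' (y : M) = y := sub_eq_zero.1 (congrArg Subtype.val hy)
    -- four different points of `L`
    have hd : φ z' x - x ∈ (disp φ z').range := ⟨x, rfl⟩
    set a := φ z' x with ha
    set b := φ z' a with hb
    have hba : b ≠ a := fun h => hne (by
      have h8 := disp_range_fixed_eq_zero h3 φ hz' hd (by
        rw [map_sub, ← ha, ← hb, h, sub_self, eq_comm, sub_eq_zero]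
        have h9 := congrArg (φ (z' ^ 2)) h
        rw [hb, ← end_map_mul_apply, ← pow_succ, hz', end_map_one_apply, ha, ← end_map_mul_apply,
          ← pow_succ, hz', end_map_one_apply] at h9
        exact h9)
      exact sub_eq_zero.1 h8)
    have hcx : φ z' b = x := by
      rw [hb, ha, ← end_map_mul_apply, ← end_map_mul_apply, show z' * z' * z' = z' ^ 3 by
        rw [pow_succ, pow_two], hz', end_map_one_apply]
    have hbx : b ≠ x := fun h => hne (by
      have h9 := hcx
      rw [h] at h9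
      exact h9)
    have h5 : ∀ w : M, φ z' w = w → w ≠ x ∧ w ≠ a ∧ w ≠ b := by
      intro w hw
      refine ⟨fun h => hne ?_, fun h => hba ?_, fun h => hbx ?_⟩
      · rw [ha, ← h]; exact hw
      · rw [hb, ← h, hw]
      · rw [← hcx, ← h, hw]
    obtain ⟨f1, f2, f3⟩ := h5 _ hyfix
    obtain ⟨g1, g2, g3⟩ := h5 0 (map_zero _)
    let s : Finset M := {0, (y : M), x, a, b}
    have hs : s.card = 5 := by
      have hy0' : (0 : M) ≠ y := fun h => hy0 (Subtype.ext h.symm)
      simp [s, hy0', g1, g2, g3, f1, f2, f3, hne.symm, hbx.symm, hba.symm]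
    have hsub : ∀ w : s, (w : M) ∈ L := by
      rintro ⟨w, hw⟩
      simp only [s, Finset.mem_insert, Finset.mem_singleton] at hw
      rcases hw with rfl | rfl | rfl | rfl | rfl
      · exact L.zero_mem
      · exact y.2
      · exact hx
      · exact hinv _ hx
      · exact hinv _ (hinv _ hx)
    have hle := Nat.card_le_card_of_injective (fun w : s => (⟨w, hsub w⟩ : L))
      (fun u v h => Subtype.ext (congrArg Subtype.val h :))
    rw [Nat.card_eq_fintype_card, Fintype.card_coe, hs] at hle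
    omega
  intro y hy
  obtain ⟨w, hw⟩ := Finite.surjective_of_injective hinj ⟨y, hy⟩
  exact ⟨w, congrArg Subtype.val hw⟩

theorem disp_comparable (h3 : ∀ x : M, 3 • x = 0 → x = 0) (φ : R →* AddMonoid.End M) {z z' : R}
    (hz : z ^ 3 = 1) (hz' : z' ^ 3 = 1) (hc : z * z' = z' * z)
    (h4 : Nat.card (disp φ z).range ≤ 4) (h4' : Nat.card (disp φ z').range ≤ 4)
    (h4p : Nat.card (disp φ (z * z')).range ≤ 4)
    (hne : (disp φ z).range ≠ ⊥) (hne' : (disp φ z').range ≠ ⊥) :
    (disp φ z).range = (disp φ z').range := by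
  classical
  set L := (disp φ z).range
  set L' := (disp φ z').range
  -- a range with a moved point has at least four elements
  have hfour : ∀ w : R, w ^ 3 = 1 → (disp φ w).range ≠ ⊥ → 4 ≤ Nat.card (disp φ w).range := by
    intro w hw hw0
    obtain ⟨x, hx, hx0⟩ := ((disp φ w).range.bot_or_exists_ne_zero).resolve_left hw0
    have m1 : φ w x ∈ (disp φ w).range := disp_map_mem_range φ rfl hx
    have m2 : φ w (φ w x) ∈ (disp φ w).range := disp_map_mem_range φ rfl m1
    have hcx : φ w (φ w (φ w x)) = x := by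
      rw [← end_map_mul_apply, ← end_map_mul_apply, show w * w * w = w ^ 3 by
        rw [pow_succ, pow_two], hw, end_map_one_apply]
    have hfix := fun y hy h => disp_range_fixed_eq_zero h3 φ hw (x := y) hy h
    have n1 : φ w x ≠ x := fun h => hx0 (hfix x hx h)
    have n2 : φ w (φ w x) ≠ x := fun h => n1 (by rw [h] at hcx; exact hcx)
    have n3 : φ w (φ w x) ≠ φ w x := fun h => n1 (by rw [h, h] at hcx; exact hcx)
    have k1 : (0 : M) ≠ φ w x := fun h => hx0 (by rw [← hcx, ← h, map_zero, map_zero])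
    have k2 : (0 : M) ≠ φ w (φ w x) := fun h => hx0 (by rw [← hcx, ← h, map_zero])
    let s : Finset M := {0, x, φ w x, φ w (φ w x)}
    have hs : s.card = 4 := by
      simp [s, hx0.symm, k1, k2, n1.symm, n2.symm, n3.symm]
    have hsub : ∀ u : s, (u : M) ∈ (disp φ w).range := by
      rintro ⟨u, hu⟩
      simp only [s, Finset.mem_insert, Finset.mem_singleton] at hu
      rcases hu with rfl | rfl | rfl | rfl
      exacts [zero_mem _, hx, m1, m2]
    have hle := Nat.card_le_card_of_injective (fun u : s => (⟨u, hsub u⟩ : (disp φ w).range))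
      (fun u v h => Subtype.ext (congrArg Subtype.val h :))
    rwa [Nat.card_eq_fintype_card, Fintype.card_coe, hs] at hle
  have e4 : Nat.card L = 4 := le_antisymm h4 (hfour z hz hne)
  have e4' : Nat.card L' = 4 := le_antisymm h4' (hfour z' hz' hne')
  have hantisym : L ≤ L' → L = L' := fun h =>
    AddSubgroup.eq_of_le_of_card_ge h (by rw [e4, e4'])
  by_cases hA : ∃ x ∈ L, φ z' x ≠ x
  · obtain ⟨x, hx, hx'⟩ := hA
    exact hantisym (disp_range_le h3 φ hz hz' hc h4 hx hx')
  by_cases hB : ∃ x ∈ L', φ z x ≠ x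
  · obtain ⟨x, hx, hx'⟩ := hB
    have h := disp_range_le h3 φ hz' hz hc.symm h4' hx hx'
    exact (AddSubgroup.eq_of_le_of_card_ge h (by rw [e4, e4'])).symm
  push Not at hA hB
  exfalso
  have hsum : ∀ u ∈ L, ∀ u' ∈ L', disp φ (z * z') (u + u') = disp φ z u + disp φ z' u' := by
    intro u hu u' hu'
    rw [map_add, disp_apply, disp_apply, disp_apply, disp_apply, end_map_mul_apply, hA u hu,
      end_map_mul_apply, hB _ (disp_map_mem_range φ rfl hu')]
  let f : L × L' → (disp φ (z * z')).range := fun u =>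
    ⟨disp φ (z * z') ((u.1 : M) + u.2), ⟨_, rfl⟩⟩
  have hinj : Function.Injective f := by
    intro u v huv
    have h := congrArg Subtype.val huv
    simp only [f] at h
    rw [hsum _ u.1.2 _ u.2.2, hsum _ v.1.2 _ v.2.2] at h
    have h' : disp φ z ((u.1 : M) - v.1) = disp φ z' ((v.2 : M) - u.2) := by
      rw [map_sub, map_sub, sub_eq_sub_iff_add_eq_add, h, add_comm]
    have hz0 : disp φ z ((u.1 : M) - v.1) = 0 :=
      disp_range_fixed_eq_zero h3 φ hz ⟨_, rfl⟩ (hB _ (h' ▸ ⟨_, rfl⟩))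
    rw [hz0] at h'
    have e1 : ((u.1 : M) - v.1) = 0 :=
      disp_range_fixed_eq_zero h3 φ hz (L.sub_mem u.1.2 v.1.2) (sub_eq_zero.1 hz0)
    have e2 : ((v.2 : M) - u.2) = 0 :=
      disp_range_fixed_eq_zero h3 φ hz' (L'.sub_mem v.2.2 u.2.2) (sub_eq_zero.1 h'.symm)
    exact Prod.ext (Subtype.ext (sub_eq_zero.1 e1)) (Subtype.ext (sub_eq_zero.1 e2).symm)
  have hle := le_trans (Nat.card_le_card_of_injective f hinj) h4p
  rw [Nat.card_prod, e4, e4'] at hle
  omega

/-- A normal commutative set of small elements inside the commutators acts trivially. -/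
theorem small_commutator_trivial (h3 : ∀ x : M, 3 • x = 0 → x = 0) (hR : IsPGroup 3 R)
    (φ : R →* AddMonoid.End M) (D : Subgroup R) [D.Normal] (hD : D ≤ commutator R)
    (hcomm : ∀ a ∈ D, ∀ b ∈ D, a * b = b * a) (hexp : ∀ a ∈ D, a ^ 3 = 1)
    (hsmall : ∀ a ∈ D, Nat.card (disp φ a).range ≤ 4) : ∀ a ∈ D, φ a = 1 := by
  classical
  intro a0 ha0
  by_contra hne
  have hne0 : (disp φ a0).range ≠ ⊥ := fun h => hne (end_eq_one_iff.2 fun m => sub_eq_zero.1
    ((AddSubgroup.mem_bot).1 (h ▸ (⟨m, rfl⟩ : disp φ a0 m ∈ (disp φ a0).range))))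
  set L := (disp φ a0).range
  have hinv : ∀ r : R, ∀ x ∈ L, φ r x ∈ L := by
    intro r x hx
    obtain ⟨m, rfl⟩ := hx
    set a1 := r * a0 * r⁻¹ with ha1
    have ha1D : a1 ∈ D := (inferInstance : D.Normal).conj_mem _ ha0 r
    have hconj : ∀ m, φ r (disp φ a0 m) = disp φ a1 (φ r m) := fun m => by
      rw [disp_apply, disp_apply, map_sub, ← end_map_mul_apply, ← end_map_mul_apply, ha1,
        inv_mul_cancel_right]
    have hne1 : (disp φ a1).range ≠ ⊥ := fun h => hne0 (by
      rw [AddSubgroup.eq_bot_iff_forall]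
      rintro _ ⟨m, rfl⟩
      have h8 : φ r (disp φ a0 m) = 0 := by
        rw [hconj, ← AddSubgroup.mem_bot, ← h]; exact ⟨_, rfl⟩
      have h9 := congrArg (φ r⁻¹) h8
      rwa [← end_map_mul_apply, inv_mul_cancel, end_map_one_apply, map_zero] at h9)
    show φ r (disp φ a0 m) ∈ (disp φ a0).range
    rw [disp_comparable h3 φ (hexp a0 ha0) (hexp a1 ha1D) (hcomm a0 ha0 a1 ha1D) (hsmall a0 ha0)
      (hsmall a1 ha1D) (hsmall _ (D.mul_mem ha0 ha1D)) hne0 hne1, hconj]
    exact ⟨_, rfl⟩
  -- the action on `L` is commutative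
  let σ : R →* Equiv.Perm L :=
    { toFun := fun r =>
        { toFun := fun x => ⟨φ r x, hinv r x x.2⟩
          invFun := fun x => ⟨φ r⁻¹ x, hinv _ x x.2⟩
          left_inv := fun x => Subtype.ext (by
            show φ r⁻¹ (φ r (x : M)) = x
            rw [← end_map_mul_apply, inv_mul_cancel, end_map_one_apply])
          right_inv := fun x => Subtype.ext (by
            show φ r (φ r⁻¹ (x : M)) = x
            rw [← end_map_mul_apply, mul_inv_cancel, end_map_one_apply]) }
      map_one' := Equiv.ext fun x => Subtype.ext (end_map_one_apply φ (x : M))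
      map_mul' := fun r s => Equiv.ext fun x => Subtype.ext (end_map_mul_apply φ r s (x : M)) }
  have hker : commutator R ≤ σ.ker := by
    obtain ⟨k, hk⟩ := IsPGroup.iff_card.1 (hR.of_surjective _ σ.rangeRestrict_surjective)
    have hdvd := Subgroup.card_subgroup_dvd_card σ.range
    rw [Nat.card_perm, hk] at hdvd
    have hk1 : k ≤ 1 := by
      by_contra hgt
      have h9 : (3 : ℕ) ^ 2 ∣ (Nat.card L).factorial :=
        dvd_trans (pow_dvd_pow 3 (by omega)) hdvd
      have h24 : (Nat.card L).factorial ∣ Nat.factorial 4 := Nat.factorial_dvd_factorial (hsmall a0 ha0)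
      have := dvd_trans h9 h24
      norm_num [Nat.factorial] at this
    haveI : IsCyclic σ.range := by
      rcases Nat.le_one_iff_eq_zero_or_eq_one.1 hk1 with rfl | rfl
      · haveI : Subsingleton σ.range := (Nat.card_eq_one_iff_unique.1 (by rw [hk, pow_zero])).1
        infer_instance
      · haveI : Fact (Nat.Prime 3) := ⟨Nat.prime_three⟩
        exact isCyclic_of_prime_card (p := 3) (by rw [hk, pow_one])
    rw [commutator_def, Subgroup.commutator_le]
    intro a _ b _
    rw [MonoidHom.mem_ker, map_commutatorElement, commutatorElement_eq_one_iff_mul_comm]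
    exact congrArg Subtype.val ((IsCyclic.isMulCommutative (α := σ.range)).is_comm.comm
      (σ.rangeRestrict a) (σ.rangeRestrict b))
  have hfix : ∀ x ∈ L, φ a0 x = x := fun x hx =>
    congrArg Subtype.val (congrFun (congrArg DFunLike.coe (MonoidHom.mem_ker.1 (hker (hD ha0))))
      (⟨x, hx⟩ : L))
  exact hne0 ((AddSubgroup.eq_bot_iff_forall _).2 fun x hx =>
    disp_range_fixed_eq_zero h3 φ (hexp a0 ha0) hx (hfix x hx))

end Action

variable {G : Type w} [Group G] [Finite G] {K : Type u} [Field K] {V : Type v} [AddCommGroup V]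
  [Module K V] {ρ : G →* Module.End K V} {Q : Subgroup G}

/-- The kernel on a block of a commutator subgroup with one element is the same. -/
theorem blockKer_commutator_le {e : Module.End K V} (hQe : ∀ g ∈ Q, Commute (ρ g) e)
    (hcl : ⁅Q, Q⁆ ≤ Subgroup.centralizer (Q : Set G))
    (hsc : ∀ a ∈ Q, ∀ b ∈ Q, ∃ c : K, ρ (a * b * a⁻¹ * b⁻¹) * e = c • e)
    (hQsol : Group.IsSolvable Q) {z : G} (hzQ : z ∈ Subgroup.normalizer (Q : Set G))
    (hze : Commute (ρ z) e) (hcop : (Nat.card (Subgroup.zpowers z)).Coprime (Nat.card Q))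
    (hQ0e : ∀ g ∈ ⁅Q, Subgroup.zpowers z⁆, Commute (ρ g) e) :
    blockKer ρ ⁅Q, Subgroup.zpowers z⁆ e hQ0e ≤ blockKer ρ Q e hQe := by
  classical
  have hzN : Subgroup.zpowers z ≤ Subgroup.normalizer (Q : Set G) := Subgroup.zpowers_le.2 hzQ
  have hQ0Q : ⁅Q, Subgroup.zpowers z⁆ ≤ Q := commutator_le_left hzN
  intro g hg
  have hgQ : g ∈ Q := hQ0Q hg.1
  refine ⟨hgQ, ?_⟩
  suffices hle : Q ≤ blockFixer (ρ := ρ) hQe hgQ from fun b hb => ((hle hb).2).symm
  refine (commutator_sup_centralizer hzN hcop (Or.inr hQsol)).ge.trans ?_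
  refine sup_le (fun b hb => ⟨hQ0Q hb, (hg.2 b hb).symm⟩) fun c hc => ⟨hc.1, ?_⟩
  have hsub : ⁅Q, Subgroup.zpowers z⁆ ≤ blockFixer (ρ := ρ) hQe hc.1 := by
    refine Subgroup.commutator_le.2 fun a ha d hd => ?_
    have haq : ⁅a, d⁆ ∈ Q := hQ0Q (Subgroup.commutator_mem_commutator ha hd)
    refine ⟨haq, (mul_eq_iff_commutator hQe haq hc.1).2 ?_⟩
    refine commutator_conj_eq hQe hcl hsc ha hc.1 (hzN hd) ?_
      (Subgroup.mem_centralizer_iff.1 hc.2 _ hd)
    obtain ⟨i, rfl⟩ := (isOfFinOrder_of_finite z).mem_zpowers_iff_mem_range_orderOf.1 hd |>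
      Finset.mem_image.1 |>.imp fun _ h => h.2
    rw [map_pow]
    exact hze.pow_left i
  exact (hsub hg.1).2.symm

/-- If all blocks are commutative and fixed by `D`, then `Q = [Q, D]` is trivial. -/
theorem eq_bot_of_blocks [IsAlgClosed K] {q : ℕ} [Fact q.Prime] (hQ : IsPGroup q Q)
    (hqK : (q : K) ≠ 0) (hρ : Function.Injective ρ) {D : Subgroup G} (hgen : Q ≤ ⁅Q, D⁆)
    (hDe : ∀ l : centerImage ρ Q →* Kˣ, blk (centerImage ρ Q) l ≠ 0 →
      ∀ d ∈ D, Commute (ρ d) (blk (centerImage ρ Q) l))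
    (hblock : ∀ l : centerImage ρ Q →* Kˣ, blk (centerImage ρ Q) l ≠ 0 →
      ∀ g ∈ Q, ∀ b ∈ Q, ρ g * ρ b * blk (centerImage ρ Q) l =
        ρ b * ρ g * blk (centerImage ρ Q) l) : Q = ⊥ := by
  obtain ⟨hf, hsum⟩ := exists_sum_blk (K := K) (centerImage ρ Q) (card_centerImage_ne_zero hQ hqK)
  have hQab : ∀ g ∈ Q, g ∈ Subgroup.centralizer (Q : Set G) := fun g hg =>
    Subgroup.mem_centralizer_iff.2 fun b hb => hρ (by
      rw [map_mul, map_mul, ← mul_one (ρ b * ρ g), ← mul_one (ρ g * ρ b), ← hsum, Finset.mul_sum,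
        Finset.mul_sum]
      refine Finset.sum_congr rfl fun l _ => ?_
      by_cases hl : blk (centerImage ρ Q) l = 0
      · rw [hl, mul_zero, mul_zero]
      · exact (hblock l hl g hg b hb).symm)
  refine eq_bot_iff.2 fun g hg => Subgroup.mem_bot.2 (hρ ?_)
  rw [map_one, ← mul_one (ρ g), ← hsum, Finset.mul_sum]
  refine Finset.sum_congr rfl fun l _ => ?_
  set e := blk (centerImage ρ Q) l
  by_cases hl : e = 0
  · rw [hl, mul_zero]
  let L : Subgroup G :=
    { carrier := {x | Commute (ρ x) e ∧ ρ x * e = e}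
      one_mem' := ⟨by rw [map_one]; exact Commute.one_left e, by rw [map_one, one_mul]⟩
      mul_mem' := fun {x y} hx hy => ⟨by rw [map_mul]; exact hx.1.mul_left hy.1,
        by rw [map_mul, mul_assoc, hy.2, hx.2]⟩
      inv_mem' := fun {x} hx => ⟨commute_inv hx.1, by
        conv_lhs => rw [← hx.2, ← mul_assoc, (rho_mul_inv (ρ := ρ) x).2, one_mul]⟩ }
  have hle : ⁅Q, D⁆ ≤ L := by
    refine Subgroup.commutator_le.2 fun a ha d hd => ⟨?_, ?_⟩
    · rw [commutatorElement_def, map_mul, map_mul, map_mul]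
      exact (((commute_blk_of_mem l ha).mul_left (hDe l hl d hd)).mul_left
        (commute_blk_of_mem l (Q.inv_mem ha))).mul_left (commute_inv (hDe l hl d hd))
    · have hsc : ∀ x ∈ Q, ∃ c : K, ρ x * e = c • e := fun x hx =>
        ⟨_, mul_blk (centerImage ρ Q) l ⟨_, Subgroup.mem_map_of_mem ρ.toHomUnits
          (show x ∈ Q ⊓ Subgroup.centralizer (Q : Set G) from ⟨hx, hQab x hx⟩)⟩⟩
      obtain ⟨c, hc⟩ := hsc a⁻¹ (Q.inv_mem ha)
      have h2 : ρ (d * a⁻¹ * d⁻¹) * e = c • e := by
        rw [map_mul, map_mul, mul_assoc, (commute_inv (hDe l hl d hd)).eq, mul_assoc,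
          ← mul_assoc (ρ a⁻¹), hc, smul_mul_assoc, mul_smul_comm, ← mul_assoc, (hDe l hl d hd).eq,
          mul_assoc, (rho_mul_inv d).1, mul_one]
      rw [show ⁅a, d⁆ = a * (d * a⁻¹ * d⁻¹) by rw [commutatorElement_def]; group, map_mul,
        mul_assoc, h2, ← hc, ← mul_assoc, (rho_mul_inv a).1, one_mul]
  exact ((hle (hgen hg)).2).trans (one_mul e).symm

set_option maxHeartbeats 1000000 in
/-- No configuration with a quadratic commutator subgroup in characteristic three. -/
theorem false_of_three [IsAlgClosed K] [FiniteDimensional K V] [CharP K 3]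
    (hsol : IsPSolvable 3 G) (hcore : pCore 3 G = ⊥) (hρ : Function.Injective ρ) {B D : Subgroup G}
    (hB : IsPGroup 3 B) (hDB : ⁅B, B⁆ = D) (hD1 : D ≠ ⊥)
    (hDc : ∀ a ∈ D, ∀ b ∈ D, a * b = b * a)
    (hquad : ∀ z ∈ D, (ρ z - 1) ^ 2 = 0)
    (hcubic : ∀ z ∈ D, ∀ b ∈ B, (ρ z - 1) * (ρ b - 1) ^ 2 = 0) : False := by
  classical
  haveI : Fact (Nat.Prime 3) := ⟨Nat.prime_three⟩
  have hDle : D ≤ B := hDB ▸ Subgroup.commutator_le_self B
  have hz3 : ∀ z ∈ D, z ^ 3 = 1 := by
    intro z hz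
    haveI : Nontrivial V := by
      by_contra h
      rw [not_nontrivial_iff_subsingleton] at h
      exact hD1 (eq_bot_iff.2 fun x _ => Subgroup.mem_bot.2 (hρ (Subsingleton.elim _ _)))
    haveI : CharP (Module.End K V) 3 :=
      charP_of_injective_algebraMap (FaithfulSMul.algebraMap_injective K _) 3
    apply hρ
    have h := sub_pow_char_pow_of_commute (p := 3) 1 (Commute.one_right (ρ z))
    rw [pow_one, pow_succ, hquad z hz, zero_mul, one_pow] at h
    rw [map_one, map_pow]
    exact sub_eq_zero.1 h.symm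
  set F := pPrimeCore 3 G with hF
  have hFp : ¬ 3 ∣ Nat.card F := not_dvd_card_pPrimeCore
  obtain ⟨jB, hjB⟩ := IsPGroup.iff_card.1 hB
  have hcopB : (Nat.card B).Coprime (Nat.card F) := by
    rw [hjB]; exact (Nat.prime_three.coprime_iff_not_dvd.2 hFp).pow_left jB
  have hBF : B ≤ Subgroup.normalizer (F : Set G) := by
    haveI : F.Normal := by rw [hF]; infer_instance
    rw [Subgroup.normalizer_eq_top]
    exact le_top
  haveI := hB.isNilpotent
  have hBsol : Group.IsSolvable B := inferInstance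
  obtain ⟨q, hq, hqF, Q₁, hQ₁, -, hBQ₁, hDQ₁⟩ :=
    exists_invariant_moved hBF hcopB hBsol (D := (D : Set G)) (by
      intro h
      apply hD1
      rw [eq_bot_iff]
      intro z hz
      obtain ⟨i, hi⟩ := IsPGroup.iff_orderOf.1 hB ⟨_, hDle hz⟩
      rw [Subgroup.orderOf_mk] at hi
      exact Subgroup.mem_bot.2 (orderOf_eq_one_iff.1 (Nat.eq_one_of_dvd_coprimes
        ((Nat.prime_three.coprime_iff_not_dvd.2 hFp).pow_left i) (hi ▸ dvd_rfl)
        (Subgroup.orderOf_dvd_natCard F
          (MetacyclicP.centralizer_pPrimeCore_le_self hsol hcore (h hz))))))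
  haveI := Fact.mk hq
  have hq3 : 3 ≠ q := fun h => hFp (h ▸ hqF)
  have hqK : (q : K) ≠ 0 := by
    rw [Ne, CharP.cast_eq_zero_iff K 3 q]
    exact fun h => hq3 ((Nat.prime_dvd_prime_iff_eq Nat.prime_three hq).1 h)
  obtain ⟨Q, hQm⟩ := exists_minimal_of_wellFoundedLT (fun R : Subgroup G =>
    IsPGroup q R ∧ B ≤ Subgroup.normalizer (R : Set G) ∧ ¬ D ≤ Subgroup.centralizer (R : Set G))
    ⟨Q₁, hQ₁, hBQ₁, hDQ₁⟩
  obtain ⟨hQ, hBQ, hDQ⟩ := hQm.prop
  have hmin : ∀ R : Subgroup G, R < Q → B ≤ Subgroup.normalizer (R : Set G) →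
      D ≤ Subgroup.centralizer (R : Set G) := fun R hR hTR => by
    by_contra h
    exact hR.not_ge (hQm.le_of_le ⟨hQ.to_le hR.le, hTR, h⟩ hR.le)
  obtain ⟨jQ, hjQ⟩ := IsPGroup.iff_card.1 hQ
  have hcopBQ : (Nat.card B).Coprime (Nat.card Q) := by
    rw [hjB, hjQ]
    exact (((Nat.coprime_primes Nat.prime_three hq).2 hq3).pow_left jB).pow_right jQ
  have hBD : B ≤ Subgroup.normalizer (D : Set G) := by
    intro b hb
    rw [← conj_smul_eq_self]
    show D.map (MulAut.conj b).toMonoidHom = D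
    rw [← hDB, Subgroup.map_commutator,
      show B.map (MulAut.conj b).toMonoidHom = B from conj_smul_eq_self.2 (Subgroup.le_normalizer hb)]
  obtain ⟨hgen, hcl, -⟩ := structure_of_minimal (A := B) (D := D) hQ hBQ hBD (hDle.trans hBQ)
    (hcopBQ.coprime_dvd_left (Subgroup.card_dvd_of_le hDle)) hDQ hmin
  haveI := hQ.isNilpotent
  have hQsol : Group.IsSolvable Q := inferInstance
  have hA := card_centerImage_ne_zero (ρ := ρ) hQ hqK
  have hdata : ∀ l : centerImage ρ Q →* Kˣ, blk (centerImage ρ Q) l ≠ 0 → ∀ z ∈ D,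
      Commute (ρ z) (blk (centerImage ρ Q) l) := by
    intro l hl z hz
    obtain ⟨a, ha, hadvd, has, -, hcomm, -⟩ :=
      exists_block_relation (centerImage ρ Q) hA
        (mem_normalizer_centerImage (ρ := ρ) (hBQ (hDle hz))) (θ := ρ.toHomUnits z) (P := 3)
        (by rw [← map_pow, hz3 z hz, map_one]) (s := 2) (by norm_num)
        (c := fun i => if i = 1 then -2 else 1) (by simp)
        (by
          have h := hquad z hz
          rw [pow_two, sub_mul, mul_sub, mul_one, one_mul] at h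
          simp only [Finset.sum_range_succ, Finset.sum_range_zero, zero_add, MonoidHom.coe_toHomUnits]
          simp only [zero_ne_one, OfNat.ofNat_ne_one, if_true, if_false]
          rw [one_smul, one_smul, pow_zero,
            pow_one, pow_two, neg_smul, two_smul, ← h]
          abel) hl
    rcases (Nat.dvd_prime Nat.prime_three).1 hadvd with rfl | rfl
    · rw [pow_one] at hcomm; exact hcomm
    · omega
  have hQ1 : Q ≠ ⊥ := fun h => hDQ fun x _ => Subgroup.mem_centralizer_iff.2 fun g hg => by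
    rw [h, SetLike.mem_coe, Subgroup.mem_bot] at hg
    simp [hg]
  refine hQ1 (eq_bot_of_blocks hQ hqK hρ hgen hdata ?_)
  intro l hl
  set e := blk (centerImage ρ Q) l with he
  have hee : e * e = e := by rw [he, blk_mul_blk _ hA, if_pos rfl]
  have hQe : ∀ g ∈ Q, Commute (ρ g) e := fun g hg => commute_blk_of_mem l hg
  have hsc : ∀ a ∈ Q, ∀ b ∈ Q, ∃ c : K, ρ (a * b * a⁻¹ * b⁻¹) * e = c • e :=
    fun a ha b hb => scalar_commutators hcl l ha hb
  set S := blockKer ρ Q e hQe with hS
  have hSQ : ⁅Q, Q⁆ ≤ S := commutator_le_blockKer hsc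
  have hcentral : ∀ g ∈ Q, ∀ c : K, ρ g * e = c • e → g ∈ S := by
    intro g hg c hc
    refine ⟨hg, fun b hb => ?_⟩
    rw [mul_assoc, (hQe b hb).eq, ← mul_assoc, hc, mul_assoc (ρ b), hc, mul_smul_comm,
      smul_mul_assoc, (hQe b hb).eq]
  -- an element with trivial action on the block
  have htrivz : ∀ z ∈ D, (ρ z - 1) * e = 0 → ∀ g ∈ Q, ⁅g, z⁆ ∈ S := by
    intro z hz h0 g hg
    rw [sub_mul, one_mul, sub_eq_zero] at h0
    have hz' : ρ z⁻¹ * e = e := by
      conv_lhs => rw [← h0, ← mul_assoc, (rho_mul_inv z).2, one_mul]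
    refine hcentral _ (commutator_le_left (hDle.trans hBQ) (Subgroup.commutator_mem_commutator hg hz)) 1 ?_
    rw [one_smul, commutatorElement_def, map_mul, map_mul, map_mul, mul_assoc, hz', mul_assoc,
      (hQe g⁻¹ (Q.inv_mem hg)).eq, mul_assoc (ρ g), ← mul_assoc (ρ z), h0, ← (hQe g⁻¹ (Q.inv_mem hg)).eq,
      ← mul_assoc, (rho_mul_inv g).1, one_mul]
  by_cases hall : ∀ z ∈ D, ∀ g ∈ Q, ⁅g, z⁆ ∈ S
  · intro g hg b hb
    exact ((Subgroup.commutator_le.2 fun g hg z hz => hall z hz g hg : ⁅Q, D⁆ ≤ S) (hgen hg)).2 b hb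
  exfalso
  push Not at hall
  obtain ⟨z₀, hz₀, g₀, hg₀, hz₀g₀⟩ := hall
  have hBe : ∀ b ∈ B, Commute (ρ b) e := by
    intro b hb
    by_contra hnb
    have hmove : ∀ y ∈ B, ¬ Commute (ρ y) e → e * ρ y * e = 0 := fun y hy hn =>
      (commute_or_mul_eq_zero hQ hqK l (hBQ hy)).resolve_left hn
    have hb2 : ¬ Commute (ρ (b * b)) e := by
      intro h2
      apply hnb
      obtain ⟨k, hk⟩ := hB ⟨b, hb⟩
      have hk' : b ^ 3 ^ k = 1 := congrArg Subtype.val hk
      obtain ⟨a, ha⟩ : Odd (3 ^ k) := (by decide : Odd 3).pow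
      have h9 : ρ b = ρ (b * b) ^ (a + 1) := by
        rw [← map_pow]
        congr 1
        rw [← pow_two, ← pow_mul, show 2 * (a + 1) = 3 ^ k + 1 by omega, pow_succ, hk', one_mul]
      rw [h9]
      exact h2.pow_left _
    apply hz₀g₀
    refine htrivz z₀ hz₀ ?_ g₀ hg₀
    have hδ : Commute (ρ z₀ - 1) e := ((hdata l hl z₀ hz₀).sub_left (Commute.one_left e))
    have h := congrArg (fun f => e * f * e) (hcubic z₀ hz₀ b hb)
    have hexpand : (ρ b - 1) ^ 2 = ρ (b * b) - (ρ b + ρ b) + 1 := by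
      rw [map_mul, pow_two]; noncomm_ring
    simp only [mul_zero, zero_mul] at h
    rw [hexpand, ← mul_assoc e, ← hδ.eq, mul_assoc, mul_assoc] at h
    simp only [add_mul, sub_mul, mul_add, mul_sub, one_mul] at h
    simp only [← mul_assoc e, hmove _ (B.mul_mem hb hb) hb2, hmove b hb hnb, hee, add_zero, sub_zero,
      zero_add, mul_zero] at h
    rw [sub_mul, one_mul]
    exact h
  haveI hSn : (S.subgroupOf Q).Normal := ⟨fun x hx y => by
    show (y : G) * x * (y : G)⁻¹ ∈ S
    rw [show (y : G) * x * (y : G)⁻¹ = ⁅(y : G), (x : G)⁆ * x by simp [commutatorElement_def, mul_assoc]]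
    exact S.mul_mem (hSQ (Subgroup.commutator_mem_commutator y.2 x.2)) hx⟩
  have hMcomm : ∀ a b : Q ⧸ S.subgroupOf Q, a * b = b * a := fun a b => by
    induction a using QuotientGroup.induction_on with | _ a =>
    induction b using QuotientGroup.induction_on with | _ b =>
    rw [← QuotientGroup.mk_mul, ← QuotientGroup.mk_mul, QuotientGroup.eq]
    refine hSQ ?_
    have h := Subgroup.commutator_mem_commutator (Q.inv_mem b.2) (Q.inv_mem a.2)
    simpa [commutatorElement_def, mul_assoc] using h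
  letI : CommGroup (Q ⧸ S.subgroupOf Q) :=
    { (inferInstance : Group (Q ⧸ S.subgroupOf Q)) with mul_comm := hMcomm }
  let mk : Q → Additive (Q ⧸ S.subgroupOf Q) := fun g => Additive.ofMul (g : Q ⧸ S.subgroupOf Q)
  have hmks : Function.Surjective mk := fun m => by
    obtain ⟨g, hg⟩ := QuotientGroup.mk_surjective (Additive.toMul m)
    exact ⟨g, congrArg Additive.ofMul hg⟩
  let cj : B → MulAut Q := fun t => Subgroup.normalizerMonoidHom Q ⟨t, hBQ t.2⟩
  have hcj : ∀ (t : B) (g : Q), ((cj t g : Q) : G) = t * g * (t : G)⁻¹ := fun _ _ => rfl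
  let act : B → AddMonoid.End (Additive (Q ⧸ S.subgroupOf Q)) := fun t =>
    MonoidHom.toAdditive (QuotientGroup.map _ (S.subgroupOf Q) (cj t).toMonoidHom (fun x hx =>
      show ((cj t x : Q) : G) ∈ S from
        (Subgroup.mem_normalizer_iff.1 (blockKer_normalizer (hBQ t.2) (hBe t t.2)) _).1 hx))
  have hact : ∀ t g, act t (mk g) = mk (cj t g) := fun t g => rfl
  let φ : B →* AddMonoid.End (Additive (Q ⧸ S.subgroupOf Q)) :=
    { toFun := act
      map_one' := AddMonoidHom.ext fun m => by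
        obtain ⟨g, rfl⟩ := hmks m
        refine (hact 1 g).trans (congrArg mk (Subtype.ext ?_))
        rw [hcj]; simp
      map_mul' := fun s t => AddMonoidHom.ext fun m => by
        obtain ⟨g, rfl⟩ := hmks m
        refine (hact (s * t) g).trans ?_
        show _ = act s (act t (mk g))
        rw [hact, hact]
        refine congrArg mk (Subtype.ext ?_)
        rw [hcj, hcj, hcj]
        simp [mul_assoc] }
  have hφ : ∀ t g, φ t (mk g) = mk (cj t g) := hact
  have hsmall : ∀ z : B, (z : G) ∈ D → Nat.card (disp φ z).range ≤ 4 := by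
    intro z hz
    set Q0 := ⁅Q, Subgroup.zpowers (z : G)⁆ with hQ0
    have hzQ : (z : G) ∈ Subgroup.normalizer (Q : Set G) := hBQ z.2
    have hzN : Subgroup.zpowers (z : G) ≤ Subgroup.normalizer (Q : Set G) := Subgroup.zpowers_le.2 hzQ
    have hQ0Q : Q0 ≤ Q := commutator_le_left hzN
    have hcopz : (Nat.card (Subgroup.zpowers (z : G))).Coprime (Nat.card Q) :=
      hcopBQ.coprime_dvd_left (Subgroup.card_dvd_of_le (Subgroup.zpowers_le.2 z.2))
    have hQ0e : ∀ g ∈ Q0, Commute (ρ g) e := fun g hg => hQe g (hQ0Q hg)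
    have hzQ0 : (z : G) ∈ Subgroup.normalizer (Q0 : Set G) := by
      rw [← conj_smul_eq_self]
      show Subgroup.map (MulAut.conj _).toMonoidHom _ = _
      rw [hQ0, Subgroup.map_commutator]
      congr 1
      · exact conj_smul_eq_self.2 hzQ
      · exact conj_smul_eq_self.2 (Subgroup.le_normalizer (Subgroup.mem_zpowers _))
    have hdisp : ∀ m, disp φ z m ∈ mk '' {g : Q | (g : G) ∈ Q0} := by
      intro m
      obtain ⟨a, rfl⟩ := hmks m
      refine ⟨cj z a * a⁻¹, ?_, ?_⟩
      · show (z : G) * (a : G) * (z : G)⁻¹ * (a : G)⁻¹ ∈ Q0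
        rw [← commutatorElement_def, ← commutatorElement_inv]
        exact Q0.inv_mem (Subgroup.commutator_mem_commutator a.2 (Subgroup.mem_zpowers _))
      · rw [disp_apply, hφ, sub_eq_add_neg]; rfl
    rcases block_dichotomy (p := 3) (e := e) (k := 1) hqK (hQ.to_le hQ0Q) hee hQ0e hzQ0
        (hBe z z.2) (fun a ha b hb => hsc a (hQ0Q ha) b (hQ0Q hb)) le_rfl
        (by rw [pow_one]; exact hz3 z hz)
        (by
          rw [Nat.sub_self, pow_zero, pow_one, hQ0, commutator_commutator_eq hzN hcopz (Or.inr hQsol)])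
        (s := 2) (by norm_num) (c := fun i => if i = 1 then -2 else 1) (by simp)
        (by
          have h := hquad z hz
          rw [pow_two, sub_mul, mul_sub, mul_one, one_mul] at h
          simp only [Finset.sum_range_succ, Finset.sum_range_zero, zero_add]
          simp only [zero_ne_one, OfNat.ofNat_ne_one, if_true, if_false]
          rw [one_smul, one_smul, pow_zero,
            pow_one, pow_two, neg_smul, two_smul]
          convert zero_mul e using 2
          rw [← h]; abel) with htriv | ⟨j, m, -, -, -, hm, hidx⟩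
    · refine le_trans (Finite.card_le_one_iff_subsingleton.2 ⟨?_⟩) (by norm_num)
      have h0 : ∀ x : (disp φ z).range, x = 0 := by
        rintro ⟨_, m, rfl⟩
        obtain ⟨g, hg, hgm⟩ := hdisp m
        refine Subtype.ext (hgm.symm.trans ?_)
        exact congrArg Additive.ofMul ((QuotientGroup.eq_one_iff g).2
          (hcentral g g.2 1 (by rw [one_smul]; exact htriv g hg)))
      intro x y
      rw [h0 x, h0 y]
    have hker := blockKer_commutator_le hQe hcl hsc hQsol hzQ (hBe z z.2) hcopz hQ0e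
    refine le_trans (le_of_le_of_eq ?_ rfl) (show q ^ (2 * m) ≤ 4 by
      rw [mul_comm, pow_mul]
      exact le_trans (Nat.pow_le_pow_left hm 2) (by norm_num))
    rw [← hidx, Subgroup.relIndex, Subgroup.index_eq_card]
    have hfq : ∀ a b : Q0, (a : G)⁻¹ * b ∈ blockKer ρ Q0 e hQ0e →
        mk ⟨a, hQ0Q a.2⟩ = mk ⟨b, hQ0Q b.2⟩ := fun a b h =>
      congrArg Additive.ofMul (QuotientGroup.eq.2 (hker h))
    let f : Q0 ⧸ (blockKer ρ Q0 e hQ0e).subgroupOf Q0 → Additive (Q ⧸ S.subgroupOf Q) :=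
      fun x => Quotient.liftOn' x (fun a => mk ⟨a, hQ0Q a.2⟩) fun a b h =>
        hfq a b (Subgroup.mem_subgroupOf.1 ((QuotientGroup.leftRel_apply
          (s := (blockKer ρ Q0 e hQ0e).subgroupOf Q0)).1 h))
    have hsub : ∀ x : (disp φ z).range, (x : Additive (Q ⧸ S.subgroupOf Q)) ∈ Set.range f := by
      rintro ⟨_, m, rfl⟩
      obtain ⟨g, hg, hgm⟩ := hdisp m
      exact ⟨QuotientGroup.mk ⟨g, hg⟩, hgm⟩
    choose r hr using hsub
    exact Nat.card_le_card_of_injective r fun a b h => Subtype.ext (by rw [← hr a, h, hr b])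
  haveI : (D.subgroupOf B).Normal := ⟨fun x hx y => (Subgroup.mem_normalizer_iff.1 (hBD y.2) _).1 hx⟩
  have hDcomm : D.subgroupOf B ≤ commutator B := by
    intro x hx
    have h1 : (x : G) ∈ (commutator B).map B.subtype := by
      rw [commutator_def, Subgroup.map_commutator, ← MonoidHom.range_eq_map, Subgroup.range_subtype, hDB]
      exact hx
    obtain ⟨y, hy, he'⟩ := h1
    rwa [← B.subtype_injective he']
  have h3 : ∀ x : Additive (Q ⧸ S.subgroupOf Q), 3 • x = 0 → x = 0 := by
    intro x hx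
    obtain ⟨g, rfl⟩ := hmks x
    have h1 : (g : Q ⧸ S.subgroupOf Q) ^ 3 = 1 := congrArg Additive.toMul hx
    have h2 : (g : Q ⧸ S.subgroupOf Q) ^ (q ^ jQ) = 1 := by
      rw [← QuotientGroup.mk_pow, ← hjQ, pow_card_eq_one']; rfl
    have h := pow_gcd_eq_one.2 ⟨h1, h2⟩
    rw [(((Nat.coprime_primes Nat.prime_three hq).2 hq3).pow_right jQ).gcd_eq_one, pow_one] at h
    exact congrArg Additive.ofMul h
  have hfin := small_commutator_trivial h3 hB φ (D.subgroupOf B) hDcomm
    (fun a ha b hb => Subtype.ext (hDc _ ha _ hb)) (fun a ha => Subtype.ext (hz3 _ ha))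
    (fun a ha => hsmall a ha) ⟨z₀, hDle hz₀⟩ hz₀
  apply hz₀g₀
  have h := end_eq_one_iff.1 hfin (mk ⟨g₀⁻¹, Q.inv_mem hg₀⟩)
  rw [hφ] at h
  have h2 : (g₀⁻¹)⁻¹ * (z₀ * g₀⁻¹ * z₀⁻¹) ∈ S :=
    (QuotientGroup.eq (s := S.subgroupOf Q) (a := (⟨g₀⁻¹, Q.inv_mem hg₀⟩ : Q))).1
      (congrArg Additive.toMul h.symm)
  rw [inv_inv] at h2
  simpa [commutatorElement_def, mul_assoc] using h2

variable {p : ℕ} [hp : Fact p.Prime]

set_option maxHeartbeats 1000000 in
/-- The last term of the derived series of a Sylow subgroup lies in `O_p`. -/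
theorem derived_last_le_pCore (hp2 : p ≠ 2) {G : Type w} [Group G] [Finite G]
    (hG : IsPSolvable p G) (hO : pPrimeCore p G = ⊥) (S : Sylow p G) {d : ℕ}
    (hd : derivedSeries (S : Subgroup G) (d + 1) = ⊥) :
    (derivedSeries (S : Subgroup G) d).map (S : Subgroup G).subtype ≤ pCore p G := by
  classical
  set P := pCore p G with hP
  have hPS : P ≤ (S : Subgroup G) := pCore_le_sylow S
  set D0 := derivedSeries (S : Subgroup G) d with hD0
  have hDc : ∀ a ∈ D0, ∀ b ∈ D0, a * b = b * a := fun a ha b hb => by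
    rw [derivedSeries_succ, ← hD0, Subgroup.commutator_eq_bot_iff_le_centralizer] at hd
    exact (Subgroup.mem_centralizer_iff.1 (hd ha) b hb).symm
  set π := QuotientGroup.mk' P
  set f := π.comp (S : Subgroup G).subtype
  have hH : IsPSolvable p (G ⧸ P) := isPSolvable_quotient hG P
  obtain ⟨dd, r, ρ, hρ, hr, -, hrρ, hspan⟩ := exists_frattini_rep hG hO
  haveI : CharP (AlgebraicClosure (ZMod p)) p :=
    charP_of_injective_algebraMap (algebraMap (ZMod p) _).injective p
  have hr1 : r 1 = 0 := by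
    have h1 := hr 1 1
    rw [mul_one, left_eq_add] at h1
    exact h1
  have hrinv : ∀ a, r a⁻¹ = - r a := fun a => eq_neg_of_add_eq_zero_left (by
    rw [← hr, inv_mul_cancel, hr1])
  have hδ : ∀ (b : (S : Subgroup G)) (x : P), (ρ (f b) - 1) (r x) =
      r (⟨b * x * (b : G)⁻¹, (inferInstance : P.Normal).conj_mem _ x.2 _⟩ * x⁻¹) := fun b x => by
    rw [hr, hrρ, hrinv, LinearMap.sub_apply, Module.End.one_apply, sub_eq_add_neg]
    rfl
  have hcomm : ∀ (N : Subgroup (S : Subgroup G)), N.Normal → ∀ b ∈ N, ∀ x : (S : Subgroup G),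
      ⁅b, x⁆ ∈ N := fun N hN b hb x => by
    rw [commutatorElement_def, show b * x * b⁻¹ * x⁻¹ = b * (x * b⁻¹ * x⁻¹) by group]
    exact N.mul_mem hb (hN.conj_mem _ (N.inv_mem hb) x)
  have hquad : ∀ z ∈ D0, (ρ (f z) - 1) ^ 2 = 0 := by
    intro z hz
    refine LinearMap.ext_on hspan ?_
    rintro _ ⟨x, rfl⟩
    rw [pow_two, Module.End.mul_apply, hδ, hδ, LinearMap.zero_apply, ← hr1]
    set y : (S : Subgroup G) := ⟨(x : G), hPS x.2⟩
    have h := hDc z hz ⁅z, y⁆ (hcomm D0 inferInstance z hz y)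
    refine congrArg r (Subtype.ext ?_)
    have h' := congrArg Subtype.val h
    simp only [Subgroup.coe_mul, commutatorElement_def, Subgroup.coe_inv, y] at h'
    show (z : G) * ((z : G) * x * (z : G)⁻¹ * (x : G)⁻¹) * (z : G)⁻¹ *
      ((z : G) * x * (z : G)⁻¹ * (x : G)⁻¹)⁻¹ = 1
    rw [h']; group
  by_contra hle
  obtain ⟨_, ⟨z, hz, rfl⟩, hzP⟩ := SetLike.not_le_iff_exists.1 hle
  have hu1 : f z ≠ 1 := fun h => hzP ((QuotientGroup.eq_one_iff _).1 h)
  haveI : Nontrivial (Module.End (AlgebraicClosure (ZMod p)) (Fin dd → AlgebraicClosure (ZMod p))) :=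
    nontrivial_of_ne (ρ (f z)) 1 fun h => hu1 (hρ (h.trans (map_one ρ).symm))
  haveI : CharP (Module.End (AlgebraicClosure (ZMod p)) (Fin dd → AlgebraicClosure (ZMod p))) p :=
    charP_of_injective_algebraMap (FaithfulSMul.algebraMap_injective (AlgebraicClosure (ZMod p)) _) p
  have h3 : 3 ≤ p := by have := hp.out.two_le; omega
  have hup : f z ^ p = 1 := by
    apply hρ
    have h := sub_pow_char_pow_of_commute (p := p) 1 (Commute.one_right (ρ (f z)))
    rw [pow_one, one_pow, pow_eq_zero_of_le (show 2 ≤ p by omega) (hquad z hz)] at h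
    rw [map_one, map_pow]
    exact sub_eq_zero.1 h.symm
  obtain ⟨q, j, m, hq, -, -, hm, hjm, hms, -⟩ := exists_exception (p := p) hH
    (pCore_quotient_pCore p G) hρ (n := 1) le_rfl
    (by rw [pow_one]; exact orderOf_eq_prime hup hu1) (x := f z) (s := 2) (by rw [pow_one]; omega)
    (c := fun i => if i = 1 then (-2 : AlgebraicClosure (ZMod p)) else 1) (by simp)
    (by
      have h := hquad z hz
      rw [pow_two, sub_mul, mul_sub, mul_one, one_mul] at h
      simp only [Finset.sum_range_succ, Finset.sum_range_zero, zero_add]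
      simp only [zero_ne_one, OfNat.ofNat_ne_one, if_true, if_false]
      rw [one_smul, one_smul, pow_zero, pow_one, pow_two, ← h]
      module)
  have hq2 := hq.two_le
  have hqm : q ≤ q ^ m := Nat.le_self_pow (by omega) q
  have hj : p ^ j = 3 := by
    have : 1 ≤ p ^ j := Nat.one_le_pow _ _ hp.out.pos
    omega
  have hj0 : j ≠ 0 := by rintro rfl; simp at hj
  have hp3 : p = 3 := (Nat.prime_dvd_prime_iff_eq hp.out Nat.prime_three).1 (hj ▸ dvd_pow_self p hj0)
  subst hp3
  rcases Nat.eq_zero_or_pos d with rfl | hd0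
  · -- the Sylow subgroup is abelian
    refine hzP (centralizer_pCore_le hG hO ?_)
    rw [Subgroup.mem_centralizer_iff]
    intro y hy
    have h := hDc z hz ⟨y, hPS hy⟩ (by rw [hD0, derivedSeries_zero]; exact Subgroup.mem_top _)
    exact (congrArg Subtype.val h).symm
  obtain ⟨d', rfl⟩ : ∃ d', d = d' + 1 := ⟨d - 1, by omega⟩
  set B0 := derivedSeries (S : Subgroup G) d' with hB0
  have hDB0 : D0 = ⁅B0, B0⁆ := by rw [hD0, derivedSeries_succ]
  refine false_of_three (K := AlgebraicClosure (ZMod 3)) (G := G ⧸ P) (ρ := ρ)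
    (B := B0.map f) (D := D0.map f) hH (pCore_quotient_pCore 3 G) hρ
    ((S.isPGroup'.to_subgroup B0).map f) ?_ ?_ ?_ ?_ ?_
  · rw [hDB0, Subgroup.map_commutator]
  · exact fun h => hu1 (Subgroup.mem_bot.1 (h ▸ Subgroup.mem_map_of_mem f hz))
  · rintro _ ⟨a, ha, rfl⟩ _ ⟨b, hb, rfl⟩
    rw [← map_mul, ← map_mul, hDc a ha b hb]
  · rintro _ ⟨a, ha, rfl⟩
    exact hquad a ha
  rintro _ ⟨a, ha, rfl⟩ _ ⟨b, hb, rfl⟩
  refine LinearMap.ext_on hspan ?_
  rintro _ ⟨x, rfl⟩
  rw [pow_two, Module.End.mul_apply, Module.End.mul_apply, hδ, hδ, hδ, LinearMap.zero_apply, ← hr1]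
  set y : (S : Subgroup G) := ⟨(x : G), hPS x.2⟩
  have hyD : ⁅b, ⁅b, y⁆⁆ ∈ D0 := by
    rw [hDB0]
    exact Subgroup.commutator_mem_commutator hb (hcomm B0 inferInstance b hb y)
  have h := hDc a ha _ hyD
  refine congrArg r (Subtype.ext ?_)
  have h' := congrArg Subtype.val h
  simp only [Subgroup.coe_mul, commutatorElement_def, Subgroup.coe_inv, y] at h'
  show (a : G) * ((b : G) * ((b : G) * x * (b : G)⁻¹ * (x : G)⁻¹) * (b : G)⁻¹ *
      ((b : G) * x * (b : G)⁻¹ * (x : G)⁻¹)⁻¹) * (a : G)⁻¹ *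
      ((b : G) * ((b : G) * x * (b : G)⁻¹ * (x : G)⁻¹) * (b : G)⁻¹ *
      ((b : G) * x * (b : G)⁻¹ * (x : G)⁻¹)⁻¹)⁻¹ = 1
  rw [h']; group

theorem pLengthLE_derived (hp2 : p ≠ 2) :
    ∀ (d : ℕ) {G : Type w} [Group G] [Finite G], IsPSolvable p G →
      (∀ S : Sylow p G, derivedSeries (S : Subgroup G) d = ⊥) → PLengthLE p d G := by
  intro d
  induction d with
  | zero =>
    intro G _ _ _ hd
    refine pLengthLE_zero_of_exponent fun g ⟨k, hk⟩ => ?_
    obtain ⟨j, -, hj⟩ := (Nat.dvd_prime_pow hp.out).1 (orderOf_dvd_of_pow_eq_one hk)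
    have hz : IsPGroup p (Subgroup.zpowers g) := IsPGroup.of_card (n := j) (by rw [Nat.card_zpowers, hj])
    obtain ⟨S, hS⟩ := hz.exists_le_sylow
    have h := hd S
    rw [derivedSeries_zero] at h
    have h2 : (⟨g, hS (Subgroup.mem_zpowers g)⟩ : (S : Subgroup G)) ∈ (⊥ : Subgroup (S : Subgroup G)) :=
      h ▸ Subgroup.mem_top _
    rw [pow_zero, pow_one]
    exact congrArg Subtype.val (Subgroup.mem_bot.1 h2)
  | succ d ih =>
    intro G _ _ hG hd
    refine pLengthLE_succ_of_quotient ?_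
    set O := pPrimeCore p G
    set P := pCore p (G ⧸ O) with hPdef
    have hG1 : IsPSolvable p (G ⧸ O) := isPSolvable_quotient hG _
    refine ih (isPSolvable_quotient hG1 P) fun T => ?_
    obtain ⟨T1, rfl⟩ := Sylow.mapSurjective_surjective (QuotientGroup.mk'_surjective P) p T
    obtain ⟨T0, rfl⟩ := Sylow.mapSurjective_surjective (QuotientGroup.mk'_surjective O) p T1
    have hd1 : derivedSeries
        ((T0.mapSurjective (QuotientGroup.mk'_surjective O) : Sylow p (G ⧸ O)) : Subgroup (G ⧸ O))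
        (d + 1) = ⊥ := by
      have h := map_derivedSeries_eq
        (f := (QuotientGroup.mk' O).subgroupMap (T0 : Subgroup G))
        ((QuotientGroup.mk' O).subgroupMap_surjective _) (d + 1)
      rw [hd T0, Subgroup.map_bot] at h
      exact h.symm
    have hle := derived_last_le_pCore hp2 hG1 (pPrimeCore_quotient_pPrimeCore p)
      (T0.mapSurjective (QuotientGroup.mk'_surjective O)) hd1
    set T1 : Sylow p (G ⧸ O) := T0.mapSurjective (QuotientGroup.mk'_surjective O)
    have h := map_derivedSeries_eq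
      (f := (QuotientGroup.mk' P).subgroupMap (T1 : Subgroup (G ⧸ O)))
      ((QuotientGroup.mk' P).subgroupMap_surjective _) d
    refine h.symm.trans ((Subgroup.map_eq_bot_iff _).2 fun x hx => ?_)
    exact MonoidHom.mem_ker.2 (Subtype.ext ((QuotientGroup.eq_one_iff (x : G ⧸ O)).2
      (hle (Subgroup.mem_map_of_mem _ hx))))

end CfsgLib.HallHigmanExc
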