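/-
An element of order four squaring to minus one on a hyperbolic plane, for a Mersenne prime:
no `s`-group, `s` odd, is inverted by its square.
-/
import Mathlib
import Cfsg.Agent.Lib.HallHigmanExc.SmallCommutators
import Cfsg.Agent.Lib.HallHigmanExc.Config

set_option autoImplicit false
set_option linter.style.haveILetI false
set_option linter.unusedSectionVars false

open scoped commutatorElement

namespace CfsgLib.HallHigmanExc

universe u v w

variable {q : ℕ} [hq : Fact q.Prime] {M : Type v} [AddCommGroup M] {R : Type w} [Group R]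

theorem eq_zero_of_coprime_nsmul {a b : ℕ} (h : a.Coprime b) {x : M} (ha : a • x = 0)
    (hb : b • x = 0) : x = 0 :=
  AddMonoid.addOrderOf_eq_one_iff.1
    (Nat.eq_one_of_dvd_coprimes h (addOrderOf_dvd_iff_nsmul_eq_zero.2 ha)
      (addOrderOf_dvd_iff_nsmul_eq_zero.2 hb))

/-- An element of order prime to `q` trivial on `U` and modulo `U` is trivial. -/
theorem eq_one_of_stable (φ : R →* AddMonoid.End M) (hM : ∀ m : M, q • m = 0) {c : R} {N : ℕ}
    (hN : N.Coprime q) (hc : c ^ N = 1) (U : AddSubgroup M) (h1 : ∀ m ∈ U, φ c m = m)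
    (h2 : ∀ m, φ c m - m ∈ U) : φ c = 1 := by
  refine end_eq_one_iff.2 fun m => ?_
  have h : ∀ i : ℕ, φ (c ^ i) m = m + i • (φ c m - m) := by
    intro i
    induction i with
    | zero => rw [pow_zero, end_map_one_apply, zero_nsmul, add_zero]
    | succ i ih =>
      rw [pow_succ', end_map_mul_apply, ih, map_add, map_nsmul, h1 _ (h2 m), succ_nsmul]
      abel
  have h4 := h N
  rw [hc, end_map_one_apply, left_eq_add] at h4
  exact sub_eq_zero.1 (eq_zero_of_coprime_nsmul hN h4 (hM _))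

theorem eq_one_of_sq_eq_one_of_odd {A : Type*} [Monoid A] {x : A} {N : ℕ} (hN : Odd N)
    (hx : x ^ N = 1) (h2 : x ^ 2 = 1) : x = 1 := by
  obtain ⟨a, rfl⟩ := hN
  rwa [pow_succ, pow_mul, h2, one_pow, one_mul] at hx

variable {C : Type u} [AddCommGroup C]

/-- The data on the module. -/
structure PairData (q : ℕ) (φ : R →* AddMonoid.End M) (B : M →+ M →+ C) (i : R) : Prop where
  tors : ∀ m : M, q • m = 0
  alt : ∀ m, B m m = 0
  nondeg : ∀ m, (∀ m', B m m' = 0) → m = 0
  inv : ∀ r a b, B (φ r a) (φ r b) = B a b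
  inj : Function.Injective φ
  four : i * i * (i * i) = 1
  mersenne : ∃ j, 2 ≤ j ∧ q + 1 = 2 ^ j
  small : Nat.card (disp φ (i * i)).range ≤ q ^ 2

namespace PairData

variable [Finite M] {φ : R →* AddMonoid.End M} {B : M →+ M →+ C} {i : R}

theorem mod_four (h : PairData q φ B i) : q % 4 = 3 := by
  obtain ⟨j, hj, hq'⟩ := h.mersenne
  have h4 : 4 ∣ 2 ^ j := pow_dvd_pow 2 hj
  omega

theorem not_neg_one (h : PairData q φ B i) (a : ZMod q) : a * a ≠ -1 := fun ha => by
  have h9 := ZMod.exists_sq_eq_neg_one_iff.1 ⟨a, ha.symm⟩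
  exact h9 h.mod_four

theorem skew (h : PairData q φ B i) (a b : M) : B a b = - B b a := by
  have h1 := h.alt (a + b)
  simp only [map_add, AddMonoidHom.add_apply, h.alt, zero_add, add_zero] at h1
  rw [add_comm] at h1
  exact eq_neg_of_add_eq_zero_left h1

theorem inv_apply (h : PairData q φ B i) (r : R) (a b : M) : B (φ r⁻¹ a) b = B a (φ r b) := by
  rw [← h.inv r, ← end_map_mul_apply, mul_inv_cancel, end_map_one_apply]

theorem tau_neg (h : PairData q φ B i) {w : M} (hw : w ∈ (disp φ (i * i)).range) :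
    φ (i * i) w = -w := by
  obtain ⟨m, rfl⟩ := hw
  rw [disp_apply, map_sub, ← end_map_mul_apply, h.four, end_map_one_apply, neg_sub]

theorem i_mem (h : PairData q φ B i) {w : M} (hw : w ∈ (disp φ (i * i)).range) :
    φ i w ∈ (disp φ (i * i)).range := by
  obtain ⟨m, rfl⟩ := hw
  refine ⟨φ i m, ?_⟩
  rw [disp_apply, disp_apply, map_sub, ← end_map_mul_apply, ← end_map_mul_apply, mul_assoc]

theorem i_surj (h : PairData q φ B i) {w : M} (hw : w ∈ (disp φ (i * i)).range) :
    ∃ w' ∈ (disp φ (i * i)).range, φ i w' = w := by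
  refine ⟨φ i (φ i (φ i w)), h.i_mem (h.i_mem (h.i_mem hw)), ?_⟩
  rw [← end_map_mul_apply, ← end_map_mul_apply, ← end_map_mul_apply,
    show i * i * i * i = i * i * (i * i) by group, h.four, end_map_one_apply]

theorem odd_q (h : PairData q φ B i) : Odd q := Nat.odd_iff.2 (by have := h.mod_four; omega)

theorem eq_zero_of_orth (h : PairData q φ B i) {w : M} (hw : w ∈ (disp φ (i * i)).range)
    (horth : ∀ w' ∈ (disp φ (i * i)).range, B w w' = 0) : w = 0 := by
  obtain ⟨m0, rfl⟩ := hw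
  refine h.nondeg _ fun m => ?_
  have hC : B (disp φ (i * i) m0) (m + φ (i * i) m) = 0 := by
    have hfix : φ (i * i) (m + φ (i * i) m) = m + φ (i * i) m := by
      rw [map_add, ← end_map_mul_apply, h.four, end_map_one_apply, add_comm]
    rw [disp_apply, map_sub, AddMonoidHom.sub_apply, sub_eq_zero]
    conv_lhs => rw [← hfix, h.inv]
  have hW := horth _ ⟨m, rfl⟩
  rw [disp_apply φ (i * i) m, map_sub] at hW
  rw [map_add] at hC
  have h2 : 2 • B (disp φ (i * i) m0) m = 0 := by
    rw [sub_eq_zero] at hW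
    rw [hW, ← two_nsmul] at hC
    exact hC
  have hq0 : q • B (disp φ (i * i) m0) m = 0 := by
    rw [← AddMonoidHom.nsmul_apply, ← map_nsmul, h.tors, map_zero, AddMonoidHom.zero_apply]
  exact eq_zero_of_coprime_nsmul (Nat.coprime_two_left.2 h.odd_q) h2 hq0

variable [Module (ZMod q) M]

theorem map_smul' (r : R) (a : ZMod q) (m : M) : φ r (a • m) = a • φ r m :=
  ZMod.map_smul (F := AddMonoid.End M) (φ r) a m

theorem eq_zero_of_pair (h : PairData q φ B i) {v : M} (hv : v ∈ (disp φ (i * i)).range)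
    (hv0 : v ≠ 0) {a b : ZMod q} (hab : a • v + b • φ i v = 0) : a = 0 ∧ b = 0 := by
  have h1 := congrArg (φ i) hab
  rw [map_add, map_smul', map_smul', ← end_map_mul_apply, h.tau_neg hv, map_zero, smul_neg] at h1
  have hvi : φ i v ≠ 0 := fun h0 => hv0 (by
    have h9 := congrArg (φ i⁻¹) h0
    rwa [← end_map_mul_apply, inv_mul_cancel, end_map_one_apply, map_zero] at h9)
  have h2 : (a * a + b * b) • v = 0 := by
    have e : (a * a + b * b) • v = a • (a • v + b • φ i v) - b • (a • φ i v + -(b • v)) := by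
      rw [smul_add, smul_add, smul_smul, smul_smul, smul_smul, smul_neg, smul_smul, add_smul,
        mul_comm b a]
      abel
    rw [e, hab, h1, smul_zero, smul_zero, sub_zero]
  have h3 : a * a + b * b = 0 := (smul_eq_zero.1 h2).resolve_right hv0
  have hb : b = 0 := by
    by_contra hb
    refine h.not_neg_one (a * b⁻¹) ?_
    rw [mul_mul_mul_comm, eq_neg_of_add_eq_zero_left h3, neg_mul, mul_mul_mul_comm,
      mul_inv_cancel₀ hb, one_mul]
  subst hb
  exact ⟨mul_self_eq_zero.1 (by rwa [mul_zero, add_zero] at h3), rfl⟩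

theorem exists_coords (h : PairData q φ B i) {v : M} (hv : v ∈ (disp φ (i * i)).range)
    (hv0 : v ≠ 0) {w : M} (hw : w ∈ (disp φ (i * i)).range) :
    ∃ a b : ZMod q, w = a • v + b • φ i v := by
  set W := (disp φ (i * i)).range
  have hmem : ∀ a : ZMod q × ZMod q, a.1 • v + a.2 • φ i v ∈ W := fun a => by
    rw [← ZMod.natCast_zmod_val a.1, ← ZMod.natCast_zmod_val a.2, Nat.cast_smul_eq_nsmul,
      Nat.cast_smul_eq_nsmul]
    exact W.add_mem (W.nsmul_mem hv _) (W.nsmul_mem (h.i_mem hv) _)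
  let f : ZMod q × ZMod q → W := fun a => ⟨a.1 • v + a.2 • φ i v, hmem a⟩
  have hf : Function.Injective f := by
    intro a b hab
    have h0 : (a.1 - b.1) • v + (a.2 - b.2) • φ i v = 0 := by
      have h9 := congrArg Subtype.val hab
      simp only [f] at h9
      rw [sub_smul, sub_smul, ← sub_eq_zero.2 h9]
      abel
    obtain ⟨e1, e2⟩ := h.eq_zero_of_pair hv hv0 h0
    exact Prod.ext (sub_eq_zero.1 e1) (sub_eq_zero.1 e2)
  have hb := hf.bijective_of_nat_card_le (by rw [Nat.card_prod, Nat.card_zmod, ← pow_two]; exact h.small)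
  obtain ⟨a, ha⟩ := hb.2 ⟨w, hw⟩
  exact ⟨a.1, a.2, (congrArg Subtype.val ha).symm⟩

theorem B_smul (a : ZMod q) (m m' : M) : B (a • m) m' = a.val • B m m' := by
  rw [← AddMonoidHom.nsmul_apply, ← map_nsmul, ← Nat.cast_smul_eq_nsmul (ZMod q),
    ZMod.natCast_zmod_val]

theorem B_smul_right (a : ZMod q) (m m' : M) : B m (a • m') = a.val • B m m' := by
  rw [← map_nsmul, ← Nat.cast_smul_eq_nsmul (ZMod q), ZMod.natCast_zmod_val]

theorem plane_ne_zero (h : PairData q φ B i) {v : M} (hv : v ∈ (disp φ (i * i)).range)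
    (hv0 : v ≠ 0) : B v (φ i v) ≠ 0 := fun h0 => hv0 (h.eq_zero_of_orth hv fun w hw => by
  obtain ⟨a, b, rfl⟩ := h.exists_coords hv hv0 hw
  rw [map_add, B_smul_right, B_smul_right, h.alt, h0, smul_zero, smul_zero, add_zero])

theorem eq_zero_of_val_smul (h : PairData q φ B i) {v : M} (hv : v ∈ (disp φ (i * i)).range)
    (hv0 : v ≠ 0) {a : ZMod q} (ha : a.val • B v (φ i v) = 0) : a = 0 := by
  have hq0 : q • B v (φ i v) = 0 := by
    rw [← AddMonoidHom.nsmul_apply, ← map_nsmul, h.tors, map_zero, AddMonoidHom.zero_apply]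
  by_contra ha0
  refine h.plane_ne_zero hv hv0 (AddMonoid.addOrderOf_eq_one_iff.1
    (Nat.eq_one_of_dvd_coprimes ?_ (addOrderOf_dvd_iff_nsmul_eq_zero.2 ha)
      (addOrderOf_dvd_iff_nsmul_eq_zero.2 hq0)))
  refine (hq.out.coprime_iff_not_dvd.2 fun hd => ha0 ?_).symm
  rw [← ZMod.natCast_zmod_val a, (ZMod.natCast_eq_zero_iff _ q).2 hd]

/-- An element inverted by the square acts with scalar trace on the plane. -/
theorem exists_scalar (h : PairData q φ B i) {g : R} (hg : i * i * g * (i * i)⁻¹ = g⁻¹) :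
    ∃ a : ZMod q, ∀ w ∈ (disp φ (i * i)).range, φ g w + φ g⁻¹ w = a • w := by
  set W := (disp φ (i * i)).range
  have hzW : ∀ w ∈ W, φ g w + φ g⁻¹ w ∈ W := by
    rintro _ ⟨m, rfl⟩
    refine ⟨φ g m + φ g⁻¹ m, ?_⟩
    have hg' : i * i * g⁻¹ * (i * i)⁻¹ = g := by
      calc i * i * g⁻¹ * (i * i)⁻¹ = (i * i * g * (i * i)⁻¹)⁻¹ := by simp [mul_inv_rev, mul_assoc]
        _ = g := by rw [hg, inv_inv]
    have e1 : i * i * g = g⁻¹ * (i * i) := by rw [← hg]; group
    have e2 : i * i * g⁻¹ = g * (i * i) := mul_inv_eq_iff_eq_mul.1 hg'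
    rw [disp_apply, disp_apply, map_add, map_sub, map_sub, ← end_map_mul_apply, ← end_map_mul_apply,
      ← end_map_mul_apply, ← end_map_mul_apply, e1, e2]
    abel
  by_cases hW : W = ⊥
  · refine ⟨0, fun w hw => ?_⟩
    rw [hW, AddSubgroup.mem_bot] at hw
    rw [hw, map_zero, map_zero, smul_zero, add_zero]
  obtain ⟨v0, hv, hv0⟩ := (W.bot_or_exists_ne_zero).resolve_left hW
  have hself : ∀ v ∈ W, v ≠ 0 → ∃ a : ZMod q, φ g v + φ g⁻¹ v = a • v := by
    intro v hv hv0
    obtain ⟨a, b, hab⟩ := h.exists_coords hv hv0 (hzW v hv)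
    refine ⟨a, ?_⟩
    suffices hb : b = 0 by rw [hab, hb, zero_smul, add_zero]
    refine h.eq_zero_of_val_smul hv hv0 ?_
    have h0 : B v (φ g v + φ g⁻¹ v) = 0 := by
      rw [map_add, ← h.inv_apply g⁻¹ v v, inv_inv, h.skew (φ g v) v, add_comm, neg_add_cancel] at *
    rwa [hab, map_add, B_smul_right, B_smul_right, h.alt, smul_zero, zero_add] at h0
  have hiv : φ i v0 ∈ W := h.i_mem hv
  have hiv0 : φ i v0 ≠ 0 := fun h0 => hv0 (by
    have h9 := congrArg (φ i⁻¹) h0
    rwa [← end_map_mul_apply, inv_mul_cancel, end_map_one_apply, map_zero] at h9)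
  have hsum0 : v0 + φ i v0 ≠ 0 := fun h0 => by
    have := h.eq_zero_of_pair hv hv0 (a := 1) (b := 1) (by rw [one_smul, one_smul]; exact h0)
    exact one_ne_zero this.1
  obtain ⟨a, ha⟩ := hself v0 hv hv0
  obtain ⟨a', ha'⟩ := hself _ hiv hiv0
  obtain ⟨a'', ha''⟩ := hself _ (W.add_mem hv hiv) hsum0
  have hab : (a - a'') • v0 + (a' - a'') • φ i v0 = 0 := by
    rw [map_add, map_add, smul_add] at ha''
    rw [sub_smul, sub_smul, ← sub_eq_zero.2 ha'', ← ha, ← ha']
    abel
  obtain ⟨e1, e2⟩ := h.eq_zero_of_pair hv hv0 hab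
  rw [sub_eq_zero] at e1 e2
  refine ⟨a, fun w hw => ?_⟩
  obtain ⟨c, d, rfl⟩ := h.exists_coords hv hv0 hw
  calc φ g (c • v0 + d • φ i v0) + φ g⁻¹ (c • v0 + d • φ i v0)
      = c • (φ g v0 + φ g⁻¹ v0) + d • (φ g (φ i v0) + φ g⁻¹ (φ i v0)) := by
        rw [map_add, map_add, map_smul', map_smul', map_smul', map_smul', smul_add, smul_add]; abel
    _ = a • (c • v0 + d • φ i v0) := by
        rw [ha, ha', e2, ← e1, smul_add, smul_comm, smul_comm d a]

/-- An element of odd order commuting with `i` is trivial on the plane. -/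
theorem commuting_trivial (h : PairData q φ B i) {c : R} (hc : c * i = i * c) {N : ℕ} (hN : Odd N)
    (hcN : c ^ N = 1) {w : M} (hw : w ∈ (disp φ (i * i)).range) : φ c w = w := by
  set W := (disp φ (i * i)).range
  by_cases hw0 : w = 0
  · rw [hw0, map_zero]
  have hcW : φ c w ∈ W := by
    obtain ⟨m, rfl⟩ := hw
    refine ⟨φ c m, ?_⟩
    have hcc : c * (i * i) = i * i * c := by rw [← mul_assoc, hc, mul_assoc, hc, mul_assoc]
    rw [disp_apply, disp_apply, map_sub, ← end_map_mul_apply, ← end_map_mul_apply, hcc]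
  obtain ⟨a, b, hab⟩ := h.exists_coords hw hw0 hcW
  have hciw : φ c (φ i w) = a • φ i w - b • w := by
    rw [← end_map_mul_apply, hc, end_map_mul_apply, hab, map_add, map_smul', map_smul',
      ← end_map_mul_apply, h.tau_neg hw, smul_neg, sub_eq_add_neg]
  have hnorm : a * a + b * b = 1 := by
    have h1 := h.inv c w (φ i w)
    rw [hab, hciw] at h1
    simp only [map_add, map_sub, AddMonoidHom.add_apply, B_smul, B_smul_right,
      h.alt, smul_zero, add_zero, zero_add, sub_zero, h.skew (φ i w) w] at h1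
    rw [← sub_eq_zero]
    refine h.eq_zero_of_val_smul hw hw0 ?_
    have h2 : ((a.val * a.val + b.val * b.val : ℕ) : ℕ) • B w (φ i w) = (1 : ℕ) • B w (φ i w) := by
      rw [one_nsmul, add_nsmul, mul_nsmul, mul_nsmul]
      conv_rhs => rw [← h1]
      simp only [smul_neg, neg_nsmul, sub_neg_eq_add, zero_sub, nsmul_eq_smul]
    have hq0 : q • B w (φ i w) = 0 := by
      rw [← AddMonoidHom.nsmul_apply, ← map_nsmul, h.tors, map_zero, AddMonoidHom.zero_apply]
    have hmod : addOrderOf (B w (φ i w)) = q := addOrderOf_eq_prime hq0 (h.plane_ne_zero hw hw0)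
    have h3 := nsmul_eq_nsmul_iff_modEq.1 h2
    rw [hmod, ← ZMod.natCast_eq_natCast_iff] at h3
    push_cast at h3
    rw [ZMod.natCast_zmod_val, ZMod.natCast_zmod_val] at h3
    rw [h3, sub_self, ZMod.val_zero, zero_smul]
  -- Frobenius
  haveI : Nontrivial M := ⟨⟨w, 0, hw0⟩⟩
  haveI : CharP (Module.End (ZMod q) M) q :=
    charP_of_injective_algebraMap (FaithfulSMul.algebraMap_injective (ZMod q) _) q
  let L : R →* Module.End (ZMod q) M :=
    { toFun := fun r => (φ r).toZModLinearMap q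
      map_one' := LinearMap.ext fun m => end_map_one_apply φ m
      map_mul' := fun r r' => LinearMap.ext fun m => end_map_mul_apply φ r r' m }
  have hL : ∀ r m, L r m = φ r m := fun r m => rfl
  set T : Module.End (ZMod q) M := a • (1 : Module.End (ZMod q) M) + b • L i
  have hT : ∀ m, T m = a • m + b • φ i m := fun m => rfl
  have hTW : ∀ m ∈ W, T m = φ c m ∧ T m ∈ W := by
    intro m hm
    obtain ⟨x, y, rfl⟩ := h.exists_coords hw hw0 hm
    have hmem : φ c (x • w + y • φ i w) ∈ W := by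
      obtain ⟨m', hm'⟩ := hm
      rw [← hm']
      refine ⟨φ c m', ?_⟩
      have hcc : c * (i * i) = i * i * c := by rw [← mul_assoc, hc, mul_assoc, hc, mul_assoc]
      rw [disp_apply, disp_apply, map_sub, ← end_map_mul_apply, ← end_map_mul_apply, hcc]
    have e : T (x • w + y • φ i w) = φ c (x • w + y • φ i w) := by
      rw [hT, map_add, map_add, map_smul', map_smul', map_smul', map_smul', hab, hciw,
        ← end_map_mul_apply, h.tau_neg hw]
      module
    exact ⟨e, e ▸ hmem⟩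
  have hpow : ∀ k : ℕ, (T ^ k) w = φ (c ^ k) w ∧ φ (c ^ k) w ∈ W := by
    intro k
    induction k with
    | zero => rw [pow_zero, pow_zero, end_map_one_apply]; exact ⟨rfl, hw⟩
    | succ k ih =>
      obtain ⟨e1, e2⟩ := hTW _ ih.2
      rw [pow_succ', pow_succ', Module.End.mul_apply, ih.1, e1, end_map_mul_apply]
      exact ⟨rfl, e1 ▸ e2⟩
  have hTq : (T ^ q) w = a • w - b • φ i w := by
    rw [add_pow_char_of_commute (p := q) (h := (Commute.one_left (b • L i)).smul_left a), smul_pow, smul_pow,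
      one_pow, ZMod.pow_card, ZMod.pow_card, LinearMap.add_apply, LinearMap.smul_apply,
      LinearMap.smul_apply, Module.End.one_apply, ← map_pow, hL]
    obtain ⟨l, hl⟩ : ∃ l, q = 4 * l + 3 := ⟨q / 4, by have := h.mod_four; omega⟩
    have hi4 : i ^ q = i * i * i := by
      rw [hl, pow_add, pow_mul, show i ^ 4 = i * i * (i * i) by simp [pow_succ, mul_assoc], h.four,
        one_pow, one_mul, pow_succ, pow_two]
    rw [hi4, end_map_mul_apply, h.tau_neg (h.i_mem hw), smul_neg, sub_eq_add_neg]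
  have hfin : φ (c ^ (q + 1)) w = w := by
    rw [← (hpow (q + 1)).1, pow_succ', Module.End.mul_apply, hTq, hT, map_sub, map_smul', map_smul',
      ← end_map_mul_apply, h.tau_neg hw]
    calc a • (a • w - b • φ i w) + b • (a • φ i w - b • -w) = (a * a + b * b) • w := by module
      _ = w := by rw [hnorm, one_smul]
  obtain ⟨j, -, hj⟩ := h.mersenne
  have hcop : Nat.Coprime (q + 1) N := by
    rw [hj]; exact (Nat.coprime_two_left.2 hN).pow_left j
  let F : Subgroup R :=
    { carrier := {r | φ r w = w}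
      one_mem' := end_map_one_apply φ w
      mul_mem' := fun {x y} (hx : φ x w = w) (hy : φ y w = w) => by
        show φ (x * y) w = w
        rw [end_map_mul_apply, hy, hx]
      inv_mem' := fun {x} (hx : φ x w = w) => by
        show φ x⁻¹ w = w
        conv_lhs => rw [← hx, ← end_map_mul_apply, inv_mul_cancel, end_map_one_apply] }
  have h1 : c ^ ((q + 1 : ℕ) : ℤ) ∈ F := by rw [zpow_natCast]; exact hfin
  have hbez := Nat.gcd_eq_gcd_ab (q + 1) N
  rw [hcop.gcd_eq_one] at hbez
  have : c ∈ F := by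
    rw [← zpow_one c, show (1 : ℤ) = _ from hbez, zpow_add, zpow_mul, zpow_mul,
      zpow_natCast c N, hcN, one_zpow, mul_one]
    exact F.zpow_mem h1 _
  exact this

variable [Finite R]

set_option maxHeartbeats 1000000 in
/-- No nontrivial element of the `s`-group is inverted. -/
theorem eq_one_of_inverted (h : PairData q φ B i) {s : ℕ} [Fact s.Prime] (hs2 : s ≠ 2)
    (hsq : s ≠ q) (S : Subgroup R) (hS : IsPGroup s S)
    (hiS : i ∈ Subgroup.normalizer (S : Set R)) :
    ∀ x ∈ S, i * i * x * (i * i)⁻¹ = x⁻¹ → x = 1 := by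
  induction hn : Nat.card S using Nat.strong_induction_on generalizing S with
  | _ n ih =>
  subst hn
  intro x hxS hx
  have hsprime : s.Prime := Fact.out
  have hord : ∀ g ∈ S, ∃ N : ℕ, Odd N ∧ N.Coprime q ∧ g ^ N = 1 := by
    intro g hg
    obtain ⟨k, hk⟩ := hS ⟨g, hg⟩
    exact ⟨s ^ k, (hsprime.odd_of_ne_two hs2).pow, ((Nat.coprime_primes hsprime hq.out).2 hsq).pow_left k,
      congrArg Subtype.val hk⟩
  set τ := i * i with hτ
  set x' := i * x * i⁻¹ with hx'
  have hx'S : x' ∈ S := (Subgroup.mem_normalizer_iff.1 hiS x).1 hxS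
  have hix' : i * x' * i⁻¹ = x⁻¹ := by rw [← hx, hx', hτ]; group
  have hτx' : τ * x' * τ⁻¹ = x'⁻¹ := by
    calc τ * x' * τ⁻¹ = i * (τ * x * τ⁻¹) * i⁻¹ := by rw [hx', hτ]; group
      _ = _ := by rw [hx, hx']; group
  set T := Subgroup.closure ({x, x'} : Set R) with hT
  have hTS : T ≤ S := (Subgroup.closure_le _).2 (by rintro y (rfl | rfl) <;> assumption)
  have hiT : i ∈ Subgroup.normalizer (T : Set R) := by
    rw [← CfsgLib.CoprimeAction.conj_smul_eq_self]
    show T.map (MulAut.conj i).toMonoidHom = T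
    rw [hT, MonoidHom.map_closure, Set.image_pair]
    show Subgroup.closure {i * x * i⁻¹, i * x' * i⁻¹} = _
    rw [hix', ← hx']
    refine le_antisymm ((Subgroup.closure_le _).2 ?_) ((Subgroup.closure_le _).2 ?_)
    · rintro y (rfl | rfl)
      · exact Subgroup.subset_closure (Or.inr rfl)
      · exact Subgroup.inv_mem _ (Subgroup.subset_closure (Or.inl rfl))
    · rintro y (rfl | rfl)
      · have h8 : y⁻¹ ∈ Subgroup.closure ({x', y⁻¹} : Set R) := Subgroup.subset_closure (by simp)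
        have h9 := Subgroup.inv_mem _ h8
        rwa [inv_inv] at h9
      · exact Subgroup.subset_closure (Or.inl rfl)
  rcases lt_or_eq_of_le hTS with hlt | heq
  · exact ih _ (Set.Finite.card_lt_card (Set.toFinite (S : Set R)) hlt) T (hS.to_le hTS) hiT rfl x
      (Subgroup.subset_closure (Or.inl rfl)) hx
  by_contra hx1
  -- the invariant subgroup spanned by the plane
  set W := (disp φ τ).range
  set U : AddSubgroup M := AddSubgroup.closure {m | ∃ g ∈ S, ∃ w ∈ W, φ g w = m} with hU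
  have hWU : ∀ w ∈ W, w ∈ U := fun w hw =>
    AddSubgroup.subset_closure ⟨1, S.one_mem, w, hw, end_map_one_apply φ w⟩
  have hSU : ∀ g ∈ S, ∀ u ∈ U, φ g u ∈ U := by
    intro g hg u hu
    induction hu using AddSubgroup.closure_induction with
    | mem y hy =>
      obtain ⟨g', hg', w, hw, rfl⟩ := hy
      exact AddSubgroup.subset_closure ⟨g * g', S.mul_mem hg hg', w, hw, end_map_mul_apply φ g g' w⟩
    | zero => rw [map_zero]; exact U.zero_mem
    | add a b _ _ ha hb => rw [map_add]; exact U.add_mem ha hb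
    | neg a _ ha => rw [map_neg]; exact U.neg_mem ha
  have hmodU : ∀ g ∈ S, τ * g * τ⁻¹ = g⁻¹ → ∀ m, φ g m - m ∈ U := by
    intro g hg hgi m
    have hτU : ∀ m, φ τ m - m ∈ U := fun m => hWU _ ⟨m, rfl⟩
    have h1 : ∀ m, φ g⁻¹ m - φ g m ∈ U := by
      intro m
      have e : φ g⁻¹ m - φ g m =
          (φ τ (φ g (φ τ⁻¹ m)) - φ g (φ τ⁻¹ m)) - φ g (φ τ (φ τ⁻¹ m) - φ τ⁻¹ m) := by
        rw [← end_map_mul_apply φ τ τ⁻¹, mul_inv_cancel, end_map_one_apply, map_sub,
          ← end_map_mul_apply φ g τ⁻¹, ← end_map_mul_apply φ τ, ← mul_assoc, hgi]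
        abel
      rw [e]
      exact U.sub_mem (hτU _) (hSU g hg _ (hτU _))
    have h2 : ∀ m, φ (g ^ 2) m - m ∈ U := fun m => by
      have h9 := U.neg_mem (h1 (φ g m))
      rwa [neg_sub, ← end_map_mul_apply, ← end_map_mul_apply, inv_mul_cancel, end_map_one_apply,
        ← pow_two] at h9
    obtain ⟨N, ⟨a, ha⟩, -, hgN⟩ := hord g hg
    have h3 : ∀ k : ℕ, ∀ m, φ ((g ^ 2) ^ k) m - m ∈ U := by
      intro k
      induction k with
      | zero => intro m; rw [pow_zero, end_map_one_apply, sub_self]; exact U.zero_mem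
      | succ k ihk =>
        intro m
        have h9 := U.add_mem (h2 (φ ((g ^ 2) ^ k) m)) (ihk m)
        rwa [sub_add_sub_cancel, ← end_map_mul_apply, ← pow_succ'] at h9
    have h9 := h3 (a + 1) m
    rwa [← pow_mul, show 2 * (a + 1) = N + 1 by omega, pow_succ, hgN, one_mul] at h9
  have hxU := hmodU x hxS hx
  have hx'U := hmodU x' hx'S hτx'
  let FU : Subgroup R :=
    { carrier := {r | (∀ u ∈ U, φ r u ∈ U) ∧ ∀ m, φ r m - m ∈ U}
      one_mem' := ⟨fun u hu => by rwa [end_map_one_apply], fun m => by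
        rw [end_map_one_apply, sub_self]; exact U.zero_mem⟩
      mul_mem' := fun {a b} ha hb => ⟨fun u hu => by
          rw [end_map_mul_apply]; exact ha.1 _ (hb.1 u hu),
        fun m => by
          have h9 := U.add_mem (ha.2 (φ b m)) (hb.2 m)
          rwa [sub_add_sub_cancel, ← end_map_mul_apply] at h9⟩
      inv_mem' := fun {a} ha => ⟨fun u hu => by
          have h9 := U.sub_mem hu (ha.2 (φ a⁻¹ u))
          rwa [← end_map_mul_apply, mul_inv_cancel, end_map_one_apply, sub_sub_cancel] at h9,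
        fun m => by
          have h9 := U.neg_mem (ha.2 (φ a⁻¹ m))
          rwa [neg_sub, ← end_map_mul_apply, mul_inv_cancel, end_map_one_apply] at h9⟩ }
  have hSFU : S ≤ FU := by
    rw [← heq, hT, Subgroup.closure_le]
    rintro y (rfl | rfl)
    · exact ⟨hSU _ hxS, hxU⟩
    · exact ⟨hSU _ hx'S, hx'U⟩
  -- elements commuting with `i` and `S`
  have hkill : ∀ c ∈ S, c * i = i * c → (∀ g ∈ S, c * g = g * c) → c = 1 := by
    intro c hcS hci hcc
    obtain ⟨N, hN, hNq, hcN⟩ := hord c hcS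
    refine h.inj ?_
    rw [map_one]
    refine eq_one_of_stable φ h.tors hNq hcN U (fun u hu => ?_) (hSFU hcS).2
    induction hu using AddSubgroup.closure_induction with
    | mem y hy =>
      obtain ⟨g, hg, w, hw, rfl⟩ := hy
      rw [← end_map_mul_apply, hcc g hg, end_map_mul_apply, h.commuting_trivial hci hN hcN hw]
    | zero => rw [map_zero]
    | add a b _ _ ha hb => rw [map_add, ha, hb]
    | neg a _ ha => rw [map_neg, ha]
  -- `S` is abelian
  have hxx' : x * x' = x' * x := by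
    haveI := hS.isNilpotent
    have hτS : τ ∈ Subgroup.normalizer (S : Set R) := Subgroup.mul_mem _ hiS hiS
    have hiτ : Subgroup.zpowers i ≤ Subgroup.normalizer (Subgroup.zpowers τ : Set R) := by
      refine Subgroup.zpowers_le.2 (Subgroup.centralizer_le_normalizer _ ?_)
      rw [Subgroup.mem_centralizer_iff]
      intro d hd
      obtain ⟨k, rfl⟩ := Subgroup.mem_zpowers_iff.1 hd
      exact ((show Commute i τ from (Commute.refl i).mul_right (Commute.refl i)).zpow_right k).eq.symm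
    have hcop : (Nat.card (Subgroup.zpowers τ)).Coprime (Nat.card S) := by
      obtain ⟨k, hk⟩ := IsPGroup.iff_card.1 hS
      rw [hk, Nat.card_zpowers]
      refine Nat.Coprime.coprime_dvd_left (orderOf_dvd_of_pow_eq_one (n := 2) ?_) ?_
      · rw [pow_two, hτ, h.four]
      · exact ((Nat.coprime_primes Nat.prime_two hsprime).2 (Ne.symm hs2)).pow_right k
    obtain ⟨-, hcl, -⟩ := structure_of_minimal (q := s) (A := Subgroup.zpowers i)
      (D := Subgroup.zpowers τ) (Q := S) hS (Subgroup.zpowers_le.2 hiS) hiτ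
      (Subgroup.zpowers_le.2 hτS) hcop
      (fun hle => hx1 (eq_one_of_sq_eq_one_of_odd (hord x hxS).choose_spec.1
        (hord x hxS).choose_spec.2.2 (by
          rw [pow_two]
          have h9 := Subgroup.mem_centralizer_iff.1 (hle (Subgroup.mem_zpowers τ)) x hxS
          rw [← mul_inv_cancel x]
          congr 1
          rw [← hx, ← h9, mul_inv_cancel_right])))
      (fun R' hR' hiR' => Subgroup.zpowers_le.2 (Subgroup.mem_centralizer_iff.2 fun g hg => by
        have hτR' : τ ∈ Subgroup.normalizer (R' : Set R) :=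
          Subgroup.mul_mem _ (hiR' (Subgroup.mem_zpowers i)) (hiR' (Subgroup.mem_zpowers i))
        have hu : g * τ * g⁻¹ * τ⁻¹ = 1 := by
          refine ih _ (Set.Finite.card_lt_card (Set.toFinite (S : Set R)) hR') R' (hS.to_le hR'.le)
            (hiR' (Subgroup.mem_zpowers i)) rfl _ ?_ ?_
          · rw [show g * τ * g⁻¹ * τ⁻¹ = g * (τ * g⁻¹ * τ⁻¹) by group]
            exact R'.mul_mem hg ((Subgroup.mem_normalizer_iff.1 hτR' _).1 (R'.inv_mem hg))
          · have ht : τ⁻¹ = τ := inv_eq_of_mul_eq_one_right (by rw [hτ]; exact h.four)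
            calc τ * (g * τ * g⁻¹ * τ⁻¹) * τ⁻¹ = τ * g * τ * g⁻¹ * (τ⁻¹ * τ⁻¹) := by group
              _ = τ * g * τ⁻¹ * g⁻¹ * (τ * τ) := by rw [ht]
              _ = (g * τ * g⁻¹ * τ⁻¹)⁻¹ := by rw [show τ * τ = 1 from h.four]; group
        rw [mul_inv_eq_one, mul_inv_eq_iff_eq_mul] at hu
        exact hu))
    have hc0 : ⁅x, x'⁆ ∈ ⁅S, S⁆ := Subgroup.commutator_mem_commutator hxS hx'S
    have hcS : ⁅x, x'⁆ ∈ S := Subgroup.commutator_le_self S hc0
    have hcz : ∀ g ∈ S, ⁅x, x'⁆ * g = g * ⁅x, x'⁆ := fun g hg =>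
      (Subgroup.mem_centralizer_iff.1 (hcl hc0) g hg).symm
    have hci : ⁅x, x'⁆ * i = i * ⁅x, x'⁆ := by
      have e : i * ⁅x, x'⁆ * i⁻¹ = ⁅x', x⁻¹⁆ := by
        rw [conjugate_commutatorElement, ← hx', hix']
      have e2 : ⁅x', x⁻¹⁆ = x⁻¹ * ⁅x, x'⁆ * x := by
        rw [commutatorElement_def, commutatorElement_def]; group
      rw [e2, mul_assoc x⁻¹, hcz x hxS, inv_mul_cancel_left, mul_inv_eq_iff_eq_mul] at e
      exact e.symm
    have := hkill _ hcS hci hcz
    rwa [commutatorElement_eq_one_iff_mul_comm] at this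
  have hScomm : ∀ g ∈ S, ∀ g' ∈ S, g * g' = g' * g := by
    have hle : S ≤ Subgroup.centralizer (S : Set R) := by
      rw [← heq, hT]
      refine (Subgroup.closure_le _).2 fun y hy => ?_
      rw [SetLike.mem_coe, Subgroup.mem_centralizer_iff]
      intro z hz
      induction hz using Subgroup.closure_induction with
      | mem z hz => rcases hy with rfl | rfl <;> rcases hz with rfl | rfl <;> simp [hxx']
      | one => simp
      | mul a b _ _ ha hb => rw [mul_assoc, hb, ← mul_assoc, ha, mul_assoc]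
      | inv a _ ha => exact (Commute.inv_left (ha : Commute a y)).eq
    exact fun g hg g' hg' => Subgroup.mem_centralizer_iff.1 (hle hg') g hg
  -- scalars on `U`
  have hext : ∀ g ∈ S, ∀ a : ZMod q, (∀ w ∈ W, φ g w + φ g⁻¹ w = a • w) →
      ∀ u ∈ U, φ g u + φ g⁻¹ u = a • u := by
    intro g hg a ha u hu
    induction hu using AddSubgroup.closure_induction with
    | mem y hy =>
      obtain ⟨g', hg', w, hw, rfl⟩ := hy
      rw [← map_smul', ← ha w hw, map_add, ← end_map_mul_apply, ← end_map_mul_apply,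
        ← end_map_mul_apply, ← end_map_mul_apply, hScomm g hg g' hg',
        hScomm g⁻¹ (S.inv_mem hg) g' hg']
    | zero => rw [map_zero, map_zero, smul_zero, add_zero]
    | add a' b' _ _ ha' hb' => rw [map_add, map_add, smul_add, ← ha', ← hb']; abel
    | neg a' _ ha' => rw [map_neg, map_neg, smul_neg, ← ha']; abel
  have htrans : ∀ (g : R) (a : ZMod q), (∀ w ∈ W, φ g w + φ g⁻¹ w = a • w) →
      ∀ w ∈ W, φ (i * g * i⁻¹) w + φ (i * g * i⁻¹)⁻¹ w = a • w := by
    intro g a ha w hw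
    obtain ⟨w', hw', rfl⟩ := h.i_surj hw
    have e : ∀ r : R, φ (i * r * i⁻¹) (φ i w') = φ i (φ r w') := fun r => by
      rw [← end_map_mul_apply, ← end_map_mul_apply, inv_mul_cancel_right]
    rw [show (i * g * i⁻¹)⁻¹ = i * g⁻¹ * i⁻¹ by group, e, e, ← map_add, ha w' hw', map_smul']
  obtain ⟨a, ha⟩ := h.exists_scalar hx
  have hX := hext x hxS a ha
  have hX' := hext x' hx'S a (htrans x a ha)
  have hinvc : ∀ g g' : R, g * g' = g' * g → τ * g * τ⁻¹ = g⁻¹ → τ * g' * τ⁻¹ = g'⁻¹ →
      τ * (g * g') * τ⁻¹ = (g * g')⁻¹ := fun g g' hc h1 h2 => by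
    rw [show τ * (g * g') * τ⁻¹ = τ * g * τ⁻¹ * (τ * g' * τ⁻¹) by group, h1, h2, ← mul_inv_rev, hc]
  obtain ⟨b, hb⟩ := h.exists_scalar (hinvc x x' hxx' hx hτx')
  have hP := hext _ (S.mul_mem hxS hx'S) b hb
  have hP' := hext _ (S.mul_mem hx'S (S.inv_mem hxS)) b (fun w hw => by
    have h9 := htrans _ b hb w hw
    rwa [show i * (x * x') * i⁻¹ = i * x * i⁻¹ * (i * x' * i⁻¹) by group, ← hx', hix'] at h9)
  let D : R → M → M := fun g m => φ g m - φ g⁻¹ m
  have hDD : ∀ u ∈ U, D x (D x' u) = 0 := by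
    intro u hu
    show φ x (φ x' u - φ x'⁻¹ u) - φ x⁻¹ (φ x' u - φ x'⁻¹ u) = 0
    rw [map_sub, map_sub, ← end_map_mul_apply, ← end_map_mul_apply, ← end_map_mul_apply,
      ← end_map_mul_apply]
    have e1 := hP u hu
    have e2 := hP' u hu
    rw [mul_inv_rev, hScomm _ (S.inv_mem hx'S) _ (S.inv_mem hxS)] at e1
    rw [mul_inv_rev, inv_inv, hScomm _ hx'S _ (S.inv_mem hxS)] at e2
    calc φ (x * x') u - φ (x * x'⁻¹) u - (φ (x⁻¹ * x') u - φ (x⁻¹ * x'⁻¹) u)
        = (φ (x * x') u + φ (x⁻¹ * x'⁻¹) u) - (φ (x⁻¹ * x') u + φ (x * x'⁻¹) u) := by abel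
      _ = 0 := by rw [e1, e2, sub_self]
  have hD2 : ∀ g ∈ S, (∀ u ∈ U, φ g u + φ g⁻¹ u = a • u) →
      ∀ u ∈ U, D g (D g u) = (a * a - 4) • u := by
    intro g hg hz u hu
    show φ g (φ g u - φ g⁻¹ u) - φ g⁻¹ (φ g u - φ g⁻¹ u) = _
    have e0 : φ g (φ g⁻¹ u) = u := by rw [← end_map_mul_apply, mul_inv_cancel, end_map_one_apply]
    have e1 : φ g⁻¹ (φ g u) = u := by rw [← end_map_mul_apply, inv_mul_cancel, end_map_one_apply]
    have e2 : φ g (φ g u) + φ g⁻¹ (φ g u) = a • φ g u := hz _ (hSU g hg u hu)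
    have e3 : φ g (φ g⁻¹ u) + φ g⁻¹ (φ g⁻¹ u) = a • φ g⁻¹ u := hz _ (hSU _ (S.inv_mem hg) u hu)
    rw [e1] at e2
    rw [e0] at e3
    rw [map_sub, map_sub, e0, e1, sub_smul, mul_smul, ← hz u hu, smul_add, ← e2, ← e3]
    module
  have hDU : ∀ g ∈ S, ∀ u ∈ U, D g u ∈ U := fun g hg u hu =>
    U.sub_mem (hSU g hg u hu) (hSU _ (S.inv_mem hg) u hu)
  have hDc : ∀ u, D x (D x' u) = D x' (D x u) := fun u => by
    show φ x (φ x' u - φ x'⁻¹ u) - φ x⁻¹ (φ x' u - φ x'⁻¹ u) =
      φ x' (φ x u - φ x⁻¹ u) - φ x'⁻¹ (φ x u - φ x⁻¹ u)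
    simp only [map_sub, ← end_map_mul_apply, hScomm x hxS x' hx'S,
      hScomm x hxS _ (S.inv_mem hx'S), hScomm _ (S.inv_mem hxS) x' hx'S,
      hScomm _ (S.inv_mem hxS) _ (S.inv_mem hx'S)]
    abel
  have hsq : ∀ u ∈ U, ((a * a - 4) * (a * a - 4)) • u = 0 := by
    intro u hu
    rw [mul_smul, ← hD2 x' hx'S hX' u hu, ← hD2 x hxS hX _ (hDU _ hx'S _ (hDU _ hx'S u hu)),
      hDD _ (hDU _ hx'S u hu)]
    simp [D]
  -- `x` is trivial on `U`
  have htriv : ∀ u ∈ U, φ x u = u := by
    intro u hu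
    by_cases hu0 : u = 0
    · rw [hu0, map_zero]
    have h0 : (a * a - 4) = 0 := mul_self_eq_zero.1 ((smul_eq_zero.1 (hsq u hu)).resolve_right hu0)
    obtain ⟨N, hN, hNq, hxN⟩ := hord x hxS
    have hz : φ x (φ x u) + u = a • φ x u := by
      have e := hX _ (hSU x hxS u hu)
      rwa [← end_map_mul_apply φ x⁻¹, inv_mul_cancel, end_map_one_apply] at e
    have h22 : (a - 2) * (a + 2) = 0 := by rw [← h0]; ring
    rcases mul_eq_zero.1 h22 with h2 | h2
    · rw [sub_eq_zero] at h2
      set v := φ x u - u with hv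
      have hxv : φ x v = v := by
        rw [hv, map_sub]
        rw [h2, two_smul] at hz
        rw [eq_sub_of_add_eq hz]; abel
      have hpow : ∀ k : ℕ, φ (x ^ k) u = u + k • v := by
        intro k
        induction k with
        | zero => rw [pow_zero, end_map_one_apply, zero_nsmul, add_zero]
        | succ k ihk =>
          rw [pow_succ', end_map_mul_apply, ihk, map_add, map_nsmul, hxv, succ_nsmul, hv]
          abel
      have e := hpow N
      rw [hxN, end_map_one_apply, left_eq_add] at e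
      exact sub_eq_zero.1 (eq_zero_of_coprime_nsmul hNq e (h.tors _))
    · exfalso
      apply hu0
      rw [eq_neg_of_add_eq_zero_left h2, neg_smul, two_smul] at hz
      set v := φ x u + u with hv
      have hxv : φ x v = -v := by
        rw [hv, map_add, eq_sub_of_add_eq hz]; abel
      have hpow : ∀ k : ℕ, φ ((x ^ 2) ^ k) u = u + k • (-(2 • v)) := by
        intro k
        induction k with
        | zero => rw [pow_zero, end_map_one_apply, zero_nsmul, add_zero]
        | succ k ihk =>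
          rw [pow_succ', end_map_mul_apply, ihk, pow_two, end_map_mul_apply, map_add, map_nsmul,
            map_neg, map_nsmul, hxv, map_add, map_nsmul, map_neg, map_nsmul, map_neg, hxv, neg_neg,
            succ_nsmul, eq_sub_of_add_eq hz, hv]
          module
      have e := hpow N
      rw [← pow_mul, mul_comm, pow_mul, hxN, one_pow, end_map_one_apply, left_eq_add, smul_neg,
        neg_eq_zero, ← mul_nsmul] at e
      have hv0 : v = 0 := eq_zero_of_coprime_nsmul
        (Nat.Coprime.mul_left (Nat.coprime_two_left.2 h.odd_q) hNq) e (h.tors _)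
      have hxu : φ x u = -u := eq_neg_of_add_eq_zero_left hv0
      have hpow2 : ∀ k : ℕ, φ ((x ^ 2) ^ k) u = u := fun k => by
        rw [hpow k, hv0, smul_zero, neg_zero, smul_zero, add_zero]
      obtain ⟨l, rfl⟩ := hN
      rw [pow_succ', pow_mul] at hxN
      have e2 : φ (x * (x ^ 2) ^ l) u = u := by rw [hxN, end_map_one_apply]
      rw [end_map_mul_apply, hpow2, hxu] at e2
      refine eq_zero_of_coprime_nsmul (Nat.coprime_two_left.2 h.odd_q) ?_ (h.tors u)
      rw [two_nsmul]
      nth_rw 1 [← e2]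
      exact neg_add_cancel u
  obtain ⟨N, -, hNq, hxN⟩ := hord x hxS
  exact hx1 (h.inj ((eq_one_of_stable φ h.tors hNq hxN U htriv hxU).trans (map_one φ).symm))

end PairData

end CfsgLib.HallHigmanExc
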