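/-
An `s`-group moved by the involution of a cyclic `2`-group satisfying the fixed-point-free relation
centralizes every invariant `q`-group, both primes odd.
-/
import Mathlib
import Cfsg.Agent.S3784
import Cfsg.Agent.Lib.HallHigmanExc.Derived
import Cfsg.Agent.Lib.HallHigmanExc.SymplecticPair

set_option autoImplicit false
set_option linter.style.haveILetI false
set_option linter.unusedSectionVars false

open scoped commutatorElement

namespace CfsgLib.HallHigmanExc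

open CfsgLib.CoprimeAction

universe u v w

/-- The commutator identity in the first variable for a central commutator. -/
theorem commutator_mul_left_of_central {G : Type w} [Group G] {Q : Subgroup G}
    (hcl : ⁅Q, Q⁆ ≤ Subgroup.centralizer (Q : Set G)) {a b c : G} (ha : a ∈ Q) (hb : b ∈ Q)
    (hc : c ∈ Q) : ⁅a * b, c⁆ = ⁅a, c⁆ * ⁅b, c⁆ := by
  have h1 : ∀ x ∈ Q, x * ⁅b, c⁆ = ⁅b, c⁆ * x := fun x hx =>
    Subgroup.mem_centralizer_iff.1 (hcl (Subgroup.commutator_mem_commutator hb hc)) x hx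
  have h2 : ⁅a, c⁆ ∈ Q := Subgroup.commutator_le_self Q (Subgroup.commutator_mem_commutator ha hc)
  calc ⁅a * b, c⁆ = (a * ⁅b, c⁆) * a⁻¹ * ⁅a, c⁆ := by
        rw [commutatorElement_def, commutatorElement_def, commutatorElement_def]; group
    _ = ⁅b, c⁆ * ⁅a, c⁆ := by rw [h1 a ha, mul_inv_cancel_right]
    _ = _ := (h1 _ h2).symm

theorem mersenne_of_pow_sub_one {q j m : ℕ} (hq : q.Prime) (hq2 : q ≠ 2) (hm : 1 ≤ m)
    (h : 2 ^ j - 1 = q ^ m) : m = 1 ∧ 2 ≤ j ∧ q + 1 = 2 ^ j := by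
  have hq3 : 3 ≤ q := by have := hq.two_le; omega
  have hqm : q ≤ q ^ m := Nat.le_self_pow (by omega) q
  have hj : 2 ≤ j := by
    by_contra hlt
    have : j = 0 ∨ j = 1 := by omega
    rcases this with rfl | rfl <;> simp at h <;> omega
  have h' : 2 ^ j = q ^ m + 1 := by omega
  rcases Cfsg.Agent.S3784.result 2 q j m Nat.prime_two hq (by omega) hm h' with
    ⟨-, hm1, -, hqj⟩ | ⟨hq', -⟩ | ⟨h9, -⟩
  · exact ⟨hm1, hj, hqj⟩
  · exact absurd hq' hq2
  · have h2 : 2 ∣ 2 ^ j := dvd_pow_self 2 (by omega)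
    omega

variable {K : Type u} [Field K] {V : Type v} [AddCommGroup V] [Module K V]

set_option maxHeartbeats 1600000 in
theorem le_centralizer_of_involution [IsAlgClosed K] [FiniteDimensional K V] {H : Type w} [Group H]
    [Finite H] {ρ : H →* Module.End K V} (hρ : Function.Injective ρ) {q s : ℕ} [Fact q.Prime]
    [Fact s.Prime] (hq2 : q ≠ 2) (hs2 : s ≠ 2) (hsq : s ≠ q) (hqK : (q : K) ≠ 0)
    {Q S : Subgroup H} (hQ : IsPGroup q Q) (hS : IsPGroup s S) {σ : H}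
    (hσQ : σ ∈ Subgroup.normalizer (Q : Set H)) (hσS : σ ∈ Subgroup.normalizer (S : Set H))
    (hSQ : S ≤ Subgroup.normalizer (Q : Set H)) {n : ℕ} (hσ : σ ^ 2 ^ (n + 1) = 1)
    (hsum : ∑ i ∈ Finset.range (2 ^ (n + 1)), ρ σ ^ i = 0)
    (hgenS : S ≤ ⁅S, Subgroup.zpowers (σ ^ 2 ^ n)⁆) : S ≤ Subgroup.centralizer (Q : Set H) := by
  classical
  haveI : Fact (Nat.Prime 2) := ⟨Nat.prime_two⟩
  have hq : q.Prime := Fact.out
  have hs : s.Prime := Fact.out
  by_contra hne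
  set A := S ⊔ Subgroup.zpowers σ with hAdef
  have hAS : A ≤ Subgroup.normalizer (S : Set H) :=
    sup_le Subgroup.le_normalizer (Subgroup.zpowers_le.2 hσS)
  obtain ⟨Q₀, hQm⟩ := exists_minimal_of_wellFoundedLT (fun X : Subgroup H =>
    IsPGroup q X ∧ A ≤ Subgroup.normalizer (X : Set H) ∧ ¬ S ≤ Subgroup.centralizer (X : Set H))
    ⟨Q, hQ, sup_le hSQ (Subgroup.zpowers_le.2 hσQ), hne⟩
  clear hQ hσQ hSQ hne Q
  obtain ⟨hQ, hAQ, hne⟩ := hQm.prop
  rename' Q₀ => Q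
  have hmin : ∀ X : Subgroup H, X < Q → A ≤ Subgroup.normalizer (X : Set H) →
      S ≤ Subgroup.centralizer (X : Set H) := fun X hX hAX => by
    by_contra h
    exact hX.not_ge (hQm.le_of_le ⟨hQ.to_le hX.le, hAX, h⟩ hX.le)
  have hSQ : S ≤ Subgroup.normalizer (Q : Set H) := le_sup_left.trans hAQ
  have hσQ : σ ∈ Subgroup.normalizer (Q : Set H) := hAQ (Subgroup.mem_sup_right (Subgroup.mem_zpowers σ))
  obtain ⟨jQ, hjQ⟩ := IsPGroup.iff_card.1 hQ
  have hcopS : (Nat.card S).Coprime (Nat.card Q) := by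
    obtain ⟨jS, hjS⟩ := IsPGroup.iff_card.1 hS
    rw [hjS, hjQ]
    exact (((Nat.coprime_primes hs hq).2 hsq).pow_left jS).pow_right jQ
  obtain ⟨hgen, hcl, -⟩ := structure_of_minimal (A := A) (D := S) hQ hAQ hAS hSQ hcopS hne hmin
  haveI := hQ.isNilpotent
  have hQsol : Group.IsSolvable Q := inferInstance
  have hQ1 : Q ≠ ⊥ := fun h => hne fun x _ => Subgroup.mem_centralizer_iff.2 fun g hg => by
    rw [h, SetLike.mem_coe, Subgroup.mem_bot] at hg
    simp [hg]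
  -- the Frattini subgroup is central
  set Φ := (frattini Q).map Q.subtype with hΦ
  have hΦn : ∀ x ∈ Subgroup.normalizer (Q : Set H), x ∈ Subgroup.normalizer (Φ : Set H) := by
    intro x hx
    refine mem_normalizer_of_conj_mem ?_
    rintro _ ⟨g, hg, rfl⟩
    exact ⟨Subgroup.normalizerMonoidHom Q ⟨x, hx⟩ g,
      (Subgroup.characteristic_iff_map_le.1 (inferInstance : (frattini Q).Characteristic) _)
        ⟨g, hg, rfl⟩, rfl⟩
  have hΦlt : Φ < Q := by
    refine lt_of_le_of_ne (Subgroup.map_subtype_le _) fun h => hQ1 ?_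
    have h2 : frattini Q = ⊤ := Subgroup.map_injective Q.subtype_injective
      (h.trans (Subgroup.range_subtype Q).symm |>.trans (MonoidHom.range_eq_map _))
    have h3 : (⊥ : Subgroup Q) = ⊤ := frattini_nongenerating (by rw [bot_sup_eq, h2])
    rw [← Subgroup.range_subtype Q, MonoidHom.range_eq_map, ← h3, Subgroup.map_bot]
  have hDΦ := hmin Φ hΦlt fun x hx => hΦn x (hAQ hx)
  have hΦc : Φ ≤ Subgroup.centralizer (Q : Set H) := by
    rw [← Subgroup.commutator_eq_bot_iff_le_centralizer]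
    have hQDΦ : ⁅⁅Q, S⁆, Φ⁆ = ⊥ := by
      refine Subgroup.commutator_commutator_eq_bot_of_rotate ?_ ?_
      · rw [Subgroup.commutator_eq_bot_iff_le_centralizer.2 hDΦ, Subgroup.commutator_bot_left]
      · refine le_bot_iff.1 (le_trans (Subgroup.commutator_mono
          (commutator_le_left fun x hx => hΦn x (Subgroup.le_normalizer hx)) le_rfl) ?_)
        rw [Subgroup.commutator_comm, Subgroup.commutator_eq_bot_iff_le_centralizer.2 hDΦ]
    refine le_bot_iff.1 ((Subgroup.commutator_mono le_rfl hgen).trans ?_)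
    rw [Subgroup.commutator_comm, hQDΦ]
  have hA := card_centerImage_ne_zero (ρ := ρ) hQ hqK
  have hrel : σ ^ 2 ^ (n + 1) = 1 ∧ ∑ i ∈ Finset.range (2 ^ (n + 1)), ρ σ ^ i = 0 := ⟨hσ, hsum⟩
  set τ := σ ^ 2 ^ n with hτ
  have hττ : τ * τ = 1 := by rw [hτ, ← pow_add, ← two_mul, ← pow_succ', hσ]
  have hτQ : τ ∈ Subgroup.normalizer (Q : Set H) := Subgroup.pow_mem _ hσQ _
  have hτS : τ ∈ Subgroup.normalizer (S : Set H) := Subgroup.pow_mem _ hσS _
  have hτe : ∀ l : centerImage ρ Q →* Kˣ, blk (centerImage ρ Q) l ≠ 0 →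
      Commute (ρ τ) (blk (centerImage ρ Q) l) := fun l hl => pow_commute_blk hQ hqK hσQ hrel hl
  -- the centre is proper
  set Z := Q ⊓ Subgroup.centralizer (Q : Set H) with hZ
  have hZn : ∀ x ∈ Subgroup.normalizer (Q : Set H), x ∈ Subgroup.normalizer (Z : Set H) := by
    intro x hx
    refine mem_normalizer_of_conj_mem ?_
    rintro g ⟨hg, hgc⟩
    refine ⟨(Subgroup.mem_normalizer_iff.1 hx g).1 hg, ?_⟩
    refine Subgroup.mem_centralizer_iff.2 fun b hb => ?_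
    have hb' : x⁻¹ * b * x ∈ Q := by
      have := (Subgroup.mem_normalizer_iff.1 ((Subgroup.normalizer (Q : Set H)).inv_mem hx) b).1 hb
      simpa using this
    have h := Subgroup.mem_centralizer_iff.1 hgc _ hb'
    calc b * (x * g * x⁻¹) = x * (x⁻¹ * b * x * g) * x⁻¹ := by group
      _ = x * (g * (x⁻¹ * b * x)) * x⁻¹ := by rw [h]
      _ = _ := by group
  have hτnotc : ¬ τ ∈ Subgroup.centralizer (Q : Set H) := by
    intro hτc
    have h1 : ⁅Subgroup.zpowers τ, Q⁆ = ⊥ :=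
      Subgroup.commutator_eq_bot_iff_le_centralizer.2 (Subgroup.zpowers_le.2 hτc)
    refine hne (Subgroup.commutator_eq_bot_iff_le_centralizer.1 ?_)
    refine le_bot_iff.1 ((Subgroup.commutator_mono hgenS le_rfl).trans ?_)
    rw [Subgroup.commutator_commutator_eq_bot_of_rotate (H₁ := S) (H₂ := Subgroup.zpowers τ) (H₃ := Q)]
    · rw [h1, Subgroup.commutator_bot_left]
    · refine le_bot_iff.1 ((Subgroup.commutator_mono (commutator_le_left hSQ) le_rfl).trans ?_)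
      rw [Subgroup.commutator_comm, h1]
  have hZlt : Z < Q := by
    refine lt_of_le_of_ne inf_le_left fun hZQ => hτnotc ?_
    have hQab : ∀ g ∈ Q, g ∈ Subgroup.centralizer (Q : Set H) := fun g hg => (hZQ.ge hg).2
    obtain ⟨hf, hsumb⟩ := exists_sum_blk (K := K) (centerImage ρ Q) hA
    rw [Subgroup.mem_centralizer_iff]
    intro g hg
    suffices h : ρ (τ * g * τ⁻¹) = ρ g from (mul_inv_eq_iff_eq_mul.1 (hρ h)).symm
    rw [← mul_one (ρ (τ * g * τ⁻¹)), ← mul_one (ρ g), ← hsumb, Finset.mul_sum, Finset.mul_sum]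
    refine Finset.sum_congr rfl fun l _ => ?_
    by_cases hl : blk (centerImage ρ Q) l = 0
    · rw [hl, mul_zero, mul_zero]
    set e := blk (centerImage ρ Q) l
    obtain ⟨c, hc⟩ : ∃ c : K, ρ g * e = c • e :=
      ⟨_, mul_blk (centerImage ρ Q) l ⟨_, Subgroup.mem_map_of_mem ρ.toHomUnits
        (show g ∈ Q ⊓ Subgroup.centralizer (Q : Set H) from ⟨hg, hQab g hg⟩)⟩⟩
    rw [map_mul, map_mul, mul_assoc, (commute_inv (hτe l hl)).eq, mul_assoc, ← mul_assoc (ρ g), hc,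
      smul_mul_assoc, mul_smul_comm, ← mul_assoc, (hτe l hl).eq, mul_assoc, (rho_mul_inv τ).1, mul_one]
  have hSZ := hmin Z hZlt fun x hx => hZn x (hAQ hx)
  have hSe : ∀ l : centerImage ρ Q →* Kˣ, ∀ d ∈ S, Commute (ρ d) (blk (centerImage ρ Q) l) := by
    intro l d hd
    refine commute_blk _ (fun a => ?_) l
    obtain ⟨z, hz, hza⟩ := a.2
    rw [← hza]
    show ρ d * ρ z = ρ z * ρ d
    rw [← map_mul, ← map_mul, Subgroup.mem_centralizer_iff.1 (hSZ hd) z hz]
  refine hQ1 (eq_bot_of_blocks hQ hqK hρ hgen (fun l _ => hSe l) ?_)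
  intro l hl
  set e := blk (centerImage ρ Q) l with he
  have hee : e * e = e := by rw [he, blk_mul_blk _ hA, if_pos rfl]
  have hQe : ∀ g ∈ Q, Commute (ρ g) e := fun g hg => commute_blk_of_mem l hg
  have hsc : ∀ a ∈ Q, ∀ b ∈ Q, ∃ c : K, ρ (a * b * a⁻¹ * b⁻¹) * e = c • e :=
    fun a ha b hb => scalar_commutators hcl l ha hb
  obtain ⟨t, htn, hcom, c', hc', hrel'⟩ := exists_block_relation_pow hQ hqK hσQ hrel hl
  obtain ⟨k, hk⟩ : ∃ k, n = t + k := ⟨n - t, by omega⟩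
  set Se := blockKer ρ Q e hQe with hSeDef
  have hSQ' : ⁅Q, Q⁆ ≤ Se := commutator_le_blockKer hsc
  haveI hSn : (Se.subgroupOf Q).Normal := ⟨fun x hx y => by
    show (y : H) * x * (y : H)⁻¹ ∈ Se
    rw [show (y : H) * x * (y : H)⁻¹ = ⁅(y : H), (x : H)⁆ * x by simp [commutatorElement_def, mul_assoc]]
    exact Se.mul_mem (hSQ' (Subgroup.commutator_mem_commutator y.2 x.2)) hx⟩
  have hMcomm : ∀ a b : Q ⧸ Se.subgroupOf Q, a * b = b * a := fun a b => by
    induction a using QuotientGroup.induction_on with | _ a =>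
    induction b using QuotientGroup.induction_on with | _ b =>
    rw [← QuotientGroup.mk_mul, ← QuotientGroup.mk_mul, QuotientGroup.eq]
    refine hSQ' ?_
    have h := Subgroup.commutator_mem_commutator (Q.inv_mem b.2) (Q.inv_mem a.2)
    simpa [commutatorElement_def, mul_assoc] using h
  letI : CommGroup (Q ⧸ Se.subgroupOf Q) :=
    { (inferInstance : Group (Q ⧸ Se.subgroupOf Q)) with mul_comm := hMcomm }
  let mk : Q → Additive (Q ⧸ Se.subgroupOf Q) := fun g => Additive.ofMul (g : Q ⧸ Se.subgroupOf Q)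
  have hmks : Function.Surjective mk := fun m => by
    obtain ⟨g, hg⟩ := QuotientGroup.mk_surjective (Additive.toMul m)
    exact ⟨g, congrArg Additive.ofMul hg⟩
  let R : Subgroup H :=
    { carrier := {r | r ∈ A ∧ Commute (ρ r) e}
      one_mem' := ⟨A.one_mem, by rw [map_one]; exact Commute.one_left e⟩
      mul_mem' := fun {x y} hx hy => ⟨A.mul_mem hx.1 hy.1, by rw [map_mul]; exact hx.2.mul_left hy.2⟩
      inv_mem' := fun {x} hx => ⟨A.inv_mem hx.1, commute_inv hx.2⟩ }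
  have hSR : S ≤ R := fun d hd => ⟨Subgroup.mem_sup_left hd, hSe l d hd⟩
  have hσmem : ∀ i, 2 ^ t ∣ i → σ ^ i ∈ R := fun i hi =>
    ⟨A.pow_mem (Subgroup.mem_sup_right (Subgroup.mem_zpowers σ)) i, by
      obtain ⟨a, rfl⟩ := hi
      rw [pow_mul, map_pow]
      exact hcom.pow_left a⟩
  have hτR : τ ∈ R := hσmem _ (pow_dvd_pow 2 htn)
  let cj : R → MulAut Q := fun r => Subgroup.normalizerMonoidHom Q ⟨r, hAQ r.2.1⟩
  have hcj : ∀ (r : R) (g : Q), ((cj r g : Q) : H) = r * g * (r : H)⁻¹ := fun _ _ => rfl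
  let act : R → AddMonoid.End (Additive (Q ⧸ Se.subgroupOf Q)) := fun r =>
    MonoidHom.toAdditive (QuotientGroup.map _ (Se.subgroupOf Q) (cj r).toMonoidHom (fun x hx =>
      show ((cj r x : Q) : H) ∈ Se from
        (Subgroup.mem_normalizer_iff.1 (blockKer_normalizer (hAQ r.2.1) r.2.2) _).1 hx))
  have hact : ∀ r g, act r (mk g) = mk (cj r g) := fun r g => rfl
  let φ : R →* AddMonoid.End (Additive (Q ⧸ Se.subgroupOf Q)) :=
    { toFun := act
      map_one' := AddMonoidHom.ext fun m => by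
        obtain ⟨g, rfl⟩ := hmks m
        refine (hact 1 g).trans (congrArg mk (Subtype.ext ?_))
        rw [hcj]; simp
      map_mul' := fun r r' => AddMonoidHom.ext fun m => by
        obtain ⟨g, rfl⟩ := hmks m
        refine (hact (r * r') g).trans ?_
        show _ = act r (act r' (mk g))
        rw [hact, hact]
        refine congrArg mk (Subtype.ext ?_)
        rw [hcj, hcj, hcj]
        simp [mul_assoc] }
  have hφ : ∀ r g, φ r (mk g) = mk (cj r g) := hact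
  suffices hker : ∀ d (hd : d ∈ S), φ ⟨d, hSR hd⟩ = 1 by
    have hle : ⁅Q, S⁆ ≤ Se := by
      refine Subgroup.commutator_le.2 fun g hg d hd => ?_
      have h := end_eq_one_iff.1 (hker d hd) (mk ⟨g⁻¹, Q.inv_mem hg⟩)
      rw [hφ] at h
      have h2 : (g⁻¹)⁻¹ * (d * g⁻¹ * d⁻¹) ∈ Se :=
        (QuotientGroup.eq (s := Se.subgroupOf Q) (a := (⟨g⁻¹, Q.inv_mem hg⟩ : Q))).1
          (congrArg Additive.toMul h.symm)
      rw [inv_inv] at h2
      simpa [commutatorElement_def, mul_assoc] using h2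
    intro g hg b hb
    exact (hle (hgen hg)).2 b hb
  -- every commutator with `τ` is trivial on the quotient
  have hkerle : ⁅S, Subgroup.zpowers τ⁆ ≤ φ.ker.map R.subtype ↔
      ∀ g ∈ S, ⁅g, τ⁆ ∈ φ.ker.map R.subtype := by
    refine ⟨fun h g hg => h (Subgroup.commutator_mem_commutator hg (Subgroup.mem_zpowers τ)),
      fun h => Subgroup.commutator_le.2 fun g hg d hd => ?_⟩
    obtain ⟨i, rfl⟩ := (isOfFinOrder_of_finite τ).mem_zpowers_iff_mem_range_orderOf.1 hd |>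
      Finset.mem_image.1 |>.imp fun _ h => h.2
    rw [pow_eq_pow_mod i (show τ ^ 2 = 1 by rw [pow_two, hττ])]
    rcases Nat.mod_two_eq_zero_or_one i with h0 | h0 <;> rw [h0]
    · rw [pow_zero, commutatorElement_one_right]; exact one_mem _
    · rw [pow_one]; exact h g hg
  suffices hgoal : ∀ g ∈ S, ⁅g, τ⁆ ∈ φ.ker.map R.subtype by
    intro d hd
    obtain ⟨r, hr, he'⟩ := hkerle.2 hgoal (hgenS hd)
    rw [show (⟨d, hSR hd⟩ : R) = r from Subtype.ext he'.symm]
    exact hr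
  have hcomR : ∀ g (hg : g ∈ S), ⁅g, τ⁆ ∈ S := fun g hg => by
    rw [commutatorElement_def, mul_assoc, mul_assoc, ← mul_assoc τ]
    exact S.mul_mem hg ((Subgroup.mem_normalizer_iff.1 hτS _).1 (S.inv_mem hg))
  set Q0 := ⁅Q, Subgroup.zpowers τ⁆ with hQ0
  have hzN : Subgroup.zpowers τ ≤ Subgroup.normalizer (Q : Set H) := Subgroup.zpowers_le.2 hτQ
  have hQ0Q : Q0 ≤ Q := commutator_le_left hzN
  have hcopτ : (Nat.card (Subgroup.zpowers τ)).Coprime (Nat.card Q) := by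
    rw [Nat.card_zpowers, hjQ]
    exact Nat.Coprime.coprime_dvd_left (orderOf_dvd_of_pow_eq_one (n := 2) (by rw [pow_two, hττ]))
      (((Nat.coprime_primes Nat.prime_two hq).2 (Ne.symm hq2)).pow_right jQ)
  have hQ0e : ∀ g ∈ Q0, Commute (ρ g) e := fun g hg => hQe g (hQ0Q hg)
  have hy'Q0 : σ ^ 2 ^ t ∈ Subgroup.normalizer (Q0 : Set H) := by
    rw [← conj_smul_eq_self]
    show Subgroup.map (MulAut.conj _).toMonoidHom _ = _
    rw [hQ0, Subgroup.map_commutator]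
    congr 1
    · exact conj_smul_eq_self.2 (Subgroup.pow_mem _ hσQ _)
    · rw [MonoidHom.map_zpowers]
      congr 1
      show σ ^ 2 ^ t * σ ^ 2 ^ n * (σ ^ 2 ^ t)⁻¹ = σ ^ 2 ^ n
      rw [← pow_add, add_comm, pow_add, mul_inv_cancel_right]
  have hdisp : ∀ m, disp φ ⟨τ, hτR⟩ m ∈ mk '' {g : Q | (g : H) ∈ Q0} := by
    intro m
    obtain ⟨a, rfl⟩ := hmks m
    refine ⟨cj ⟨τ, hτR⟩ a * a⁻¹, ?_, ?_⟩
    · show τ * (a : H) * τ⁻¹ * (a : H)⁻¹ ∈ Q0
      rw [← commutatorElement_def, ← commutatorElement_inv]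
      exact Q0.inv_mem (Subgroup.commutator_mem_commutator a.2 (Subgroup.mem_zpowers τ))
    · rw [disp_apply, hφ, sub_eq_add_neg]; rfl
  rcases block_dichotomy (p := 2) (e := e) (k := k + 1) hqK (hQ.to_le hQ0Q) hee hQ0e hy'Q0 hcom
      (fun a ha b hb => hsc a (hQ0Q ha) b (hQ0Q hb)) (Nat.le_add_left 1 k)
      (by rw [← pow_mul, ← pow_add, show t + (k + 1) = n + 1 by omega, hσ])
      (by
        rw [Nat.add_sub_cancel, ← pow_mul, ← pow_add, ← hk, ← hτ, hQ0,
          commutator_commutator_eq hzN hcopτ (Or.inr hQsol)])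
      (s := (2 ^ (n + 1) - 1) / 2 ^ t)
      (by
        rw [Nat.div_lt_iff_lt_mul (pow_pos two_pos _), ← pow_add, show k + 1 + t = n + 1 by omega]
        exact Nat.sub_lt (pow_pos two_pos _) one_pos)
      hc' hrel' with htriv | ⟨j, m, hjk, hm, hjm, -, hidx⟩
  · -- the involution is trivial on the quotient
    have hτ1 : φ ⟨τ, hτR⟩ = 1 := by
      refine end_eq_one_iff.2 fun x => sub_eq_zero.1 ?_
      obtain ⟨g, hg, hgm⟩ := hdisp x
      rw [← disp_apply φ, ← hgm]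
      refine congrArg Additive.ofMul ((QuotientGroup.eq_one_iff g).2 ⟨g.2, fun b hb => ?_⟩)
      show ρ (g : H) * ρ b * e = ρ b * ρ (g : H) * e
      rw [mul_assoc, (hQe b hb).eq, ← mul_assoc, htriv _ hg, mul_assoc (ρ b), htriv _ hg,
        (hQe b hb).eq]
    intro g hg
    refine ⟨⟨g, hSR hg⟩ * ⟨τ, hτR⟩ * (⟨g, hSR hg⟩ : R)⁻¹ * (⟨τ, hτR⟩ : R)⁻¹, ?_, rfl⟩
    rw [SetLike.mem_coe, MonoidHom.mem_ker, map_mul, map_mul, map_mul, hτ1, mul_one, ← map_mul,
      mul_inv_cancel, map_one, one_mul]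
    have h9 := (map_mul φ ⟨τ, hτR⟩ (⟨τ, hτR⟩ : R)⁻¹)
    rw [mul_inv_cancel, map_one, hτ1, one_mul] at h9
    exact h9.symm
  obtain ⟨hm1, hj2, hqj⟩ := mersenne_of_pow_sub_one hq hq2 hm hjm
  obtain ⟨n', rfl⟩ : ∃ n', n = n' + 1 := ⟨n - 1, by omega⟩
  have hiR : σ ^ 2 ^ n' ∈ R := hσmem _ (pow_dvd_pow 2 (by omega))
  have hii : (⟨σ ^ 2 ^ n', hiR⟩ : R) * ⟨σ ^ 2 ^ n', hiR⟩ = ⟨τ, hτR⟩ := Subtype.ext (by
    show σ ^ 2 ^ n' * σ ^ 2 ^ n' = σ ^ 2 ^ (n' + 1)
    rw [← pow_add, ← two_mul, ← pow_succ'])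
  have htors : ∀ x : Additive (Q ⧸ Se.subgroupOf Q), q • x = 0 := fun x => by
    obtain ⟨g, rfl⟩ := hmks x
    refine congrArg Additive.ofMul ((QuotientGroup.mk_pow (Se.subgroupOf Q) g q).symm.trans
      ((QuotientGroup.eq_one_iff (g ^ q)).2 ⟨(g ^ q).2, fun b hb => ?_⟩))
    rw [← map_mul, ← map_mul,
      ← Subgroup.mem_centralizer_iff.1
        (hΦc ⟨g ^ q, CfsgLib.PGroups.pow_mem_frattini hQ g, rfl⟩) b hb]
  -- the commutator form
  let ζ : (Q ⊓ Subgroup.centralizer (Q : Set H) : Subgroup H) →* Kˣ :=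
    l.comp ((ρ.toHomUnits.comp (Q ⊓ Subgroup.centralizer (Q : Set H) : Subgroup H).subtype).codRestrict
      (centerImage ρ Q) (fun g => Subgroup.mem_map_of_mem ρ.toHomUnits g.2))
  have hζ : ∀ g : (Q ⊓ Subgroup.centralizer (Q : Set H) : Subgroup H),
      ρ g * e = (ζ g : K) • e := fun g =>
    mul_blk (centerImage ρ Q) l ⟨_, Subgroup.mem_map_of_mem ρ.toHomUnits g.2⟩
  have hcmem : ∀ a b : Q, ⁅(a : H), (b : H)⁆ ∈ Q ⊓ Subgroup.centralizer (Q : Set H) := fun a b =>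
    ⟨Subgroup.commutator_le_self Q (Subgroup.commutator_mem_commutator a.2 b.2),
      hcl (Subgroup.commutator_mem_commutator a.2 b.2)⟩
  let χ : Q → Q → Kˣ := fun a b => ζ ⟨_, hcmem a b⟩
  have hχskew : ∀ a b, χ a b = (χ b a)⁻¹ := fun a b => by
    rw [← map_inv]
    exact congrArg ζ (Subtype.ext (commutatorElement_inv (b : H) (a : H)).symm)
  have hχmul : ∀ a a' b, χ (a * a') b = χ a b * χ a' b := fun a a' b => by
    rw [← map_mul]
    exact congrArg ζ (Subtype.ext (commutator_mul_left_of_central hcl a.2 a'.2 b.2))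
  have hχmul' : ∀ a b b', χ a (b * b') = χ a b * χ a b' := fun a b b' => by
    rw [hχskew, hχmul, mul_inv, ← hχskew, ← hχskew]
  have hχker : ∀ a : Q, (∀ b, χ a b = 1) ↔ (a : H) ∈ Se := by
    intro a
    constructor
    · intro h
      refine ⟨a.2, fun b hb => (mul_eq_iff_commutator hQe a.2 hb).2 ?_⟩
      rw [show ρ ⁅(a : H), b⁆ * e = _ from hζ ⟨_, hcmem a ⟨b, hb⟩⟩,
        show ζ ⟨_, hcmem a ⟨b, hb⟩⟩ = 1 from h ⟨b, hb⟩, Units.val_one, one_smul]
    · intro h b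
      have h1 := (mul_eq_iff_commutator hQe a.2 b.2).1 (h.2 b b.2)
      rw [show ρ ⁅(a : H), (b : H)⁆ * e = _ from hζ ⟨_, hcmem a b⟩] at h1
      nth_rw 2 [← one_smul K e] at h1
      exact Units.ext ((smul_left_injective K hl) h1)
  let β : Q →* (Q →* Kˣ) := MonoidHom.mk' (fun a => MonoidHom.mk' (χ a) (hχmul' a))
    (fun a a' => MonoidHom.ext fun b => hχmul a a' b)
  have hβ : Se.subgroupOf Q ≤ β.ker := fun a ha => MonoidHom.mem_ker.2 (MonoidHom.ext fun b =>
    (hχker a).2 ha b)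
  let β₁ : (Q ⧸ Se.subgroupOf Q) →* (Q →* Kˣ) := QuotientGroup.lift _ β hβ
  have hβ₁ : Se.subgroupOf Q ≤ β₁.flip.ker := fun b hb => MonoidHom.mem_ker.2 (MonoidHom.ext fun x => by
    induction x using QuotientGroup.induction_on with | _ a =>
    show χ a b = 1
    rw [hχskew, (hχker b).2 hb a, inv_one])
  let β₂ : (Q ⧸ Se.subgroupOf Q) →* ((Q ⧸ Se.subgroupOf Q) →* Kˣ) := QuotientGroup.lift _ β₁.flip hβ₁
  let B : Additive (Q ⧸ Se.subgroupOf Q) →+ Additive (Q ⧸ Se.subgroupOf Q) →+ Additive Kˣ :=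
    AddMonoidHom.mk' (fun x => (β₂ (Additive.toMul x)).toAdditive)
      (fun x y => AddMonoidHom.ext fun z => by
        show Additive.ofMul (β₂ (Additive.toMul (x + y)) (Additive.toMul z)) = _
        rw [toMul_add, map_mul]
        rfl)
  have hBmk : ∀ a b : Q, B (mk a) (mk b) = Additive.ofMul (χ b a) := fun a b => rfl
  let R' := φ.toHomUnits.range
  let ψ : R' →* AddMonoid.End (Additive (Q ⧸ Se.subgroupOf Q)) :=
    (Units.coeHom _).comp R'.subtype
  let f : R →* R' := φ.toHomUnits.rangeRestrict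
  have hψ : ∀ r : R, ψ (f r) = φ r := fun r => rfl
  have hψinj : Function.Injective ψ := fun a b h => Subtype.ext (Units.ext h)
  haveI : Finite R' := Finite.of_surjective f φ.toHomUnits.rangeRestrict_surjective
  set i' : R' := f ⟨σ ^ 2 ^ n', hiR⟩ with hi'
  have hτ' : i' * i' = f ⟨τ, hτR⟩ := by rw [hi', ← map_mul, hii]
  have hdata : PairData q ψ B i' := by
    refine ⟨htors, fun x => ?_, fun x hx => ?_, fun r a b => ?_, hψinj, ?_, ⟨j, hj2, hqj⟩, ?_⟩
    · obtain ⟨g, rfl⟩ := hmks x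
      rw [hBmk]
      have h1 : (⟨_, hcmem g g⟩ : (Q ⊓ Subgroup.centralizer (Q : Set H) : Subgroup H)) = 1 :=
        Subtype.ext (commutatorElement_self _)
      show Additive.ofMul (ζ ⟨_, hcmem g g⟩) = 0
      rw [h1, map_one]
      rfl
    · obtain ⟨g, rfl⟩ := hmks x
      refine congrArg Additive.ofMul ((QuotientGroup.eq_one_iff g).2 ((hχker g).1 fun b => ?_))
      have h1 := hx (mk b)
      rw [hBmk] at h1
      rw [hχskew, show χ b g = 1 from congrArg Additive.toMul h1, inv_one]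
    · obtain ⟨r, rfl⟩ : ∃ r0, f r0 = r := φ.toHomUnits.rangeRestrict_surjective r
      obtain ⟨a, rfl⟩ := hmks a
      obtain ⟨b, rfl⟩ := hmks b
      rw [hψ, hφ, hφ, hBmk, hBmk]
      refine congrArg Additive.ofMul (Units.ext ?_)
      refine smul_left_injective K hl ?_
      show (ζ ⟨_, hcmem (cj r b) (cj r a)⟩ : K) • e = (ζ ⟨_, hcmem b a⟩ : K) • e
      rw [← hζ, ← hζ]
      show ρ ⁅((cj r b : Q) : H), ((cj r a : Q) : H)⁆ * e = ρ ⁅(b : H), (a : H)⁆ * e
      rw [hcj, hcj, ← conjugate_commutatorElement, map_mul, map_mul, mul_assoc,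
        (commute_inv r.2.2).eq, mul_assoc, ← mul_assoc (ρ ⁅(b : H), (a : H)⁆),
        show ρ ⁅(b : H), (a : H)⁆ * e = _ from hζ ⟨_, hcmem b a⟩, smul_mul_assoc, mul_smul_comm,
        ← mul_assoc, r.2.2.eq, mul_assoc, (rho_mul_inv (r : H)).1, mul_one]
    · rw [hτ', ← map_mul, show (⟨τ, hτR⟩ : R) * ⟨τ, hτR⟩ = 1 from Subtype.ext hττ, map_one]
    · rw [hτ']
      have hker0 := blockKer_commutator_le hQe hcl hsc hQsol hτQ (hτe l hl) hcopτ hQ0e
      rw [hm1, Nat.mul_one] at hidx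
      rw [← hidx, Subgroup.relIndex, Subgroup.index_eq_card]
      have hfq : ∀ a b : Q0, (a : H)⁻¹ * b ∈ blockKer ρ Q0 e hQ0e →
          mk ⟨a, hQ0Q a.2⟩ = mk ⟨b, hQ0Q b.2⟩ := fun a b h =>
        congrArg Additive.ofMul (QuotientGroup.eq.2 (hker0 h))
      let g₀ : Q0 ⧸ (blockKer ρ Q0 e hQ0e).subgroupOf Q0 → Additive (Q ⧸ Se.subgroupOf Q) :=
        fun x => Quotient.liftOn' x (fun a => mk ⟨a, hQ0Q a.2⟩) fun a b h =>
          hfq a b (Subgroup.mem_subgroupOf.1 ((QuotientGroup.leftRel_apply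
            (s := (blockKer ρ Q0 e hQ0e).subgroupOf Q0)).1 h))
      have hsub : ∀ x : (disp ψ (f ⟨τ, hτR⟩)).range,
          (x : Additive (Q ⧸ Se.subgroupOf Q)) ∈ Set.range g₀ := by
        rintro ⟨_, y, rfl⟩
        obtain ⟨g, hg, hgm⟩ := hdisp y
        exact ⟨QuotientGroup.mk ⟨g, hg⟩, hgm⟩
      choose r hr using hsub
      exact Nat.card_le_card_of_injective r fun a b h => Subtype.ext (by rw [← hr a, h, hr b])
  letI : Module (ZMod q) (Additive (Q ⧸ Se.subgroupOf Q)) := AddCommGroup.zmodModule htors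
  set S' := (S.subgroupOf R).map f with hS'
  have hS'p : IsPGroup s S' := (hS.of_equiv (Subgroup.subgroupOfEquivOfLe hSR).symm).map f
  have hiS' : i' ∈ Subgroup.normalizer (S' : Set R') := by
    refine Subgroup.le_normalizer_map f (Subgroup.mem_map_of_mem f ?_)
    rw [Subgroup.mem_normalizer_iff]
    intro x
    simp only [Subgroup.mem_subgroupOf, Subgroup.coe_mul, Subgroup.coe_inv]
    exact Subgroup.mem_normalizer_iff.1 (Subgroup.pow_mem _ hσS _) (x : H)
  intro g hg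
  refine ⟨⟨⁅g, τ⁆, hSR (hcomR g hg)⟩, ?_, rfl⟩
  have hu : f ⟨⁅g, τ⁆, hSR (hcomR g hg)⟩ = 1 := by
    refine hdata.eq_one_of_inverted hs2 hsq S' hS'p hiS' _ ⟨_, hcomR g hg, rfl⟩ ?_
    rw [hτ', ← map_inv f ⟨τ, hτR⟩, ← map_mul, ← map_mul, ← map_inv f]
    refine congrArg f (Subtype.ext ?_)
    show τ * ⁅g, τ⁆ * τ⁻¹ = ⁅g, τ⁆⁻¹
    have ht : τ⁻¹ = τ := inv_eq_of_mul_eq_one_right hττ
    rw [commutatorElement_inv, commutatorElement_def, commutatorElement_def, ht]
    simp [mul_assoc, hττ]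
  rw [SetLike.mem_coe, MonoidHom.mem_ker, ← hψ, hu, map_one]

end CfsgLib.HallHigmanExc
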